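/-
Covering number of `PSL(n,q)`: products of conjugates of an endomorphism, cyclic vectors.
-/
import Cfsg.Agent.Classical.Lev3

set_option autoImplicit false

namespace CF.LevC

open Module CF.Cls CF.Classical Polynomial

variable {F V W : Type*} [Field F] [AddCommGroup V] [Module F V] [AddCommGroup W] [Module F W]

/-- conjugate by an automorphism with determinant in `D` -/
def CJ (D : Subgroup Fˣ) (x y : End F V) : Prop :=
  ∃ h : V ≃ₗ[F] V, LinearEquiv.det h ∈ D ∧ ∀ v, h (x v) = y (h v)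

/-- `y` is a product of `k` conjugates of `x` -/
inductive PW (D : Subgroup Fˣ) (x : End F V) : ℕ → End F V → Prop
  | zero : PW D x 0 1
  | succ {k : ℕ} {x' y : End F V} : CJ D x x' → PW D x k y → PW D x (k + 1) (x' * y)

theorem conj_eq {x : End F V} {y : End F W} (e : V ≃ₗ[F] W) (h : ∀ v, e (x v) = y (e v)) :
    e.conj x = y := by
  ext w; simp [LinearEquiv.conj_apply, h]

theorem conj_app (e : V ≃ₗ[F] W) (x : End F V) (v : V) : e (x v) = e.conj x (e v) := by
  simp [LinearEquiv.conj_apply]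

theorem conj_mul (e : V ≃ₗ[F] W) (x y : End F V) : e.conj (x * y) = e.conj x * e.conj y := by
  ext w; simp [LinearEquiv.conj_apply]

theorem conj_one' (e : V ≃ₗ[F] W) : e.conj (1 : End F V) = 1 := by
  ext w; simp [LinearEquiv.conj_apply]

variable {D : Subgroup Fˣ} {x y z : End F V}

namespace CJ

theorem refl (x : End F V) : CJ D x x := ⟨.refl F V, by simp [one_mem], fun _ => rfl⟩

theorem symm (h : CJ D x y) : CJ D y x := by
  obtain ⟨e, h1, h2⟩ := h
  exact ⟨e.symm, by simpa using D.inv_mem h1, fun w => e.injective (by simp [h2])⟩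

theorem trans (h : CJ D x y) (h' : CJ D y z) : CJ D x z := by
  obtain ⟨e, h1, h2⟩ := h
  obtain ⟨e', h3, h4⟩ := h'
  exact ⟨e.trans e', by simpa using D.mul_mem h3 h1, fun v => by simp [h2, h4]⟩

theorem sim (h : CJ D x y) : Sim x y := let ⟨e, _, h⟩ := h; ⟨e, h⟩

theorem mono {D' : Subgroup Fˣ} (hD : D ≤ D') (h : CJ D x y) : CJ D' x y :=
  let ⟨e, h1, h⟩ := h; ⟨e, hD h1, h⟩

theorem top (h : Sim x y) : CJ ⊤ x y := let ⟨e, h⟩ := h; ⟨e, trivial, h⟩

theorem of_detC (e : V ≃ₗ[F] V) (he : ∀ v, e (x v) = y (e v))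
    (h : (LinearEquiv.det e)⁻¹ ∈ detC x) : CJ D x y := by
  obtain ⟨t, ht, h⟩ := h
  refine ⟨t.trans e, ?_, fun v => by simp [ht v, he]⟩
  rw [LinearEquiv.det_trans, h, mul_inv_cancel]
  exact D.one_mem

theorem of_sim (hx : detC x = ⊤) (h : Sim x y) : CJ D x y :=
  let ⟨e, h⟩ := h; of_detC e h (hx ▸ trivial)

theorem conj (e : V ≃ₗ[F] W) (h : CJ D x y) : CJ D (e.conj x) (e.conj y) := by
  obtain ⟨t, h1, h2⟩ := h
  refine ⟨conjLE e t, by rwa [det_conjLE], fun w => ?_⟩
  simp [conjLE, LinearEquiv.conj_apply, h2]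

theorem smul (c : F) (h : CJ D x y) : CJ D (c • x) (c • y) :=
  let ⟨e, h1, h⟩ := h; ⟨e, h1, fun v => by simp [h]⟩

theorem of_conj (e : V ≃ₗ[F] V) (he : LinearEquiv.det e ∈ D) (x : End F V) :
    CJ D x (e.conj x) := ⟨e, he, conj_app e x⟩

end CJ

namespace PW

variable {k l : ℕ}

theorem one (x : End F V) : PW D x 1 x := by simpa using PW.succ (CJ.refl x) PW.zero

theorem mul (h : PW D x k y) (h' : PW D x l z) : PW D x (k + l) (y * z) := by
  induction h with
  | zero => simpa using h'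
  | succ h1 _ ih => rw [Nat.add_right_comm, mul_assoc]; exact ih.succ h1

theorem conj (e : V ≃ₗ[F] W) (h : PW D x k y) : PW D (e.conj x) k (e.conj y) := by
  induction h with
  | zero => rw [conj_one']; exact zero
  | succ h1 _ ih => rw [conj_mul]; exact ih.succ (h1.conj e)

theorem left {x' : End F V} (hx : CJ D x x') (h : PW D x k y) : PW D x' k y := by
  induction h with
  | zero => exact zero
  | succ h1 _ ih => exact ih.succ (hx.symm.trans h1)

theorem right (hy : CJ D y z) (h : PW D x k y) : PW D x k z := by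
  obtain ⟨e, h1, h2⟩ := hy
  exact conj_eq e h2 ▸ (h.conj e).left (CJ.of_conj e h1 x).symm

theorem sim {x' y' : End F W} (h : PW ⊤ x k y) (hx : Sim x x') (hy : Sim y y') :
    PW ⊤ x' k y' := by
  obtain ⟨e, h2⟩ := hy
  exact conj_eq e h2 ▸ (h.conj e).left (CJ.top ((Sim.of_conj e x).symm.trans hx))

theorem mono {D' : Subgroup Fˣ} (hD : D ≤ D') (h : PW D x k y) : PW D' x k y := by
  induction h with
  | zero => exact zero
  | succ h1 _ ih => exact ih.succ (h1.mono hD)

theorem of_top (hx : detC x = ⊤) (h : PW ⊤ x k y) : PW D x k y := by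
  induction h with
  | zero => exact zero
  | succ h1 _ ih => exact ih.succ (CJ.of_sim hx h1.sim)

theorem smul (c : F) (h : PW D x k y) : PW D (c • x) k (c ^ k • y) := by
  induction h with
  | zero => simpa using zero
  | succ h1 _ ih =>
    have := ih.succ (h1.smul c)
    rwa [smul_mul_smul_comm, ← pow_succ'] at this

theorem det (h : PW D x k y) : LinearMap.det y = LinearMap.det x ^ k := by
  induction h with
  | zero => simp
  | succ h1 _ ih => rw [map_mul, ih, ← h1.sim.det_eq, pow_succ']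

theorem isUnit (hx : IsUnit x) (h : PW D x k y) : IsUnit y := by
  induction h with
  | zero => exact isUnit_one
  | succ h1 _ ih => exact (h1.sim.isUnit_iff.1 hx).mul ih

theorem prodMap {x' y' : End F W} (h : PW ⊤ x k y) (h' : PW ⊤ x' k y') :
    PW ⊤ (x.prodMap x' : End F (V × W)) k (y.prodMap y') := by
  induction h generalizing y' with
  | zero => cases h'; exact zero
  | succ h1 _ ih =>
    cases h' with
    | succ h2 h3 => exact (ih h3).succ (CJ.top (h1.sim.prodMap h2.sim))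

theorem one_one (k : ℕ) : PW D (1 : End F V) k 1 := by
  induction k with
  | zero => exact zero
  | succ k ih => simpa using ih.succ (CJ.refl 1)

theorem eq_one (h : PW D (1 : End F V) k y) : y = 1 := by
  induction h with
  | zero => rfl
  | succ h1 _ ih =>
    obtain ⟨e, -, he⟩ := h1
    rw [ih, ← conj_eq e he, conj_one', mul_one]

end PW

/-- `u` is a cyclic vector -/
def Cyc (x : End F V) (u : V) : Prop :=
  ∀ M : Submodule F V, u ∈ M → (∀ v ∈ M, x v ∈ M) → M = ⊤

/-- `ν` is not an eigenvalue -/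
def NoEig (x : End F V) (ν : F) : Prop := ∀ v, x v = ν • v → v = 0

theorem inv_mem_of_inj [FiniteDimensional F V] {M : Submodule F V} (hx : Function.Injective x)
    (h : ∀ v ∈ M, x v ∈ M) {v : V} (hv : x v ∈ M) : v ∈ M := by
  have h1 : M.map x = M := Submodule.eq_of_le_of_finrank_le (by rintro _ ⟨v, hv, rfl⟩; exact h v hv)
    (lv_finrank_map fun v _ h => hx (by simpa using h)).ge
  obtain ⟨w, hw, h2⟩ : x v ∈ M.map x := h1.symm ▸ hv
  exact hx h2 ▸ hw

theorem inj_of_isUnit (hx : IsUnit x) : Function.Injective x := ((End.isUnit_iff x).1 hx).1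

theorem isUnit_of_det [FiniteDimensional F V] (h : LinearMap.det x ≠ 0) : IsUnit x :=
  (LinearMap.isUnit_iff_isUnit_det _).2 h.isUnit

theorem det_ne_zero [FiniteDimensional F V] (h : IsUnit x) : LinearMap.det x ≠ 0 :=
  ((LinearMap.isUnit_iff_isUnit_det _).1 h).ne_zero

namespace Cyc

variable {u : V}

theorem exists_aeval (h : Cyc x u) (w : V) : ∃ p : F[X], aeval x p u = w := by
  have := h (LinearMap.range (LinearMap.applyₗ u ∘ₗ (aeval x : F[X] →ₐ[F] _).toLinearMap))
    ⟨1, by simp⟩ (by rintro _ ⟨p, rfl⟩; exact ⟨X * p, by simp⟩)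
  exact (this ▸ Submodule.mem_top : w ∈ _)

theorem sim_cyc [FiniteDimensional F V] (h : Cyc x u) {a : F[X]} (ha : a.Monic)
    (hd : a.natDegree = finrank F V) (h0 : aeval x a u = 0) : Sim (cyc a) x := by
  let e : AdjoinRoot a →ₗ[F] V := LinearMap.applyₗ u ∘ₗ (aeval x : F[X] →ₐ[F] _).toLinearMap ∘ₗ
    AdjoinRoot.modByMonicHom ha
  have he : ∀ p, e (AdjoinRoot.mk a p) = aeval x p u := fun p => by
    conv_rhs => rw [← modByMonic_add_div p a, mul_comm]
    simp [e, h0]
  have hs : Function.Surjective e := fun w => let ⟨p, hp⟩ := h.exists_aeval w; ⟨_, (he p).trans hp⟩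
  have := fd_adjoinRoot ha.ne_zero
  refine ⟨LinearEquiv.ofBijective e ⟨(LinearMap.injective_iff_surjective_of_finrank_eq_finrank
    (by rw [finrank_adjoinRoot, hd])).2 hs, hs⟩, fun v => ?_⟩
  obtain ⟨p, rfl⟩ := AdjoinRoot.mk_surjective v
  change e _ = x (e _)
  rw [cyc_apply, ← AdjoinRoot.mk_X, ← map_mul, he, he]; simp

theorem sim_charpoly [FiniteDimensional F V] (h : Cyc x u) : Sim (cyc x.charpoly) x :=
  h.sim_cyc x.charpoly_monic x.charpoly_natDegree (by simp [LinearMap.aeval_self_charpoly])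

theorem map {y : End F W} (h : Cyc x u) (e : V ≃ₗ[F] W) (he : ∀ v, e (x v) = y (e v)) :
    Cyc y (e u) := fun M h1 h2 => by
  have := h (M.comap e.toLinearMap) h1 fun v hv => by simpa [he] using h2 _ hv
  exact eq_top_iff.2 fun w _ => by
    simpa using (this ▸ Submodule.mem_top : e.symm w ∈ M.comap e.toLinearMap)

theorem inv [FiniteDimensional F V] (h : Cyc x u) (hy : y * x = 1) : Cyc y u := fun M h1 h2 => by
  have hx : x * y = 1 := mul_eq_one_comm.1 hy
  refine h M h1 fun v hv => inv_mem_of_inj (x := y) (fun a b hab => ?_) h2 ?_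
  · simpa [← End.mul_apply, hx] using congrArg x hab
  · simpa [← End.mul_apply, hy] using hv

theorem apply [FiniteDimensional F V] (h : Cyc x u) (hx : IsUnit x) : Cyc x (x u) :=
  fun M h1 h2 => h M (inv_mem_of_inj (inj_of_isUnit hx) h2 h1) h2

theorem swap (h : Cyc (x * y) u) (hy : IsUnit y) : Cyc (y * x) (y u) :=
  h.map (LinearEquiv.ofBijective y ((End.isUnit_iff y).1 hy)) fun _ => rfl

theorem smul (h : Cyc x u) {c : F} (hc : c ≠ 0) : Cyc (c • x) u := fun M h1 h2 =>
  h M h1 fun v hv => (M.smul_mem_iff hc).1 (h2 v hv)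

end Cyc

theorem cyc_one (a : F[X]) : Cyc (cyc a) 1 := fun M h1 h2 => eq_top_iff.2 fun v _ => by
  obtain ⟨p, rfl⟩ := AdjoinRoot.mk_surjective v
  induction p using Polynomial.induction_on with
  | C c => simpa [Algebra.smul_def] using M.smul_mem c h1
  | add p q hp hq => simpa using M.add_mem (hp trivial) (hq trivial)
  | monomial n c ih =>
    have := h2 _ (ih trivial)
    rwa [cyc_apply, ← AdjoinRoot.mk_X, ← map_mul, mul_left_comm, ← pow_succ'] at this

theorem exists_cyc_of_sim {a : F[X]} (h : Sim (cyc a) x) : ∃ u, Cyc x u :=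
  let ⟨e, he⟩ := h; ⟨_, (cyc_one a).map e he⟩

theorem NoEig.sim {y : End F W} {ν : F} (h : NoEig x ν) (h' : Sim x y) : NoEig y ν := by
  obtain ⟨e, he⟩ := h'
  intro w hw
  obtain ⟨v, rfl⟩ := e.surjective w
  rw [h v (e.injective (by rw [he, hw, map_smul])), map_zero]

theorem NoEig.prodMap {y : End F W} {ν : F} (h : NoEig x ν) (h' : NoEig y ν) :
    NoEig (x.prodMap y : End F (V × W)) ν := fun v hv =>
  Prod.ext (h _ (congrArg Prod.fst hv)) (h' _ (congrArg Prod.snd hv))

theorem noEig_smul_one {μ ν : F} (h : μ ≠ ν) : NoEig (μ • (1 : End F F)) ν := fun v hv => by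
  simpa [h] using hv

theorem noEig_cyc_iff {a : F[X]} (ha : a ≠ 0) {ν : F} : NoEig (cyc a) ν ↔ a.eval ν ≠ 0 := by
  refine ⟨fun h h0 => ?_, fun h v hv => ?_⟩
  · obtain ⟨q, hq⟩ := dvd_iff_isRoot.2 h0
    have hq0 : q ≠ 0 := by rintro rfl; simp [ha] at hq
    have := h (AdjoinRoot.mk a q) (by
      rw [cyc_apply, ← sub_eq_zero, Algebra.smul_def, ← sub_mul, ← AdjoinRoot.mk_X]
      exact (map_mul (AdjoinRoot.mk a) (X - C ν) q).symm.trans (hq ▸ AdjoinRoot.mk_self))
    have h1 := natDegree_le_of_dvd (AdjoinRoot.mk_eq_zero.1 this) hq0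
    rw [hq, (monic_X_sub_C ν).natDegree_mul' hq0, natDegree_X_sub_C] at h1
    omega
  · have h1 : aeval (cyc a) a v = a.eval ν • v :=
      Module.End.aeval_apply_of_mem_apply_eq_smul hv
    rw [(aeval_cyc_eq_zero_iff a a).2 dvd_rfl] at h1
    exact (smul_eq_zero.1 h1.symm).resolve_left h

theorem NoEig.inv {ν : F} (h : NoEig x ν) (hν : ν ≠ 0) (hy : x * y = 1) : NoEig y ν⁻¹ :=
  fun v hv => h v (by
    have := congrArg x hv
    rw [← End.mul_apply, hy, map_smul] at this
    rw [show v = ν⁻¹ • x v from this, smul_smul, mul_inv_cancel₀ hν, one_smul, ← this]; rfl)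

theorem sim_inv [FiniteDimensional F V] [FiniteDimensional F W] {x' : End F V} {y y' : End F W}
    (h : Sim x y) (hx : x' * x = 1) (hy : y' * y = 1) : Sim x' y' := by
  obtain ⟨e, he⟩ := h
  refine ⟨e, fun v => ?_⟩
  have h1 : x (x' v) = v := by rw [← End.mul_apply, mul_eq_one_comm.1 hx]; rfl
  conv_rhs => rw [← h1, he, ← End.mul_apply, hy]
  rfl

theorem sim_swap (x : End F V) (y : End F W) :
    Sim (x.prodMap y : End F (V × W)) (y.prodMap x : End F (W × V)) :=
  ⟨LinearEquiv.prodComm F V W, fun _ => rfl⟩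

theorem sim_assoc {U : Type*} [AddCommGroup U] [Module F U] (x : End F V) (y : End F W)
    (z : End F U) : Sim ((x.prodMap y).prodMap z : End F ((V × W) × U))
      (x.prodMap (y.prodMap z) : End F (V × W × U)) :=
  ⟨LinearEquiv.prodAssoc F V W U, fun _ => rfl⟩

theorem exists_inv (hx : IsUnit x) : ∃ y, y * x = 1 ∧ x * y = 1 :=
  let ⟨u, hu⟩ := hx; ⟨↑u⁻¹, hu ▸ u.inv_mul, hu ▸ u.mul_inv⟩

theorem nonscalar_inv (hs : ∀ c : F, x ≠ c • 1) (hy : x * y = 1) (c : F) : y ≠ c • 1 := by
  rintro rfl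
  rcases eq_or_ne c 0 with rfl | hc
  · exact hs 0 (by rw [← mul_one x, ← hy]; simp)
  · exact hs c⁻¹ (by rw [← hy]; simp [smul_smul, hc])

end CF.LevC
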