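/-
Covering number of `PSL(n,q)`: elements with a simple eigenvalue and a cyclic complement.
-/
import Cfsg.Agent.LevC.A

set_option autoImplicit false

namespace CF.LevC

open Module CF.Cls CF.Classical Polynomial

variable {F V W : Type*} [Field F] [AddCommGroup V] [Module F V] [AddCommGroup W] [Module F W]
  [FiniteDimensional F V] [FiniteDimensional F W]

/-- a simple eigenvalue with a cyclic complement -/
def TT (Z : End F V) : Prop :=
  ∃ (μ : F) (b : F[X]), b.Monic ∧ b.natDegree + 1 = finrank F V ∧ b.eval μ ≠ 0 ∧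
    Sim ((μ • (1 : End F F)).prodMap (cyc b) : End F (F × _)) Z

variable {D : Subgroup Fˣ} {x y g Z : End F V}

theorem detC_top_of_sim {μ : F} {y : End F W}
    (h : Sim ((μ • (1 : End F F)).prodMap y : End F (F × W)) x) : detC x = ⊤ :=
  h.detC_eq ▸ eq_top_iff.2 ((detC_smul_one μ).ge.trans (detC_prodMap_left _ _))

theorem det_sc (μ : F) (y : End F W) :
    LinearMap.det ((μ • (1 : End F F)).prodMap y : End F (F × W)) = μ * LinearMap.det y := by
  rw [LinearMap.det_prodMap]; simp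

theorem TT.detC (h : TT Z) : detC Z = ⊤ := by
  obtain ⟨μ, b, h1, -, -, h⟩ := h
  have := fd_adjoinRoot h1.ne_zero
  exact detC_top_of_sim h

omit [FiniteDimensional F V] [FiniteDimensional F W] in
theorem TT.sim {Z' : End F W} (h : TT Z) (h' : Sim Z Z') : TT Z' :=
  let ⟨μ, b, h1, h2, h3, h⟩ := h; ⟨μ, b, h1, h'.finrank_eq ▸ h2, h3, h.trans h'⟩

omit [FiniteDimensional F V] in
theorem TT.of {Y : End F W} {u : W} {μ : F} (h1 : Cyc Y u) (h2 : NoEig Y μ)
    (h : Sim ((μ • (1 : End F F)).prodMap Y : End F (F × W)) Z) : TT Z := by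
  refine ⟨μ, Y.charpoly, Y.charpoly_monic, ?_, (noEig_cyc_iff Y.charpoly_monic.ne_zero).1
    (h2.sim h1.sim_charpoly.symm), ((Sim.refl _).prodMap h1.sim_charpoly).trans h⟩
  rw [← h.finrank_eq, Y.charpoly_natDegree]; simp [add_comm]

theorem TT.inv {Z' : End F V} (h : TT Z) (h' : Z' * Z = 1) : TT Z' := by
  obtain ⟨μ, b, h1, h2, h3, h⟩ := h
  have := fd_adjoinRoot h1.ne_zero
  have hd : LinearMap.det Z ≠ 0 := fun h0 => by simpa [h0] using congrArg LinearMap.det h'
  rw [← h.det_eq, det_sc] at hd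
  obtain ⟨y, k1, k2⟩ := exists_inv (isUnit_of_det (right_ne_zero_of_mul hd))
  have hμ := left_ne_zero_of_mul hd
  refine TT.of ((cyc_one b).inv k1) (((noEig_cyc_iff h1.ne_zero).2 h3).inv hμ k2)
    (sim_inv h ?_ h')
  rw [LinearMap.prodMap_mul, k1, smul_mul_smul_comm, inv_mul_cancel₀ hμ]
  simp [LinearMap.prodMap_one]

omit [FiniteDimensional F V] in
theorem TT.cyc (h : TT Z) : ∃ u, Cyc Z u :=
  let ⟨_, _, _, _, h3, h⟩ := h
  exists_cyc_of_sim ((sim_cyc_X_sub_C_mul h3).symm.trans h)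

theorem lev_TT (hg : IsUnit g) (hs : ∀ c : F, g ≠ c • 1) (hZ : TT Z) (hu : IsUnit Z) {u : V}
    (hy : Cyc y u) (hd : LinearMap.det g * LinearMap.det Z = LinearMap.det y) :
    ∃ Z' : End F V, Sim Z Z' ∧ Sim y (g * Z') := by
  obtain ⟨μ, b, h1, h2, h3, h⟩ := hZ
  have := fd_adjoinRoot h1.ne_zero
  have h4 := det_ne_zero hu
  rw [← h.det_eq, det_sc, det_cyc h1] at hd h4
  rw [← hy.sim_charpoly.det_eq, det_cyc y.charpoly_monic, y.charpoly_natDegree, ← h2] at hd
  obtain ⟨Z', k1, k2⟩ := lev_factor hg hs y.charpoly_monic h1 y.charpoly_natDegree h2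
    (fun h => by simp [h] at h4) h3 (mul_left_cancel₀ (pow_ne_zero b.natDegree (neg_ne_zero.2 one_ne_zero))
      (by linear_combination hd))
  exact ⟨Z', h.symm.trans k1, hy.sim_charpoly.symm.trans k2⟩

theorem PW.simT {k : ℕ} {Z' : End F V} (h : PW D x k Z) (hZ : detC Z = ⊤) (h' : Sim Z Z') :
    PW D x k Z' := h.right (CJ.of_sim hZ h')

theorem cover {k l : ℕ} {w Z : End F V} {u : V} (hg : IsUnit g) (hs : ∀ c : F, g ≠ c • 1)
    (h1 : PW D x k w) (hw : detC w = ⊤) (hu : Cyc w u) (h2 : PW D x l Z) (hZ : TT Z)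
    (hZu : IsUnit Z) (hd : LinearMap.det g = LinearMap.det w * LinearMap.det Z) :
    PW D x (k + l) g := by
  obtain ⟨Z₀, k1, k2⟩ := exists_inv hZu
  obtain ⟨Z', k3, k4⟩ := lev_TT hg hs (hZ.inv k1) (IsUnit.of_mul_eq_one _ k1) hu
    (by rw [hd, mul_assoc, ← map_mul, k2, map_one, mul_one])
  obtain ⟨Z'', k5, k6⟩ := exists_inv (k3.isUnit_iff.1 (IsUnit.of_mul_eq_one _ k1))
  have := (h1.simT hw k4).mul (h2.simT hZ.detC (sim_inv k3 k2 k5))
  rwa [mul_assoc, k6, mul_one] at this

/-- some product of `k` conjugates has a simple eigenvalue with cyclic complement -/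
def Good (D : Subgroup Fˣ) (x : End F V) (k : ℕ) : Prop := ∃ Z, TT Z ∧ PW D x k Z

theorem Good.mono {k l : ℕ} (hs : ∀ c : F, x ≠ c • 1) (hd : LinearMap.det x = 1)
    (h : Good D x k) (hl : k ≤ l) : Good D x l := by
  have hx : IsUnit x := isUnit_of_det (by simp [hd])
  induction hl with
  | refl => exact h
  | step _ ih =>
    obtain ⟨Z, h1, h2⟩ := ih
    obtain ⟨u, hu⟩ := h1.cyc
    obtain ⟨Z', k1, k2⟩ := lev_TT hx hs h1 (h2.isUnit hx) hu (by rw [hd, one_mul])
    exact ⟨_, h1.sim k2, (h2.simT h1.detC k1).succ (CJ.refl x)⟩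

theorem Good.cover {k N : ℕ} (hs : ∀ c : F, x ≠ c • 1) (hd : LinearMap.det x = 1)
    (h : Good D x k) (hN : 2 * k ≤ N) (hgs : ∀ c : F, g ≠ c • 1) (hg : LinearMap.det g = 1) :
    PW D x N g := by
  obtain ⟨w, h1, h2⟩ := h.mono hs hd (l := N - k) (by omega)
  obtain ⟨Z, h3, h4⟩ := h
  obtain ⟨u, hu⟩ := h1.cyc
  have := LevC.cover (isUnit_of_det (by simp [hg])) hgs h2 h1.detC hu h4 h3
    (h4.isUnit (isUnit_of_det (by simp [hd]))) (by simp [h2.det, h4.det, hg, hd])
  rwa [show N - k + k = N by omega] at this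

theorem Good.central {k N : ℕ} (hs : ∀ c : F, x ≠ c • 1) (hd : LinearMap.det x = 1)
    (h : Good D x k) (hN : 2 * k + 1 ≤ N) : PW D x N 1 := by
  obtain ⟨y, h1, h2⟩ := exists_inv (isUnit_of_det (x := x) (by simp [hd]))
  obtain ⟨N, rfl⟩ : ∃ M, N = M + 1 := ⟨N - 1, by omega⟩
  exact h2 ▸ (h.cover hs hd (by omega) (nonscalar_inv hs h2)
    (by simpa [hd] using congrArg LinearMap.det h2)).succ (CJ.refl x)

omit [FiniteDimensional F V] in
theorem pw_telescope {P : V ≃ₗ[F] V} (hP : ∀ i : ℕ, CJ D x ((P ^ i).conj x)) (k : ℕ) :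
    PW D x k ((x * (P : End F V)) ^ k * ((P ^ k).symm : End F V)) := by
  induction k with
  | zero => exact PW.zero
  | succ k ih =>
    have := ih.mul ((PW.one _).left (hP k).symm)
    convert this using 1
    ext v
    have : P ((P ^ k * P).symm v) = (P ^ k).symm v := by
      rw [LinearEquiv.eq_symm_apply]; exact (P ^ k * P).apply_symm_apply v
    simp [pow_succ, LinearEquiv.conj_apply, this]

/-- the identity is a product of `n` conjugates -/
theorem pw_one (hs : ∀ c : F, x ≠ c • 1) (hd : LinearMap.det x = 1)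
    (h : Odd (finrank F V) ∨ detC x = ⊤) : PW D x (finrank F V) 1 := by
  have hn : finrank F V ≠ 0 := fun h0 => by
    have := finrank_zero_iff.1 h0
    exact hs 0 (Subsingleton.elim _ _)
  obtain ⟨n, hn⟩ := Nat.exists_eq_succ_of_ne_zero hn
  let b : F[X] := ∑ i ∈ Finset.range (n + 1), X ^ i
  have hb : b.Monic := monic_geom_sum_X n.succ_ne_zero
  have hab : b * (X - 1) = X ^ (n + 1) - 1 := geom_sum_mul _ _
  have ha : (X ^ (n + 1) - 1 : F[X]).Monic := monic_X_pow_sub_C 1 n.succ_ne_zero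
  have hda : (X ^ (n + 1) - 1 : F[X]).natDegree = n + 1 := natDegree_X_pow_sub_C
  have hdb : b.natDegree = n := by
    have := hb.natDegree_mul (monic_X_sub_one (F := F))
    rw [hab, hda, natDegree_X_sub_one] at this
    omega
  have hb0 : b.coeff 0 = 1 := by
    have := congrArg (coeff · 0) hab
    simpa using this
  obtain ⟨Z, e, φ, k1, k2, k3, k4, k5, -⟩ := lev_core (μ := 1) (isUnit_of_det (by simp [hd])) hs ha
    hb (hda.trans hn.symm) (by rw [hdb, hn]) (by simp [hb0]) (by simp [hb0, hd])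
  have h1 : Z ^ (n + 1) = 1 := by
    have : aeval Z (b * (X - 1)) = 0 := by
      ext v
      obtain ⟨y, hy⟩ : Z v - v ∈ LinearMap.range e := by rw [← k2]; simp [k4]
      have := aeval_intertwine e k3 b y
      rw [(aeval_cyc_eq_zero_iff b b).2 dvd_rfl, hy] at this
      simpa using this.symm
    simpa [hab, sub_eq_zero] using this
  have h2 : (x * Z) ^ (n + 1) = 1 := by
    have := (k5.aeval_eq_zero_iff _).1 ((aeval_cyc_eq_zero_iff _ _).2 dvd_rfl)
    simpa [sub_eq_zero] using this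
  have h3 : LinearMap.det Z = (-1) ^ n := by
    have := k5.det_eq
    rw [det_cyc ha, hda, map_mul, hd] at this
    simp at this
    rw [← this, pow_succ]; simp
  let P := LinearEquiv.ofBijective Z ((End.isUnit_iff Z).1 (isUnit_of_det (by simp [h3])))
  have hP : (P : End F V) = Z := rfl
  have := pw_telescope (D := D) (x := x) (P := P) (fun i => ?_) (n + 1)
  · have h4 : P ^ (n + 1) = 1 := LinearEquiv.ext fun v => by
      have := LinearMap.congr_fun h1 v
      rw [End.pow_apply] at this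
      rw [LinearEquiv.pow_apply]; exact this
    rw [hP, h2, h4] at this
    exact hn ▸ this
  · rcases h with h | h
    · refine CJ.of_conj _ ?_ x
      have : LinearEquiv.det P = 1 := Units.ext (by
        rw [LinearEquiv.coe_det, hP, h3]
        exact Even.neg_one_pow (by rw [hn] at h; simpa [parity_simps] using h))
      simp [this, D.one_mem]
    · exact CJ.of_sim h (Sim.of_conj _ _)

end CF.LevC
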