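/-
Covering number of `PSL(n,q)`: similarity up to trivial summands, and rank one perturbations.
-/
import Cfsg.Agent.LevC.B

set_option autoImplicit false

namespace CF.LevC

open Module CF.Cls CF.Classical Polynomial

variable {F V W A : Type*} [Field F] [AddCommGroup V] [Module F V] [AddCommGroup W] [Module F W]
  [AddCommGroup A] [Module F A] [FiniteDimensional F V] [FiniteDimensional F W]
  [FiniteDimensional F A]

/-- elementary divisors up to trivial summands -/
def LK (x : End F V) (t : Multiset F[X]) : Prop :=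
  ∃ a b : ℕ, ed x + Multiset.replicate a (X - 1) = t + Multiset.replicate b (X - 1)

theorem ed_one : ed (1 : End F V) = Multiset.replicate (finrank F V) (X - 1) := by
  have h : ∀ a ∈ ed (1 : End F V), a = X - 1 := fun a ha => by
    have h1 := (aeval_eq_zero_iff_ed (1 : End F V) (X - 1)).1 (by simp) a ha
    have h2 := ed_isPP _ a ha
    exact (eq_of_monic_of_dvd_of_natDegree_le h2.monic monic_X_sub_one h1
      (by rw [natDegree_X_sub_one]; exact h2.natDegree_pos)).symm
  have h1 := Multiset.eq_replicate_of_mem h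
  have h2 := finrank_eq_ed (1 : End F V)
  rw [h1] at h2
  simp only [Multiset.map_replicate, natDegree_X_sub_one, Multiset.sum_replicate, smul_eq_mul,
    mul_one] at h2
  rw [h2]; exact h1

variable {x g : End F V} {y : End F W} {t : Multiset F[X]}

theorem LK.refl (x : End F V) : LK x (ed x) := ⟨0, 0, rfl⟩

theorem LK.of_sim (h : LK x t) (h' : Sim x y) : LK y t := by
  rwa [LK, ← sim_iff_ed.1 h']

theorem LK.sim (h : LK x t) (h' : LK y t) (hd : finrank F V = finrank F W) : Sim x y := by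
  obtain ⟨a, b, h⟩ := h
  obtain ⟨a', b', h'⟩ := h'
  have h1 : ed x + Multiset.replicate (a + b') (X - 1) =
      ed y + Multiset.replicate (a' + b) (X - 1) := by
    rw [Multiset.replicate_add, Multiset.replicate_add, ← add_assoc, ← add_assoc, h, h',
      add_right_comm]
  have h2 := congrArg (fun s => (s.map natDegree).sum) h1
  simp only [Multiset.map_add, Multiset.sum_add, ← finrank_eq_ed, Multiset.map_replicate,
    natDegree_X_sub_one, Multiset.sum_replicate, smul_eq_mul, mul_one] at h2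
  rw [show a + b' = a' + b by omega] at h1
  exact sim_iff_ed.2 (add_right_cancel h1)

theorem LK.one : LK (1 : End F V) 0 := ⟨0, finrank F V, by rw [ed_one]; simp⟩

theorem LK.prod {s : Multiset F[X]} (h : LK x t) (h' : LK y s) :
    LK (x.prodMap y : End F (V × W)) (t + s) := by
  obtain ⟨a, b, h⟩ := h
  obtain ⟨a', b', h'⟩ := h'
  refine ⟨a + a', b + b', ?_⟩
  rw [ed_prodMap, Multiset.replicate_add, Multiset.replicate_add, add_add_add_comm, h, h',
    add_add_add_comm]

theorem LK.one_prod (h : LK x t) : LK ((1 : End F W).prodMap x : End F (W × V)) t := by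
  simpa using LK.one.prod h

/-- `γ` acting on a retract -/
def rt (ι : A →ₗ[F] V) (π : V →ₗ[F] A) (γ : End F A) : End F V := 1 + ι ∘ₗ (γ - 1) ∘ₗ π

omit [FiniteDimensional F V] [FiniteDimensional F A] in
theorem rt_apply (ι : A →ₗ[F] V) (π : V →ₗ[F] A) (γ : End F A) (v : V) :
    rt ι π γ v = v + ι (γ (π v) - π v) := rfl

variable {ι : A →ₗ[F] V} {π : V →ₗ[F] A}

omit [FiniteDimensional F V] [FiniteDimensional F A] in
theorem sim_rt (h : ∀ a, π (ι a) = a) (h1 : ∀ a, g (ι a) = ι a) (h2 : ∀ v, π (g v) = π v)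
    (γ : End F A) : Sim (γ.prodMap (g.restrict (p := LinearMap.ker π) (q := LinearMap.ker π)
      fun v hv => (h2 v).trans hv) : End F (A × _)) (rt ι π γ * g) := by
  let e : (A × LinearMap.ker π) →ₗ[F] V := ι.coprod (LinearMap.ker π).subtype
  have he : ∀ p, π (e p) = p.1 := fun p => by simp [e, h, LinearMap.mem_ker.1 p.2.2]
  refine ⟨LinearEquiv.ofBijective e ⟨(injective_iff_map_eq_zero _).2 fun ⟨a, k⟩ hp => ?_,
    fun v => ⟨(π v, ⟨v - ι (π v), by simp [h]⟩), by simp [e]⟩⟩, fun ⟨a, k⟩ => ?_⟩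
  · obtain rfl : a = 0 := by simpa [hp] using (he (a, k)).symm
    simpa [e] using hp
  · change e _ = rt ι π γ (g (e _))
    rw [rt_apply, h2, he]
    simp [e, h1]; abel

theorem LK.rt (h : ∀ a, π (ι a) = a) (h1 : ∀ a, g (ι a) = ι a) (h2 : ∀ v, π (g v) = π v)
    (γ : End F A) (hg : LK g t) : LK (rt ι π γ * g) (t + ed γ) := by
  have k1 := sim_iff_ed.1 (sim_rt h h1 h2 γ)
  have k2 := sim_iff_ed.1 (sim_rt h h1 h2 1)
  rw [show LevC.rt ι π 1 = 1 by simp [LevC.rt], one_mul] at k2
  rw [ed_prodMap] at k1 k2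
  obtain ⟨a, b, hg⟩ := hg
  refine ⟨a + finrank F A, b, ?_⟩
  rw [← k1, Multiset.replicate_add, ← ed_one, add_right_comm t, ← hg, ← k2]
  abel

omit [FiniteDimensional F V] [FiniteDimensional F A] in
theorem rt_comm (h1 : ∀ a, g (ι a) = ι a) (h2 : ∀ v, π (g v) = π v) (γ : End F A) :
    g * rt ι π γ = rt ι π γ * g := by
  ext v; simp [rt_apply, h1, h2]

theorem isUnit_rt (h : ∀ a, π (ι a) = a) {γ : End F A} (hγ : IsUnit γ) : IsUnit (rt ι π γ) := by
  have := (sim_rt (g := 1) h (fun _ => rfl) (fun _ => rfl) γ).det_eq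
  rw [mul_one, LinearMap.det_prodMap] at this
  refine isUnit_of_det (this ▸ mul_ne_zero (det_ne_zero hγ) (det_ne_zero ?_))
  convert isUnit_one using 1
  rfl

open LinearMap (transvection)

/-- the model of a rank one perturbation of the identity with determinant `δ` -/
noncomputable def rowM (δ : F) : Multiset F[X] := by
  classical
  exact if δ = 1 then ed (transvection (LinearMap.snd F F F) (1, 0) : End F (F × F))
    else ed (δ • (1 : End F F))

theorem lk_transvection {ψ : Dual F V} {e : V} (he : e ≠ 0) (hψ : ψ ≠ 0) :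
    LK (transvection ψ e) (rowM (1 + ψ e)) := by
  unfold rowM
  split_ifs with h
  · have h0 : ψ e = 0 := by simpa using h
    obtain ⟨w, hw⟩ : ∃ w, ψ w = 1 := by
      obtain ⟨w, hw⟩ := DFunLike.ne_iff.1 hψ
      exact ⟨(ψ w)⁻¹ • w, by simp [inv_mul_cancel₀ (show ψ w ≠ 0 from hw)]⟩
    obtain ⟨θ, h1, h2⟩ := lv_exists_dual (W := F ∙ w) (z := e) fun h => by
      obtain ⟨c, rfl⟩ := Submodule.mem_span_singleton.1 h
      simp [hw] at h0
      simp [h0] at he
    have h3 := h2 w (Submodule.mem_span_singleton_self w)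
    have := LK.rt (g := 1) (ι := (LinearMap.toSpanSingleton F V e).coprod
      (LinearMap.toSpanSingleton F V w)) (π := θ.prod ψ) (fun a => by simp [h0, h1, h3, hw])
      (fun _ => rfl) (fun _ => rfl) (transvection (LinearMap.snd F F F) (1, 0)) LK.one
    rw [zero_add, mul_one] at this
    convert this using 1
    ext v
    simp [rt_apply, LinearMap.transvection.apply]
  · have h0 : ψ e ≠ 0 := by simpa using h
    have := LK.rt (g := 1) (ι := LinearMap.toSpanSingleton F V e) (π := (ψ e)⁻¹ • ψ)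
      (fun a => by simp; field_simp) (fun _ => rfl) (fun _ => rfl) ((1 + ψ e) • (1 : End F F)) LK.one
    rw [zero_add, mul_one] at this
    convert this using 1
    ext v
    simp only [rt_apply, LinearMap.transvection.apply, LinearMap.smul_apply, End.one_apply,
      LinearMap.toSpanSingleton_apply, smul_eq_mul]
    congr 2
    field_simp
    ring

/-- products of `k` rank one perturbations of determinant `δ` -/
inductive RP (δ : F) : ℕ → End F V → Prop
  | zero : RP δ 0 1
  | succ {k : ℕ} {B : End F V} {ψ : Dual F V} {e : V} : e ≠ 0 → 1 + ψ e = δ → RP δ k B →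
      RP δ (k + 1) (B * transvection ψ e)

theorem exists_not_mem_span {B : End F V} {H : Submodule F V} (hB : ∀ v ∈ H, B v ∈ H)
    (hs : ¬ ∃ c : F, ∀ w ∈ H, B w = c • w) : ∃ e ∈ H, B e ∉ F ∙ e := by
  obtain ⟨φ, v, h1, h2⟩ := exists_hyperplane_not_inv (g := B.restrict hB) fun c hc =>
    hs ⟨c, fun w hw => congrArg Subtype.val (LinearMap.congr_fun hc ⟨w, hw⟩)⟩
  refine ⟨v, v.2, fun h => ?_⟩
  obtain ⟨c, hc⟩ := Submodule.mem_span_singleton.1 h
  have : B.restrict hB v = c • v := Subtype.ext hc.symm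
  simp [this, h1] at h2

theorem rp_of_sub {δ : F} (hδ : δ ≠ 0) (k : ℕ) : ∀ (H : Submodule F V) (B : End F V),
    finrank F H = k + 1 → (∀ v, B v - v ∈ H) → LinearMap.det B = δ ^ (k + 1) →
    (k = 0 ∨ ¬ ∃ c : F, ∀ w ∈ H, B w = c • w) → RP δ (k + 1) B := by
  induction k with
  | zero =>
    intro H B h1 h2 h3 _
    obtain ⟨e, he, h4⟩ := finrank_eq_one_iff'.1 h1
    obtain ⟨θ, k1, -⟩ := lv_exists_dual (W := (⊥ : Submodule F V)) (z := e.1) (by simpa using he)
    have : B = 1 * transvection (θ ∘ₗ (B - 1)) e.1 := by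
      ext v
      obtain ⟨c, hc⟩ := h4 ⟨_, h2 v⟩
      have hc : c • e.1 = B v - v := congrArg Subtype.val hc
      simp [LinearMap.transvection.apply, ← map_sub, ← hc, k1]
      rw [hc]; abel
    rw [this] at h3 ⊢
    exact RP.zero.succ (by simpa using he) (by simpa using h3)
  | succ k ih =>
    intro H B h1 h2 h3 h4
    have hB : ∀ v ∈ H, B v ∈ H := fun v hv => by simpa using H.add_mem (h2 v) hv
    have hBi := inj_of_isUnit (isUnit_of_det (x := B) (by simp [h3, hδ]))
    obtain ⟨e, he, he'⟩ := exists_not_mem_span hB (by simpa using h4)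
    have he0 : e ≠ 0 := by rintro rfl; simp at he'
    have key : ∀ θ : Dual F V, θ e = 1 → θ (B e) = δ → (k = 0 ∨ ¬ ∃ c : F, ∀ w ∈ H, θ w = 0 →
        B w - (δ⁻¹ * θ (B w)) • B e = c • w) → RP δ (k + 1 + 1) B := fun θ k1 k2 k3 => by
      let ψ : Dual F V := θ ∘ₗ (B - 1)
      let B' : End F V := B - (δ⁻¹ • ψ).smulRight (B e)
      have hψ : 1 + ψ e = δ := by simp [ψ, k1, k2]
      have hB' : B = B' * transvection ψ e := by
        ext v
        simp only [B', End.mul_apply, LinearMap.transvection.apply, map_add, map_smul,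
          LinearMap.sub_apply, LinearMap.smulRight_apply, LinearMap.smul_apply, smul_eq_mul,
          eq_sub_of_add_eq' hψ]
        match_scalars <;> field_simp <;> ring
      rw [hB']
      refine (ih (H ⊓ LinearMap.ker θ) B' ?_ (fun v => ⟨?_, ?_⟩) ?_ ?_).succ he0 hψ
      · have := lv_finrank_inf_ker he (ψ := θ) (by simp [k1])
        omega
      · have : B' v - v = B v - v - (δ⁻¹ * ψ v) • B e := by simp [B']; abel
        exact this ▸ H.sub_mem (h2 v) (H.smul_mem _ (hB e he))
      · simp [B', ψ, k2]; field_simp; ring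
      · rw [hB', map_mul, LinearMap.transvection.det, hψ, pow_succ] at h3
        exact mul_right_cancel₀ hδ h3
      · refine k3.imp_right fun h ⟨c, hc⟩ => h ⟨c, fun w hw hw' => ?_⟩
        simpa [B', ψ, hw'] using hc w ⟨hw, hw'⟩
    obtain ⟨θ₁, k1, k2⟩ := lv_exists_dual he'
    obtain ⟨θ₂, k3, k4⟩ := lv_exists_dual (W := F ∙ B e) (z := e) fun h => by
      obtain ⟨c, hc⟩ := Submodule.mem_span_singleton.1 h
      have hc0 : c ≠ 0 := by rintro rfl; exact he0 (by simpa using hc.symm)
      exact he' (Submodule.mem_span_singleton.2 ⟨c⁻¹, by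
        conv_lhs => rw [← hc]
        simp [smul_smul, hc0]⟩)
    have k5 := k2 e (Submodule.mem_span_singleton_self e)
    have k6 := k4 _ (Submodule.mem_span_singleton_self _)
    set θ := θ₂ + δ • θ₁
    have k7 : θ e = 1 := by simp [θ, k3, k5]
    have k8 : θ (B e) = δ := by simp [θ, k1, k6]
    by_contra hc
    obtain ⟨hk, hα⟩ := not_or.1 fun h => hc (key θ k7 k8 h)
    obtain ⟨α, hα⟩ := not_not.1 hα
    obtain ⟨w₀, hw₀, hw₁⟩ := lv_exists_notMem (W := H) (W' := Submodule.span F {e, B e}) (by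
      classical
      have := finrank_span_finset_le_card (R := F) ({e, B e} : Finset V)
      have h5 := Finset.card_le_two (a := e) (b := B e)
      rw [Finset.coe_pair, Set.finrank] at this
      omega)
    obtain ⟨η, l1, l2⟩ := lv_exists_dual hw₁
    have l3 := l2 e (Submodule.subset_span (by simp))
    have l4 := l2 (B e) (Submodule.subset_span (by simp))
    refine hc (key (θ + η) (by simp [k7, l3]) (by simp [k8, l4]) (Or.inr fun ⟨α', hα'⟩ => ?_))
    set w := w₀ - θ w₀ • e
    have m1 : w ∈ H := H.sub_mem hw₀ (H.smul_mem _ he)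
    have m2 : θ w = 0 := by simp [w, k7]
    have m3 : η w = 1 := by simp [w, l1, l3]
    have m4 := eq_add_of_sub_eq (hα w m1 m2)
    generalize δ⁻¹ * θ (B w) = c at m4
    have m5 := hα' (w - e) (H.sub_mem m1 he) (by simp [m2, m3, k7, l3])
    have m6 : (θ + η) (B (w - e)) = α + (c - 1) * δ := by
      simp [m4, m2, m3, k8, l4]; ring
    rw [m6, map_sub, m4] at m5
    have m7 : α = α' := by simpa [m3, l3, l4] using congrArg η m5
    subst m7
    have m8 : α ≠ 0 := by
      rintro rfl
      have : w = c • e := hBi (by simpa using m4)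
      simp [this, l3] at m3
    refine he' (Submodule.mem_span_singleton.2 ⟨δ, ?_⟩)
    have : (δ⁻¹ * α) • (δ • e - B e) = 0 := by
      have h5 : (δ⁻¹ * (α + (c - 1) * δ)) = δ⁻¹ * α + (c - 1) := by field_simp
      rw [h5] at m5
      rw [smul_sub, smul_smul, show δ⁻¹ * α * δ = α by field_simp]
      linear_combination (norm := module) m5
    simpa [hδ, m8, sub_eq_zero] using this

theorem pw_pad (h3 : ∃ a : F, a ≠ 0 ∧ a ≠ 1) (hx : LK x (rowM 1)) {k : ℕ} {B : End F V}
    (h : RP 1 k B) : (B = 1 ∨ k ≠ 0) ∧ ∀ l, k ≤ l → B ≠ 1 → PW ⊤ x l B := by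
  obtain ⟨a, ha0, ha1⟩ := h3
  have key : ∀ (ψ : Dual F V) (e : V), e ≠ 0 → ψ ≠ 0 → ψ e = 0 → CJ ⊤ x (transvection ψ e) :=
    fun ψ e h1 h2 h3 => CJ.top (hx.sim (by simpa [h3] using lk_transvection h1 h2) rfl)
  have key2 : ∀ (e : V), e ≠ 0 → ∀ (l : ℕ) (ψ : Dual F V), ψ ≠ 0 → ψ e = 0 →
      PW ⊤ x (l + 1) (transvection ψ e) := fun e h1 l => by
    induction l with
    | zero => exact fun ψ h2 h3 => (PW.one _).left (key ψ e h1 h2 h3).symm
    | succ l ih =>
      intro ψ h2 h3
      have := (ih ((1 - a) • ψ) (by simp [sub_eq_zero, h2, ha1.symm]) (by simp [h3])).succ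
        (key (a • ψ) e h1 (by simp [h2, ha0]) (by simp [h3]))
      convert this using 1
      rw [End.mul_eq_comp, LinearMap.transvection.comp_of_right_eq (by simp [h3]), ← add_smul]
      simp
  induction h with
  | zero => exact ⟨Or.inl rfl, fun _ _ h => (h rfl).elim⟩
  | @succ k B ψ e h1 h2 _ ih =>
    refine ⟨Or.inr k.succ_ne_zero, fun l hl hB => ?_⟩
    obtain ⟨l, rfl⟩ : ∃ m, l = m + 1 := ⟨l - 1, by omega⟩
    have h2 : ψ e = 0 := by simpa using h2
    rcases eq_or_ne ψ 0 with rfl | hψ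
    · rw [LinearMap.transvection.of_left_eq_zero, ← End.one_eq_id, mul_one] at hB ⊢
      exact ih.2 _ (by omega) hB
    · rcases eq_or_ne B 1 with rfl | hB1
      · rw [one_mul]; exact key2 e h1 l ψ hψ h2
      · exact (ih.2 l (by omega) hB1).mul (key2 e h1 0 ψ hψ h2)

/-- products of `n` rank one perturbations -/
theorem pw_row (h3 : ∃ a : F, a ≠ 0 ∧ a ≠ 1) {δ : F} (hδ : δ ≠ 0) (hx : LK x (rowM δ))
    (hs : ∀ c : F, g ≠ c • 1) (hd : LinearMap.det g = δ ^ finrank F V) :
    PW ⊤ x (finrank F V) g := by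
  have hn : finrank F V ≠ 0 := fun h0 => by
    have := finrank_zero_iff.1 h0
    exact hs 0 (Subsingleton.elim _ _)
  obtain ⟨n, hn⟩ := Nat.exists_eq_succ_of_ne_zero hn
  have h := rp_of_sub hδ n ⊤ g (by simpa using hn) (by simp) (by rw [hd, hn])
    (Or.inr fun ⟨c, hc⟩ => hs c (LinearMap.ext fun w => hc w trivial))
  rw [hn]
  rcases eq_or_ne δ 1 with rfl | h1
  · exact (pw_pad h3 hx h).2 _ le_rfl (by simpa using hs 1)
  · clear hs hd hn
    change PW ⊤ x (n + 1) g
    generalize n + 1 = k at h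
    induction h with
    | zero => exact PW.zero
    | @succ k B ψ e h2 h4 _ ih =>
      refine ih.mul ((PW.one _).left (CJ.top (LK.sim ?_ hx rfl)))
      exact h4 ▸ lk_transvection h2 (by rintro rfl; simp [h1.symm] at h4)

end CF.LevC
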