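/-
Covering number of `PSL(n,q)`: gluing a companion block to a cyclic vector.
-/
import Cfsg.Agent.LevC.C

set_option autoImplicit false

namespace CF.LevC

open Module CF.Cls CF.Classical Polynomial AdjoinRoot

variable {F V W : Type*} [Field F] [AddCommGroup V] [Module F V] [AddCommGroup W] [Module F W]
variable {f : F[X]}

/-- coordinates with respect to the power basis -/
noncomputable def cf (hf : f.Monic) (i : ℕ) : Dual F (AdjoinRoot f) :=
  lcoeff F i ∘ₗ modByMonicHom hf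

theorem cf_pow (hf : f.Monic) (i : ℕ) {j : ℕ} (hj : j < f.natDegree) :
    cf hf i (root f ^ j) = if i = j then 1 else 0 := by
  rw [← mk_X, ← map_pow, cf, LinearMap.comp_apply, modByMonicHom_mk,
    (modByMonic_eq_self_iff hf).2 (degree_lt_degree (by simpa using hj)), lcoeff_apply, coeff_X_pow]

theorem eq_zero_of_top (hf : f.Monic) {a : AdjoinRoot f} (h1 : cf hf (f.natDegree - 1) a = 0)
    (h2 : root f * a = a) : a = 0 := by
  obtain ⟨q, rfl⟩ := mk_surjective a
  rw [cf, LinearMap.comp_apply, modByMonicHom_mk, lcoeff_apply] at h1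
  have h3 : mk f (q %ₘ f) = mk f q := mk_leftInverse hf (mk f q)
  rw [← h3] at h2 ⊢
  have h4 := degree_modByMonic_lt q hf
  generalize q %ₘ f = p at *
  by_contra h0
  have hp : p ≠ 0 := by rintro rfl; simp at h0
  have h5 : f ∣ (X - 1) * p := mk_eq_zero.1 (by simp [sub_mul, h2])
  have h6 := natDegree_le_of_dvd h5 (mul_ne_zero monic_X_sub_one.ne_zero hp)
  rw [monic_X_sub_one.natDegree_mul' hp, natDegree_X_sub_one] at h6
  have h7 := natDegree_lt_natDegree hp h4
  rw [show f.natDegree - 1 = p.natDegree by omega] at h1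
  exact hp (leadingCoeff_eq_zero.1 h1)

theorem exists_ev (h : f.eval 1 = 0) : ∃ ψ : Dual F (AdjoinRoot f),
    (∀ a, ψ (root f * a) = ψ a) ∧ ∀ i, ψ (root f ^ i) = 1 := by
  let e : AdjoinRoot f →ₐ[F] F := liftAlgHom f (Algebra.ofId F F) 1 h
  have he : e (root f) = 1 := liftAlgHom_root _ _ _ _
  exact ⟨e.toLinearMap, fun a => by simp [he], fun i => by simp [he]⟩

theorem eq_top_of_pow (hf : f.Monic) {M : Submodule F (AdjoinRoot f)}
    (h : ∀ i < f.natDegree, root f ^ i ∈ M) : M = ⊤ := by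
  refine eq_top_iff.2 ((powerBasis' hf).basis.span_eq.ge.trans (Submodule.span_le.2 ?_))
  rintro _ ⟨i, rfl⟩
  rw [PowerBasis.basis_eq_pow]
  exact h i i.2

theorem cyc_glue (hf : f.Monic) (j : AdjoinRoot f →ₗ[F] V) {β Y : End F V}
    (h1 : ∀ a, β (j a) = j (root f * a)) (h2 : ∀ v, β v - v ∈ LinearMap.range j)
    (h3 : ∀ i, i + 1 < f.natDegree → Y (j (root f ^ i)) = j (root f ^ i))
    (h4 : ∀ M : Submodule F V, LinearMap.range j ≤ M → (∀ v ∈ M, Y v ∈ M) → M = ⊤) :
    Cyc (β * Y) (j 1) := fun M k1 k2 => by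
  have k3 : ∀ i < f.natDegree, j (root f ^ i) ∈ M := fun i hi => by
    induction i with
    | zero => simpa using k1
    | succ i ih => simpa [h3 i hi, h1, pow_succ'] using k2 _ (ih (by omega))
  have k4 : LinearMap.range j ≤ M := by
    rw [LinearMap.range_le_iff_comap]; exact eq_top_of_pow hf k3
  exact h4 M k4 fun v hv => by simpa using M.sub_mem (k2 v hv) (k4 (h2 (Y v)))

/-- the new part of the space -/
noncomputable abbrev GE (hf : f.Monic) : Submodule F (AdjoinRoot f) := LinearMap.ker (cf hf (f.natDegree - 1))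

instance (hf : f.Monic) : FiniteDimensional F (GE hf) :=
  have := fd_adjoinRoot hf.ne_zero
  inferInstance

theorem cf_top (hf : f.Monic) (h : 0 < f.natDegree) :
    cf hf (f.natDegree - 1) (root f ^ (f.natDegree - 1)) = 1 := by
  rw [cf_pow hf _ (by omega), if_pos rfl]

theorem finrank_GE (hf : f.Monic) (h : 0 < f.natDegree) : finrank F (GE hf) = f.natDegree - 1 := by
  have := fd_adjoinRoot hf.ne_zero
  have := lv_finrank_inf_ker (U := ⊤) (ψ := cf hf (f.natDegree - 1)) trivial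
    ((cf_top hf h).trans_ne one_ne_zero)
  rw [top_inf_eq, finrank_top, finrank_adjoinRoot] at this
  exact Nat.eq_sub_of_add_eq this

/-- embedding of the block -/
noncomputable def gJ (hf : f.Monic) (h : 0 < f.natDegree) (u : W) :
    AdjoinRoot f →ₗ[F] GE hf × W :=
  (LinearMap.codRestrict (GE hf)
    (1 - (cf hf (f.natDegree - 1)).smulRight (root f ^ (f.natDegree - 1)) : End F _)
    fun a => by simp [cf_top hf h]).prod ((cf hf (f.natDegree - 1)).smulRight u)

/-- projection to the block -/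
noncomputable def gP (hf : f.Monic) (θ : Dual F W) : GE hf × W →ₗ[F] AdjoinRoot f :=
  (GE hf).subtype.coprod (θ.smulRight (root f ^ (f.natDegree - 1)))

/-- extension by the identity -/
abbrev xt (E : Type*) [AddCommGroup E] [Module F E] (Y : End F W) : End F (E × W) :=
  (1 : End F E).prodMap Y

theorem xt_mul (E : Type*) [AddCommGroup E] [Module F E] (x y : End F W) :
    xt E x * xt E y = xt E (x * y) := rfl

theorem isUnit_xt (E : Type*) [AddCommGroup E] [Module F E] {x : End F W} (h : IsUnit x) :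
    IsUnit (xt E x) := by
  obtain ⟨y, h1, h2⟩ := exists_inv h
  exact ⟨⟨xt E x, xt E y, by rw [xt_mul, h2]; rfl, by rw [xt_mul, h1]; rfl⟩, rfl⟩

variable (hf : f.Monic) (h : 0 < f.natDegree) {u : W} {θ : Dual F W}

theorem gJ_fst (a : AdjoinRoot f) : ((gJ hf h u a).1 : AdjoinRoot f) =
    a - cf hf (f.natDegree - 1) a • root f ^ (f.natDegree - 1) := rfl

theorem gJ_snd (a : AdjoinRoot f) : (gJ hf h u a).2 = cf hf (f.natDegree - 1) a • u := rfl

theorem gP_apply (v : GE hf × W) : gP hf θ v = v.1 + θ v.2 • root f ^ (f.natDegree - 1) := rfl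

theorem gP_gJ (hu : θ u = 1) (a : AdjoinRoot f) : gP hf θ (gJ hf h u a) = a := by
  simp [gP_apply, gJ_fst, gJ_snd, hu]

theorem gJ_top : gJ hf h u (root f ^ (f.natDegree - 1)) = (0, u) :=
  Prod.ext (Subtype.ext (by simp [gJ_fst, cf_top hf h])) (by simp [gJ_snd, cf_top hf h])

theorem gJ_low (a : GE hf) : gJ hf h u a = (a, 0) :=
  Prod.ext (Subtype.ext (by simp [gJ_fst, LinearMap.mem_ker.1 a.2]))
    (by simp [gJ_snd, LinearMap.mem_ker.1 a.2])

theorem xt_gJ {g : End F W} (hg : g u = u) (a : AdjoinRoot f) :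
    xt (GE hf) g (gJ hf h u a) = gJ hf h u a := Prod.ext rfl (by simp [gJ_snd, hg])

theorem gP_xt {g : End F W} (hg : ∀ v, θ (g v) = θ v) (v : GE hf × W) :
    gP hf θ (xt (GE hf) g v) = gP hf θ v := by simp [gP_apply, hg]

theorem xt_gJ_pow (Y : End F W) {i : ℕ} (hi : i + 1 < f.natDegree) :
    xt (GE hf) Y (gJ hf h u (root f ^ i)) = gJ hf h u (root f ^ i) :=
  Prod.ext rfl (by simp [gJ_snd, cf_pow hf _ (show i < _ by omega),
    show f.natDegree - 1 ≠ i by omega])

theorem top_of_range {Y : End F W} (hY : Cyc Y u) (M : Submodule F (GE hf × W))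
    (h1 : LinearMap.range (gJ hf h u) ≤ M) (h2 : ∀ v ∈ M, xt (GE hf) Y v ∈ M) : M = ⊤ := by
  have h3 := hY (M.comap (LinearMap.inr F _ _)) (h1 ⟨_, gJ_top hf h⟩)
    fun v hv => by simpa using h2 _ hv
  refine eq_top_iff.2 fun ⟨a, w⟩ _ => ?_
  simpa using M.add_mem (h1 ⟨_, gJ_low hf h a⟩)
    (h3 ▸ Submodule.mem_top : w ∈ M.comap (LinearMap.inr F _ _))

/-- the glued block -/
noncomputable def gB (u : W) (θ : Dual F W) : End F (GE hf × W) :=
  rt (gJ hf h u) (gP hf θ) (cyc f)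

theorem gB_apply (v : GE hf × W) :
    gB hf h u θ v = v + gJ hf h u (root f * gP hf θ v - gP hf θ v) := rfl

theorem gB_gJ (hu : θ u = 1) (a : AdjoinRoot f) :
    gB hf h u θ (gJ hf h u a) = gJ hf h u (root f * a) := by
  simp [gB_apply, gP_gJ hf h hu]

theorem gB_fix {w : W} (hw : θ w = 0) : gB hf h u θ (0, w) = (0, w) := by
  simp [gB_apply, gP_apply, hw]

theorem gB_dual {η : Dual F W} (hη : η u = 0) (v : GE hf × W) :
    η (gB hf h u θ v).2 = η v.2 := by
  simp [gB_apply, gJ_snd, hη, -map_sub]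

theorem gB_cyc (hu : θ u = 1) {Y : End F W} (hY : Cyc Y u) :
    Cyc (gB hf h u θ * xt (GE hf) Y) (gJ hf h u 1) :=
  cyc_glue hf _ (gB_gJ hf h hu) (fun v => ⟨_, by rw [gB_apply, add_sub_cancel_left]⟩)
    (fun _ hi => xt_gJ_pow hf h Y hi) (top_of_range hf h hY)

theorem gB_cyc' [FiniteDimensional F W] (hu : θ u = 1) {Y : End F W} (hY : Cyc Y u)
    (hU : IsUnit (gB hf h u θ * xt (GE hf) Y)) : Cyc (gB hf h u θ * xt (GE hf) Y) (0, u) := by
  have : ∀ i < f.natDegree, Cyc (gB hf h u θ * xt (GE hf) Y) (gJ hf h u (root f ^ i)) :=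
    fun i hi => by
      induction i with
      | zero => simpa using gB_cyc hf h hu hY
      | succ i ih =>
        have := (ih (by omega)).apply hU
        rwa [End.mul_apply, xt_gJ_pow hf h Y hi, gB_gJ hf h hu, ← pow_succ'] at this
  exact gJ_top hf h (u := u) ▸ this _ (by omega)

theorem gB_eig (hu : θ u = 1) (h1 : f.eval 1 = 0) {Y : End F W} {v : GE hf × W}
    (hv : (gB hf h u θ * xt (GE hf) Y) v = v) : Y v.2 = v.2 ∧ (v.2 = 0 → v = 0) := by
  obtain ⟨ψ, k1, k2⟩ := exists_ev h1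
  rw [End.mul_apply, gB_apply] at hv
  set a := gP hf θ (xt (GE hf) Y v) with ha
  have k3 := congrArg (fun x => ψ x.1) hv
  simp only [Prod.fst_add, Submodule.coe_add, gJ_fst] at k3
  simp only [map_add, map_sub ψ, map_smul, k1, k2] at k3
  have k4 : cf hf (f.natDegree - 1) (root f * a - a) = 0 := by
    simp at k3
    rw [map_sub]; linear_combination -k3
  refine ⟨by simpa [gJ_snd, k4, -map_sub] using congrArg Prod.snd hv, fun h0 => ?_⟩
  obtain ⟨e, w⟩ := v
  obtain rfl : w = 0 := h0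
  have k5 : a = e := by simp [ha, gP_apply]
  have k6 := congrArg (fun x => (x.1 : AdjoinRoot f)) hv
  simp only [Prod.fst_add, Submodule.coe_add, gJ_fst, k4] at k6
  simp [k5, sub_eq_zero] at k6
  rw [show e = 0 from Subtype.ext (eq_zero_of_top hf e.2 k6)]
  rfl

theorem gB_psi (h1 : f.eval 1 = 0) {ψ : Dual F W} (hψ : ψ u = 1) :
    ∃ ψ₀ : Dual F (GE hf), (∀ v, ψ₀.coprod ψ (gB hf h u θ v) = ψ₀.coprod ψ v) ∧
      ψ₀.coprod ψ (gJ hf h u 1) = 1 := by
  obtain ⟨ψ₀, k1, k2⟩ := exists_ev h1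
  have k3 : ∀ a, (ψ₀ ∘ₗ (GE hf).subtype).coprod ψ (gJ hf h u a) = ψ₀ a := fun a => by
    simp [gJ_fst, gJ_snd, k2, hψ]
  refine ⟨ψ₀ ∘ₗ (GE hf).subtype, fun v => ?_, by simpa [k3] using k2 0⟩
  rw [gB_apply, map_add, k3, map_sub, k1, sub_self, add_zero]

theorem gJ_one (h2 : 2 ≤ f.natDegree) : ∃ (e : GE hf) (θ₀ : Dual F (GE hf)),
    gJ hf h u 1 = (e, 0) ∧ θ₀ e = 1 := by
  have h0 := cf_pow hf (f.natDegree - 1) h
  rw [if_neg (by omega), pow_zero] at h0
  exact ⟨⟨1, h0⟩, cf hf 0 ∘ₗ (GE hf).subtype, gJ_low hf h ⟨1, h0⟩, by simpa using cf_pow hf 0 h⟩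

theorem isUnit_cyc (hf : f.Monic) (h0 : f.coeff 0 ≠ 0) : IsUnit (cyc f) :=
  have := fd_adjoinRoot hf.ne_zero
  isUnit_of_det (by rw [det_cyc hf]; simp [h0])

theorem isUnit_gB [FiniteDimensional F W] (hu : θ u = 1) (h0 : f.coeff 0 ≠ 0) :
    IsUnit (gB hf h u θ) :=
  have := fd_adjoinRoot hf.ne_zero
  isUnit_rt (gP_gJ hf h hu) (isUnit_cyc hf h0)

/-- elementary divisors of a cyclic block -/
noncomputable def edc (f : F[X]) : Multiset F[X] := by
  classical
  exact if h : f = 0 then 0 else have := fd_adjoinRoot h; ed (cyc f)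

theorem edc_eq (h : f ≠ 0) [FiniteDimensional F (AdjoinRoot f)] : edc f = ed (cyc f) := by
  simp [edc, h]

theorem fd_blk {n : ℕ} {a : Fin n → F[X]} (h : ∀ b ∈ Finset.univ.val.map a, b ≠ 0) :
    FiniteDimensional F (∀ i, AdjoinRoot (a i)) :=
  have := fun i => fd_adjoinRoot (h (a i) (by simp))
  inferInstance

theorem ed_eq_bind [FiniteDimensional F V] {x : End F V} {s : Multiset F[X]} (h : HasED x s)
    (hs : ∀ a ∈ s, a ≠ 0) : ed x = s.bind edc := by
  obtain ⟨n, a, rfl, h⟩ := h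
  have := fd_blk hs
  rw [sim_iff_ed.1 h]
  clear h
  induction n with
  | zero => exact (hasED_blk a).ed_eq (by simp)
  | succ n ih =>
    have h1 : ∀ b ∈ Finset.univ.val.map fun i : Fin n => a i.succ, b ≠ 0 := by
      intro b hb
      obtain ⟨i, -, rfl⟩ := Multiset.mem_map.1 hb
      exact hs _ (Multiset.mem_map_of_mem a (Finset.mem_univ_val _))
    have h2 := fd_blk h1
    have := fd_adjoinRoot (hs (a 0) (by simp))
    rw [blk, sim_iff_ed.1 (sim_piMap_succ _), ed_prodMap, ← edc_eq (hs (a 0) (by simp)),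
      Fin.univ_val_map, List.ofFn_succ, ← Multiset.cons_coe, Multiset.cons_bind,
      ← Fin.univ_val_map, ← ih _ h1 h2]
    rfl

theorem lk_gB [FiniteDimensional F W] (hu : θ u = 1) {g : End F W} {t : Multiset F[X]}
    (h1 : g u = u) (h2 : ∀ v, θ (g v) = θ v) (hg : LK g t) :
    LK (gB hf h u θ * xt (GE hf) g) (t + edc f) := by
  have := fd_adjoinRoot hf.ne_zero
  rw [edc_eq hf.ne_zero]
  exact LK.rt (gP_gJ hf h hu) (xt_gJ hf h h1) (gP_xt hf h2) _ hg.one_prod

theorem gB_comm {g : End F W} (h1 : g u = u) (h2 : ∀ v, θ (g v) = θ v) :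
    xt (GE hf) g * gB hf h u θ = gB hf h u θ * xt (GE hf) g :=
  rt_comm (xt_gJ hf h h1) (gP_xt hf h2) _

end CF.LevC
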