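/-
Covering number of `PSL(n,q)`: products of two conjugates without fixed vectors.
-/
import Cfsg.Agent.LevC.D

set_option autoImplicit false

namespace CF.LevC

open Module CF.Cls CF.Classical Polynomial AdjoinRoot

universe u

variable {F : Type u} {W : Type*} [Field F] [AddCommGroup W] [Module F W] [FiniteDimensional F W]
variable {f : F[X]}

/-- admissible block -/
def Bk (f : F[X]) : Prop := f.Monic ∧ 2 ≤ f.natDegree ∧ f.eval 1 = 0 ∧ f.coeff 0 ≠ 0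

/-- `u` spans a trivial summand -/
def Fr (g : End F W) (u : W) (θ : Dual F W) : Prop := g u = u ∧ ∀ v, θ (g v) = θ v

/-- state of the path construction -/
structure PS (x₁ x₂ : End F W) (t₁ t₂ : Multiset F[X]) (u z : W) (θ ζ ψ : Dual F W) : Prop where
  u1 : IsUnit x₁
  u2 : IsUnit x₂
  l1 : LK x₁ t₁
  l2 : LK x₂ t₂
  cy : Cyc (x₁ * x₂) u
  θu : θ u = 1
  ψ1 : ∀ v, ψ (x₁ v) = ψ v
  ψ2 : ∀ v, ψ (x₂ v) = ψ v
  ψu : ψ u = 1
  z2 : Fr x₂ z ζ
  ζz : ζ z = 1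
  fx : ∀ v, (x₁ * x₂) v = v → ζ v = 0 → v = 0

variable {x₁ x₂ : End F W} {t₁ t₂ : Multiset F[X]} {u z : W} {θ ζ ψ : Dual F W}

theorem PS.left (H : PS x₁ x₂ t₁ t₂ u z θ ζ ψ) (hr : Fr x₁ u θ) (hf : Bk f) :
    ∃ (y₁ y₂ : End F (GE hf.1 × W)) (u' z' : GE hf.1 × W) (θ' ζ' ψ' : Dual F (GE hf.1 × W)),
      PS y₁ y₂ (t₁ + edc f) t₂ u' z' θ' ζ' ψ' ∧ Fr y₂ u' θ' ∧ θ' z' = 0 ∧ ζ' u' = 0 := by
  have h : 0 < f.natDegree := by have := hf.2.1; omega
  obtain ⟨e, θ₀, k1, k2⟩ := gJ_one hf.1 h (u := u) hf.2.1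
  obtain ⟨ψ₀, k3, k4⟩ := gB_psi hf.1 h (θ := θ) hf.2.2.1 H.ψu
  refine ⟨gB hf.1 h u θ * xt _ x₁, xt _ x₂, (e, 0), (0, z), θ₀ ∘ₗ LinearMap.fst F _ _,
    ζ ∘ₗ LinearMap.snd F _ _, ψ₀.coprod ψ, ⟨(isUnit_gB _ _ H.θu hf.2.2.2).mul (isUnit_xt _ H.u1),
    isUnit_xt _ H.u2, lk_gB _ _ H.θu hr.1 hr.2 H.l1, H.l2.one_prod, ?_, k2, fun v => ?_,
    fun v => by simp [H.ψ2], k1 ▸ k4, ⟨by simp [H.z2.1], fun v => by simp [H.z2.2]⟩, H.ζz,
    fun v h1 h2 => ?_⟩, ⟨by simp, fun v => rfl⟩, by simp, by simp⟩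
  · rw [mul_assoc, xt_mul, ← k1]
    exact gB_cyc _ _ H.θu H.cy
  · rw [End.mul_apply, k3]; simp [H.ψ1]
  · rw [mul_assoc, xt_mul] at h1
    obtain ⟨h3, h4⟩ := gB_eig _ _ H.θu hf.2.2.1 h1
    exact h4 (H.fx _ h3 h2)

theorem PS.right (H : PS x₁ x₂ t₁ t₂ u z θ ζ ψ) (hr : Fr x₂ u θ) (hz : θ z = 0) (hu : ζ u = 0)
    (hf : Bk f) :
    ∃ (y₁ y₂ : End F (GE hf.1 × W)) (u' z' : GE hf.1 × W) (θ' ζ' ψ' : Dual F (GE hf.1 × W)),
      PS y₁ y₂ t₁ (t₂ + edc f) u' z' θ' ζ' ψ' ∧ Fr y₁ u' θ' := by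
  have h : 0 < f.natDegree := by have := hf.2.1; omega
  obtain ⟨e, θ₀, k1, k2⟩ := gJ_one hf.1 h (u := u) hf.2.1
  obtain ⟨ψ₀, k3, k4⟩ := gB_psi hf.1 h (θ := θ) hf.2.2.1 H.ψu
  have k5 : xt _ x₁ * (gB hf.1 h u θ * xt _ x₂) = xt _ (x₁ * x₂) * gB hf.1 h u θ := by
    rw [← gB_comm _ _ hr.1 hr.2, ← mul_assoc, xt_mul]
  refine ⟨xt _ x₁, gB hf.1 h u θ * xt _ x₂, (e, 0), (0, z), θ₀ ∘ₗ LinearMap.fst F _ _,
    ζ ∘ₗ LinearMap.snd F _ _, ψ₀.coprod ψ, ⟨isUnit_xt _ H.u1,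
    (isUnit_gB _ _ H.θu hf.2.2.2).mul (isUnit_xt _ H.u2), H.l1.one_prod,
    lk_gB _ _ H.θu hr.1 hr.2 H.l2, ?_, k2, fun v => by simp [H.ψ1], fun v => ?_, k1 ▸ k4,
    ⟨by simp [H.z2.1, gB_fix _ _ hz], fun v => by simp [gB_dual _ _ hu, H.z2.2]⟩, H.ζz,
    fun v h1 h2 => ?_⟩, ⟨by simp, fun v => rfl⟩⟩
  · have := (gB_cyc hf.1 h H.θu H.cy).swap (isUnit_xt _ (H.u1.mul H.u2))
    rw [k1] at this
    rw [k5]; simpa using this
  · rw [End.mul_apply, k3]; simp [H.ψ2]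
  · rw [k5] at h1
    obtain ⟨h3, h4⟩ := gB_eig hf.1 h H.θu hf.2.2.1 (Y := x₁ * x₂) (v := gB hf.1 h u θ v)
      (by simpa only [End.mul_apply] using congrArg (gB hf.1 h u θ) h1)
    rw [← h1, End.mul_apply, h4 (H.fx _ h3 ((gB_dual _ _ hu _).trans h2)), map_zero]

theorem eq_zero_of_top' (hf : f.Monic) (h : 0 < f.natDegree) {a : AdjoinRoot f} {c : F}
    (h1 : cf hf (f.natDegree - 1) a = 0) (h2 : root f * a - a = c • 1) : c = 0 := by
  obtain ⟨q, rfl⟩ := mk_surjective a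
  rw [cf, LinearMap.comp_apply, modByMonicHom_mk, lcoeff_apply] at h1
  have h3 : mk f (q %ₘ f) = mk f q := mk_leftInverse hf (mk f q)
  rw [← h3] at h2
  have h4 := degree_modByMonic_lt q hf
  generalize q %ₘ f = p at *
  have h5 : f ∣ X * p - p - C c := mk_eq_zero.1 (by simp [h2, Algebra.smul_def])
  rw [degree_eq_natDegree hf.ne_zero, degree_lt_iff_coeff_zero] at h4
  have h6 := eq_zero_of_dvd_of_degree_lt h5 (by
    rw [degree_eq_natDegree hf.ne_zero, degree_lt_iff_coeff_zero]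
    intro m hm
    obtain ⟨m, rfl⟩ : ∃ k, m = k + 1 := ⟨m - 1, by omega⟩
    have : p.coeff m = 0 := by
      rcases eq_or_ne m (f.natDegree - 1) with rfl | h7
      · exact h1
      · exact h4 m (by omega)
    simp [coeff_X_mul, this, h4 _ hm])
  simpa using congrArg (eval 1) h6

theorem sim_cyc_ext {g : F[X]} (hg : g.Monic) {c : F} (hc : c ≠ 0) :
    Sim (cyc (g * (X - 1))) ((cyc g).prodMap 1 + LinearMap.inl F _ _ ∘ₗ
      LinearMap.toSpanSingleton F _ (c • 1) ∘ₗ LinearMap.snd F _ _ : End F (AdjoinRoot g × F)) := by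
  have := fd_adjoinRoot hg.ne_zero
  refine Cyc.sim_cyc (u := (0, 1)) (fun M h1 h2 => ?_) (hg.mul monic_X_sub_one)
    (by simp [hg.natDegree_mul monic_X_sub_one, finrank_adjoinRoot, natDegree_X_sub_one]) ?_
  · have h3 := cyc_one g (M.comap (LinearMap.inl F _ _)) ((Submodule.smul_mem_iff _ hc).1 (by
      simpa using M.sub_mem (h2 _ h1) h1)) fun v hv => by simpa using h2 _ hv
    refine eq_top_iff.2 fun ⟨a, w⟩ _ => ?_
    simpa using M.add_mem (h3 ▸ Submodule.mem_top : a ∈ M.comap (LinearMap.inl F _ _))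
      (M.smul_mem w h1)
  · have := aeval_intertwine (f := cyc g) (g := ((cyc g).prodMap 1 + LinearMap.inl F _ _ ∘ₗ
      LinearMap.toSpanSingleton F _ (c • 1) ∘ₗ LinearMap.snd F _ _ : End F (AdjoinRoot g × F)))
      (LinearMap.inl F _ _) (by simp) g (c • 1)
    rw [(aeval_cyc_eq_zero_iff g g).2 dvd_rfl] at this
    have h4 := this.symm
    simp at h4 ⊢
    exact h4

/-- `j` conjugates multiply to a cyclic map without fixed vectors in dimension `m` -/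
def Nice (t : Multiset F[X]) (j m : ℕ) : Prop :=
  ∃ (W : Type u) (_ : AddCommGroup W) (_ : Module F W) (_ : FiniteDimensional F W)
    (x Y : End F W) (w : W),
    finrank F W = m ∧ LK x t ∧ IsUnit x ∧ PW ⊤ x j Y ∧ Cyc Y w ∧ NoEig Y 1

theorem PS.close {W : Type u} [AddCommGroup W] [Module F W] [FiniteDimensional F W]
    {x₁ x₂ : End F W} {u z : W} {θ ζ ψ : Dual F W} (h3 : ∃ a : F, a ≠ 0 ∧ a ≠ 1)
    (H : PS x₁ x₂ (t₂ + edc f) t₂ u z θ ζ ψ) (hr : Fr x₂ u θ) (hz : θ z = 0) (hu : ζ u = 0)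
    (hf : Bk f) : Nice (t₂ + edc f) 2 (f.natDegree - 2 + finrank F W) := by
  obtain ⟨g, hg⟩ := dvd_iff_isRoot.2 hf.2.2.1
  rw [mul_comm, C_1] at hg
  have hm : g.Monic := monic_X_sub_one.of_mul_monic_right (hg ▸ hf.1)
  have hd : f.natDegree = g.natDegree + 1 := by
    rw [hg, hm.natDegree_mul monic_X_sub_one, natDegree_X_sub_one]
  have h : 0 < g.natDegree := by have := hf.2.1; omega
  obtain ⟨c, hc, hc'⟩ : ∃ c : F, c ≠ 0 ∧ ¬ ∃ w a, (x₁ * x₂) w = w ∧ ζ w = 1 ∧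
      cf hm (g.natDegree - 1) a = θ w ∧ root g * a - a + c • 1 = 0 := by
    obtain ⟨c, h0, h1⟩ := h3
    by_contra! hc
    obtain ⟨w, a, k1, k2, k3, k4⟩ := hc c h0
    obtain ⟨w', a', l1, l2, l3, l4⟩ := hc 1 one_ne_zero
    obtain rfl : w = w' := sub_eq_zero.1 (H.fx _ (by rw [map_sub, k1, l1]) (by simp [k2, l2]))
    refine h1 (sub_eq_zero.1 (eq_zero_of_top' hm h (a := a' - a) (by simp [k3, l3]) ?_))
    rw [sub_smul]; linear_combination l4 - k4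
  have := fd_adjoinRoot hm.ne_zero
  have := fd_adjoinRoot hf.1.ne_zero
  let ι : (AdjoinRoot g × F) →ₗ[F] GE hm × W :=
    (gJ hm h u).coprod (LinearMap.toSpanSingleton F _ (0, z))
  let π : (GE hm × W) →ₗ[F] AdjoinRoot g × F := (gP hm θ).prod (ζ ∘ₗ LinearMap.snd F _ _)
  have k1 : ∀ a, π (ι a) = a := fun a => by
    simp [π, ι, gP_gJ hm h H.θu, hz, gJ_snd, hu, H.ζz]
    simp [gP_apply, hz]
  have k2 : ∀ a, xt _ x₂ (ι a) = ι a := fun a => by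
    simp only [ι, LinearMap.coprod_apply, map_add, xt_gJ hm h hr.1]
    simp [H.z2.1]
  have k3 : ∀ v, π (xt _ x₂ v) = π v := fun v => Prod.ext (gP_xt hm hr.2 v) (H.z2.2 _)
  have k4 := sim_cyc_ext hm hc
  rw [← hg] at k4
  set γ : End F (AdjoinRoot g × F) := _ + _ with hγ
  have k5 : ∀ v, rt ι π γ v = v + gJ hm h u (root g * gP hm θ v - gP hm θ v + (ζ v.2 * c) • 1) :=
    fun v => by simp [rt_apply, ι, π, hγ, cyc_apply, smul_smul]; abel
  have k6 : xt _ x₁ * (rt ι π γ * xt _ x₂) = xt _ (x₁ * x₂) * rt ι π γ := by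
    rw [← rt_comm k2 k3, ← mul_assoc, xt_mul]
  have k7 := LK.rt k1 k2 k3 γ H.l2.one_prod
  rw [← sim_iff_ed.1 k4, ← edc_eq hf.1.ne_zero] at k7
  have k8 := isUnit_xt (GE hm) (H.u1.mul H.u2)
  have k9 := (cyc_glue hm (gJ hm h u) (β := rt ι π γ) (fun a => by
    simp [k5, gP_gJ hm h H.θu, gJ_snd, hu]) (fun v => ⟨_, by
        rw [k5, add_sub_cancel_left]⟩) (fun _ hi => xt_gJ_pow hm h _ hi)
        (top_of_range hm h H.cy)).swap k8
  rw [← k6] at k9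
  refine ⟨GE hm × W, inferInstance, inferInstance, inferInstance, xt _ x₁, _, _, ?_,
    H.l1.one_prod, isUnit_xt _ H.u1, ((PW.one _).left (CJ.top (k7.sim H.l1.one_prod rfl))).succ
      (CJ.refl _), k9, ?_⟩
  · rw [finrank_prod, finrank_GE hm h, hd]; rfl
  · suffices h : ∀ v : GE hm × W, (rt ι π γ * xt (GE hm) (x₁ * x₂)) v = v → v = 0 by
      intro v hv
      rw [k6, one_smul] at hv
      rw [← hv, End.mul_apply, h (rt ι π γ v)
        (by simpa only [End.mul_apply] using congrArg (rt ι π γ) hv), map_zero]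
    rintro ⟨e, w⟩ hv
    rw [End.mul_apply, k5] at hv
    set a := gP hm θ (xt (GE hm) (x₁ * x₂) (e, w)) with ha
    set b := root g * a - a + _ with hb
    have l1 := congrArg (fun v => ψ v.2) hv
    have l2 : cf hm (g.natDegree - 1) b = 0 := by simpa [gJ_snd, H.ψ1, H.ψ2, H.ψu] using l1
    have l3 : (x₁ * x₂) w = w := by simpa [gJ_snd, l2] using congrArg Prod.snd hv
    have l4 : b = 0 := by simpa [gJ_fst, l2] using congrArg (fun v => (v.1 : AdjoinRoot g)) hv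
    have l5 : a = e + θ w • root g ^ (g.natDegree - 1) := by
      rw [ha, gP_apply]; simp only [LinearMap.prodMap_apply, l3]; rfl
    simp only [LinearMap.prodMap_apply, l3] at hb
    rcases eq_or_ne (ζ w) 0 with h0 | h0
    · obtain rfl := H.fx w l3 h0
      rw [l4, l5] at hb
      rw [show e = 0 from Subtype.ext (eq_zero_of_top hm e.2 (by simpa [sub_eq_zero] using hb.symm))]
      rfl
    · refine (hc' ⟨(ζ w)⁻¹ • w, (ζ w)⁻¹ • a, by rw [map_smul, l3], by simp [h0], by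
        simp [l5, cf_top hm h, LinearMap.mem_ker.1 e.2], ?_⟩).elim
      have := congrArg ((ζ w)⁻¹ • ·) (hb.symm.trans l4)
      simpa [smul_add, smul_sub, smul_smul, h0] using this

/-- total rank -/
noncomputable def rk (s : Multiset F[X]) : ℕ := (s.map fun f => f.natDegree - 1).sum

theorem exists_PS (s : Multiset F[X]) (hs : ∀ f ∈ s, Bk f) :
    ∃ (W : Type u) (_ : AddCommGroup W) (_ : Module F W) (_ : FiniteDimensional F W)
      (x₁ x₂ : End F W) (u z : W) (θ ζ ψ : Dual F W), finrank F W = 2 * rk s + 1 ∧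
      PS x₁ x₂ (s.bind edc) (s.bind edc) u z θ ζ ψ ∧ Fr x₁ u θ := by
  induction s using Multiset.induction with
  | empty =>
    refine ⟨F, inferInstance, inferInstance, inferInstance, 1, 1, 1, 1, .id, .id, .id,
      by simp [rk], ⟨isUnit_one, isUnit_one, LK.one, LK.one, fun M h _ => ?_, rfl, fun _ => rfl,
      fun _ => rfl, rfl, ⟨rfl, fun _ => rfl⟩, rfl, fun _ _ h => h⟩, rfl, fun _ => rfl⟩
    exact eq_top_iff.2 fun v _ => by simpa using M.smul_mem v h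
  | cons f s ih =>
    obtain ⟨W, _, _, _, x₁, x₂, u, z, θ, ζ, ψ, h1, h2, h3⟩ :=
      ih fun g hg => hs g (Multiset.mem_cons_of_mem hg)
    have hf := hs f (Multiset.mem_cons_self f s)
    obtain ⟨x₁, x₂, u, z, θ, ζ, ψ, h2, h3, h4, h5⟩ := h2.left h3 hf
    obtain ⟨x₁, x₂, u, z, θ, ζ, ψ, h2, h3⟩ := h2.right h3 h4 h5 hf
    refine ⟨_, inferInstance, inferInstance, inferInstance, x₁, x₂, u, z, θ, ζ, ψ, ?_,
      by rwa [Multiset.cons_bind, add_comm], h3⟩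
    rw [finrank_prod, finrank_prod, finrank_GE _ (by have := hf.2.1; omega), h1]
    simp [rk]; ring

theorem nice_two (h3 : ∃ a : F, a ≠ 0 ∧ a ≠ 1) {s : Multiset F[X]} (hs : ∀ f ∈ s, Bk f)
    (h0 : s ≠ 0) : Nice (s.bind edc) 2 (2 * rk s) := by
  obtain ⟨f, hf⟩ := Multiset.exists_mem_of_ne_zero h0
  obtain ⟨s, rfl⟩ := Multiset.exists_cons_of_mem hf
  obtain ⟨W, _, _, _, x₁, x₂, u, z, θ, ζ, ψ, h1, h2, h4⟩ :=
    exists_PS s fun g hg => hs g (Multiset.mem_cons_of_mem hg)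
  obtain ⟨x₁, x₂, u, z, θ, ζ, ψ, h2, h4, h5, h6⟩ := h2.left h4 (hs f hf)
  have := h2.close h3 h4 h5 h6 (hs f hf)
  have h7 := (hs f hf).2.1
  rw [finrank_prod, finrank_GE _ (by omega), h1] at this
  rw [Multiset.cons_bind, add_comm]
  convert this using 1
  simp only [rk, Multiset.map_cons, Multiset.sum_cons]
  omega

end CF.LevC
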