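/-
Covering number of `PSL(n,q)`: growth of the cyclic part.
-/
import Cfsg.Agent.LevC.E

set_option autoImplicit false

namespace CF.LevC

open Module CF.Cls CF.Classical Polynomial AdjoinRoot

universe u

variable {F : Type u} {V : Type*} [Field F] [AddCommGroup V] [Module F V] [FiniteDimensional F V]

theorem exists_MS {W : Type u} [AddCommGroup W] [Module F W] [FiniteDimensional F W]
    {x Y : End F W} {t : Multiset F[X]} {j k : ℕ} {p : ℕ → W} {θ : ℕ → Dual F W}
    (h1 : LK x t) (h2 : IsUnit x) (h3 : PW ⊤ x j Y) (h4 : ∀ i, Y (p i) = p (i + 1))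
    (h5 : ∀ i < k, ∀ l < k, θ i (p l) = if i = l then 1 else 0) (h6 : Cyc Y (p 0))
    (h7 : NoEig Y 1) (s : Multiset F[X]) (hs : ∀ f ∈ s, Bk f) (hk : s.card ≤ k) :
    ∃ (W' : Type u) (_ : AddCommGroup W') (_ : Module F W') (_ : FiniteDimensional F W')
      (g x Y : End F W') (p : ℕ → W') (θ : ℕ → Dual F W'), finrank F W' = finrank F W + rk s ∧
      LK x t ∧ IsUnit x ∧ PW ⊤ x j Y ∧ (∀ i, Y (p i) = p (i + 1)) ∧
      (∀ i < k, ∀ l < k, θ i (p l) = if i = l then 1 else 0) ∧ IsUnit g ∧ LK g (s.bind edc) ∧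
      (∀ i < k, s.card ≤ i → Fr g (p i) (θ i)) ∧ Cyc (g * Y) (g (p s.card)) ∧
      NoEig (g * Y) 1 := by
  induction s using Multiset.induction with
  | empty =>
    exact ⟨W, inferInstance, inferInstance, inferInstance, 1, x, Y, p, θ, by simp [rk], h1, h2,
      h3, h4, h5, isUnit_one, LK.one, fun _ _ _ => ⟨rfl, fun _ => rfl⟩, by simpa using h6,
      by simpa using h7⟩
  | cons f s ih =>
    rw [Multiset.card_cons] at hk ⊢
    obtain ⟨W, _, _, _, g, x, Y, p, θ, k0, k1, k2, k3, k4, k5, k6, k7, k8, k9, k10⟩ :=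
      ih (fun g hg => hs g (Multiset.mem_cons_of_mem hg)) (by omega)
    have hf := hs f (Multiset.mem_cons_self f s)
    have h : 0 < f.natDegree := by have := hf.2.1; omega
    have l1 := k8 s.card (by omega) le_rfl
    have l2 : θ s.card (p s.card) = 1 := by simp [k5 s.card (by omega) s.card (by omega)]
    have l3 := (isUnit_gB hf.1 h l2 hf.2.2.2).mul (isUnit_xt _ (k6.mul (k3.isUnit k2)))
    refine ⟨GE hf.1 × W, inferInstance, inferInstance, inferInstance,
      gB hf.1 h (p s.card) (θ s.card) * xt _ g, xt _ x, xt _ Y, fun i => (0, p i),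
      fun i => θ i ∘ₗ LinearMap.snd F _ _, ?_, k1.one_prod, isUnit_xt _ k2,
      (PW.one_one j).prodMap k3, fun i => by simp [k4], k5,
      (isUnit_gB hf.1 h l2 hf.2.2.2).mul (isUnit_xt _ k6), ?_, fun i hi hi' => ⟨?_, fun v => ?_⟩,
      ?_, fun v hv => ?_⟩
    · rw [finrank_prod, finrank_GE _ h, k0]; simp [rk]; ring
    · rw [Multiset.cons_bind, add_comm]; exact lk_gB _ _ l2 l1.1 l1.2 k7
    · simp [(k8 i hi (by omega)).1, gB_fix hf.1 h (show θ s.card (p i) = 0 by
        rw [k5 _ (by omega) i hi, if_neg (by omega)])]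
    · simp [(k8 i hi (by omega)).2, gB_dual hf.1 h (show θ i (p s.card) = 0 by
        rw [k5 i hi _ (by omega), if_neg (by omega)])]
    · rw [l1.1] at k9
      have := (gB_cyc' hf.1 h l2 k9 l3).apply l3
      rw [mul_assoc, xt_mul]
      simpa [k4] using this
    · rw [mul_assoc, xt_mul, one_smul] at hv
      obtain ⟨l4, l5⟩ := gB_eig _ _ l2 hf.2.2.1 hv
      exact l5 (k10 _ (by simpa using l4))

theorem Nice.multi {s : Multiset F[X]} (hs : ∀ f ∈ s, Bk f) {j m : ℕ} (h : Nice (s.bind edc) j m)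
    (hm : s.card ≤ m) : Nice (s.bind edc) (j + 1) (m + rk s) := by
  obtain ⟨W, _, _, _, x, Y, w, rfl, h1, h2, h3, h4, h5⟩ := h
  have := fd_adjoinRoot Y.charpoly_monic.ne_zero
  obtain ⟨e, he⟩ := h4.sim_charpoly.symm
  obtain ⟨W', _, _, _, g, x', Y', p, θ, k0, k1, k2, k3, -, -, -, k7, -, k9, k10⟩ :=
    exists_MS (k := s.card) (p := fun i => root Y.charpoly ^ i) (θ := cf Y.charpoly_monic)
      (h1.of_sim (Sim.of_conj e x)) ((Sim.of_conj e x).isUnit_iff.1 h2)
      (h3.sim (Sim.of_conj e x) ⟨e, he⟩) (fun i => by rw [cyc_apply, pow_succ'])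
      (fun i _ l hl => cf_pow _ i (by rw [Y.charpoly_natDegree]; omega))
      (by simpa using cyc_one Y.charpoly) (h5.sim ⟨e, he⟩) s hs le_rfl
  exact ⟨W', inferInstance, inferInstance, inferInstance, x', _, _,
    by rw [k0, finrank_adjoinRoot, Y.charpoly_natDegree], k1, k2,
    k3.succ (CJ.top (k1.sim k7 rfl)), k9, k10⟩

theorem exists_poly [Fintype F] {m : ℕ} (hm : 2 ≤ m) (c : F) (S : Finset F)
    (hS : S.card < Fintype.card F) (h0 : 0 ∉ S) :
    ∃ a : F[X], a.Monic ∧ a.natDegree = m ∧ a.coeff 0 = c ∧ ∀ ν ∈ S, a.eval ν ≠ 0 := by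
  classical
  obtain ⟨τ, -, hτ⟩ := Finset.exists_mem_notMem_of_card_lt_card
    (s := S.image fun ν => -(ν ^ m + c) / ν) (t := Finset.univ) (Finset.card_image_le.trans_lt hS)
  have h1 : (C τ * X + C c : F[X]).degree < m :=
    degree_linear_le.trans_lt (by exact_mod_cast hm)
  refine ⟨X ^ m + (C τ * X + C c), monic_X_pow_add h1, ?_, by
    simp [coeff_X_pow, show 0 ≠ m by omega], fun ν hν h => hτ ?_⟩
  · rw [natDegree_add_eq_left_of_degree_lt (by rwa [degree_X_pow]), natDegree_X_pow]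
  · refine Finset.mem_image.2 ⟨ν, hν, ?_⟩
    rw [div_eq_iff (by rintro rfl; exact h0 hν)]
    simp at h
    linear_combination -h

theorem exists_sim {W : Type*} [AddCommGroup W] [Module F W] [FiniteDimensional F W]
    (y : End F W) (h : finrank F W = finrank F V) : ∃ x : End F V, Sim y x :=
  ⟨_, Sim.of_conj (.ofFinrankEq _ _ h) y⟩

theorem lev_TT' {g Z : End F V} (hg : IsUnit g) (hs : ∀ c : F, g ≠ c • 1) (hZ : TT Z)
    (hu : IsUnit Z) {a : F[X]} (ha : a.Monic) (hn : a.natDegree = finrank F V)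
    (hd : LinearMap.det g * LinearMap.det Z = (-1) ^ a.natDegree * a.coeff 0) :
    ∃ Z' : End F V, Sim Z Z' ∧ Sim (cyc a) (g * Z') := by
  have := fd_adjoinRoot ha.ne_zero
  obtain ⟨y, hy⟩ := exists_sim (V := V) (cyc a) (by rw [finrank_adjoinRoot, hn])
  obtain ⟨u, hu'⟩ := exists_cyc_of_sim hy
  obtain ⟨Z', h1, h2⟩ := lev_TT hg hs hZ hu hu' (by rw [hd, ← hy.det_eq, det_cyc ha])
  exact ⟨Z', h1, hy.trans h2⟩

theorem sim_xt {W : Type*} [AddCommGroup W] [Module F W] (Y : End F W) :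
    Sim (((1 : F) • (1 : End F F)).prodMap Y : End F (F × W)) (xt F Y) := by
  rw [one_smul]

theorem Nice.grow [Fintype F] {t : Multiset F[X]} {j m : ℕ} (h : Nice t j m) (hm : 0 < m) :
    Nice t (j + 1) (m + 1) := by
  obtain ⟨W, _, _, _, x, Y, w, rfl, h1, h2, h3, h4, h5⟩ := h
  obtain ⟨a, k1, k2, k3, k4⟩ := exists_poly (m := finrank F W + 1) (by omega)
    ((-1) ^ (finrank F W + 1) * (LinearMap.det (xt F x) * LinearMap.det (xt F Y))) {1}
    (by simpa using Fintype.one_lt_card) (by simp)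
  obtain ⟨Z, k5, k6⟩ := lev_TT' (isUnit_xt F h2) (fun c hc => by
      have l1 : c = 1 := by simpa using (congrArg Prod.fst (LinearMap.congr_fun hc (1, 0))).symm
      have l2 : x = 1 := LinearMap.ext fun v => by
        simpa [l1] using congrArg Prod.snd (LinearMap.congr_fun hc (0, v))
      subst l2
      obtain ⟨v, hv⟩ := finrank_pos_iff_exists_ne_zero.1 hm
      exact hv (h5 v (by simp [h3.eq_one])))
    (TT.of h4 h5 (sim_xt Y)) (isUnit_xt F (h3.isUnit h2)) k1 (by simp [k2, add_comm])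
    (by rw [k2, k3, ← mul_assoc, ← mul_pow]; simp)
  obtain ⟨u, hu⟩ := exists_cyc_of_sim k6
  exact ⟨F × W, inferInstance, inferInstance, inferInstance, xt F x, _, u, by simp [add_comm],
    h1.one_prod, isUnit_xt F h2,
    (((PW.one_one j).prodMap h3).right (CJ.top k5)).succ (CJ.refl _), hu,
    ((noEig_cyc_iff k1.ne_zero).2 (k4 1 (by simp))).sim k6⟩

theorem Nice.grow' [Fintype F] {t : Multiset F[X]} {j m : ℕ} (h : Nice t j m) (hm : 0 < m)
    (r : ℕ) : Nice t (j + r) (m + r) := by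
  induction r with
  | zero => exact h
  | succ r ih => exact ih.grow (by omega)

theorem Nice.good {t : Multiset F[X]} {j m : ℕ} (h : Nice t j m) {x : End F V} (hx : LK x t)
    (hm : m + 1 = finrank F V) : Good ⊤ x j := by
  obtain ⟨W, _, _, _, x', Y, w, rfl, h1, h2, h3, h4, h5⟩ := h
  obtain ⟨Z, hZ⟩ := exists_sim (V := V) (xt F Y) (by simp [← hm, add_comm])
  exact ⟨Z, (TT.of h4 h5 (sim_xt Y)).sim hZ, ((PW.one_one j).prodMap h3).sim
    (h1.one_prod.sim hx (by simp [← hm, add_comm])) hZ⟩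

omit [FiniteDimensional F V] in
theorem Cyc.nonscalar {x : End F V} {u : V} (h : Cyc x u) (hn : 2 ≤ finrank F V) (c : F) :
    x ≠ c • 1 := by
  rintro rfl
  have := h (F ∙ u) (Submodule.mem_span_singleton_self u) fun v hv => Submodule.smul_mem _ c hv
  have h1 := finrank_span_finset_le_card (R := F) ({u} : Finset V)
  rw [Finset.coe_singleton, Set.finrank, this, finrank_top] at h1
  simp at h1
  omega

theorem pw_two_TT {x Z : End F V} {u : V} (h : Cyc x u) (hx : IsUnit x) (hn : 2 ≤ finrank F V)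
    (hZ : TT Z) (hd : LinearMap.det Z = LinearMap.det x ^ 2) : PW ⊤ x 2 Z := by
  obtain ⟨y, h1, h2⟩ := exists_inv hx
  obtain ⟨Z', k1, k2⟩ := lev_TT (IsUnit.of_mul_eq_one _ h1) (nonscalar_inv (h.nonscalar hn) h2) hZ
    (isUnit_of_det (by simp [hd, det_ne_zero hx])) h
    (by rw [hd, sq, ← mul_assoc, ← map_mul, h1, map_one, one_mul])
  have := ((PW.one _).left (CJ.top k2.symm)).succ (CJ.refl x)
  rw [← mul_assoc, h2, one_mul] at this
  exact this.right (CJ.top k1.symm)

theorem exists_three [Fintype F] (h4 : 4 ≤ Fintype.card F) (a b c : F) :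
    ∃ d, d ≠ a ∧ d ≠ b ∧ d ≠ c := by
  classical
  obtain ⟨d, -, hd⟩ := Finset.exists_mem_notMem_of_card_lt_card (s := {a, b, c})
    (t := Finset.univ) (Finset.card_le_three.trans_lt h4)
  exact ⟨d, by simpa using hd⟩

theorem exists_ne01 [Fintype F] (h4 : 4 ≤ Fintype.card F) : ∃ a : F, a ≠ 0 ∧ a ≠ 1 :=
  let ⟨d, h1, h2, _⟩ := exists_three h4 0 1 1; ⟨d, h1, h2⟩

theorem exists_TT {μ : F} {b : F[X]} (hb : b.Monic) (hn : b.natDegree + 1 = finrank F V)
    (h : b.eval μ ≠ 0) : ∃ Z : End F V, TT Z ∧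
      Sim ((μ • (1 : End F F)).prodMap (cyc b) : End F (F × _)) Z ∧
      LinearMap.det Z = μ * ((-1) ^ b.natDegree * b.coeff 0) := by
  have := fd_adjoinRoot hb.ne_zero
  obtain ⟨Z, hZ⟩ := exists_sim (V := V) ((μ • (1 : End F F)).prodMap (cyc b) : End F (F × _))
    (by simp [finrank_adjoinRoot, ← hn, add_comm])
  exact ⟨Z, ⟨μ, b, hb, hn, h, hZ⟩, hZ, by rw [← hZ.det_eq, det_sc, det_cyc hb]⟩

theorem nice_single [Fintype F] (h4 : 4 ≤ Fintype.card F) {f : F[X]} (hf : Bk f)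
    (h3 : 3 ≤ f.natDegree) : Nice (edc f) 2 f.natDegree := by
  classical
  have := fd_adjoinRoot hf.1.ne_zero
  obtain ⟨μ, h0, h1⟩ := exists_ne01 h4
  obtain ⟨b, k1, k2, k3, k4⟩ := exists_poly (m := f.natDegree - 1) (by omega)
    ((-1) ^ (f.natDegree - 1) * (μ⁻¹ * LinearMap.det (cyc f) ^ 2)) {1, μ}
    (Finset.card_le_two.trans_lt (by omega)) (by simp [h0.symm])
  obtain ⟨Z, k5, k6, k7⟩ := exists_TT (V := AdjoinRoot f) k1
    (by rw [finrank_adjoinRoot]; omega) (k4 μ (by simp))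
  obtain ⟨u, hu⟩ := k5.cyc
  refine ⟨AdjoinRoot f, inferInstance, inferInstance, this, cyc f, Z, u, finrank_adjoinRoot f,
    edc_eq hf.1.ne_zero ▸ LK.refl _, isUnit_cyc hf.1 hf.2.2.2,
    pw_two_TT (cyc_one f) (isUnit_cyc hf.1 hf.2.2.2) (by rw [finrank_adjoinRoot]; omega) k5 ?_, hu,
    ((noEig_smul_one h1).prodMap ((noEig_cyc_iff k1.ne_zero).2 (k4 1 (by simp)))).sim k6⟩
  rw [k7, k2, k3, ← mul_assoc ((-1 : F) ^ _), ← mul_pow]
  simp [h0]

theorem card_le_rk {s : Multiset F[X]} (hs : ∀ f ∈ s, Bk f) : s.card ≤ rk s := by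
  induction s using Multiset.induction with
  | empty => simp
  | cons f s ih =>
    have := ih fun g hg => hs g (Multiset.mem_cons_of_mem hg)
    have h := (hs f (Multiset.mem_cons_self f s)).2.1
    simp only [rk, Multiset.card_cons, Multiset.map_cons, Multiset.sum_cons] at *
    omega

theorem nice_large [Fintype F] (h4 : 4 ≤ Fintype.card F) {s : Multiset F[X]} (hs : ∀ f ∈ s, Bk f)
    (hd : 2 ≤ rk s) (m : ℕ) (hm : 2 * rk s ≤ m) : ∃ j, 2 * j ≤ m + 1 ∧ Nice (s.bind edc) j m := by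
  induction m using Nat.strong_induction_on with
  | _ m ih =>
    rcases le_or_gt (3 * rk s) m with h | h
    · obtain ⟨j, h1, h2⟩ := ih (m - rk s) (by omega) (by omega)
      have := h2.multi hs (by have := card_le_rk hs; omega)
      exact ⟨j + 1, by omega, by rwa [show m - rk s + rk s = m by omega] at this⟩
    · have := (nice_two (exists_ne01 h4) hs (by rintro rfl; simp [rk] at hd)).grow'
        (by omega) (m - 2 * rk s)
      exact ⟨2 + (m - 2 * rk s), by omega,
        by rwa [show 2 * rk s + (m - 2 * rk s) = m by omega] at this⟩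

end CF.LevC
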