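/-
Covering number of `PSL(n,q)`: Hessenberg forms with respect to a flag.
-/
import Cfsg.Agent.LevC.F

set_option autoImplicit false

namespace CF.LevC

open Module CF.Cls CF.Classical Polynomial AdjoinRoot

variable {F V W A : Type*} [Field F] [AddCommGroup V] [Module F V] [AddCommGroup W] [Module F W]
  [AddCommGroup A] [Module F A]

variable (F) in
/-- the flag of a sequence of vectors -/
def Fl (e : ℕ → V) (i : ℕ) : Submodule F V := Submodule.span F (e '' Set.Iio i)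

variable {e : ℕ → V} {x y : End F V} {w : List Bool}

theorem Fl_zero : Fl F e 0 = ⊥ := by simp [Fl]

theorem Fl_mono {i j : ℕ} (h : i ≤ j) : Fl F e i ≤ Fl F e j :=
  Submodule.span_mono (Set.image_mono (Set.Iio_subset_Iio h))

theorem mem_Fl {i j : ℕ} (h : j < i) : e j ∈ Fl F e i := Submodule.subset_span ⟨j, h, rfl⟩

theorem Fl_le {i : ℕ} {M : Submodule F V} : Fl F e i ≤ M ↔ ∀ j < i, e j ∈ M := by
  rw [Fl, Submodule.span_le]
  exact ⟨fun h j hj => h ⟨j, hj, rfl⟩, by rintro h _ ⟨j, hj, rfl⟩; exact h j hj⟩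

theorem mem_Fl_succ {i : ℕ} {v : V} : v ∈ Fl F e (i + 1) ↔ ∃ c : F, v - c • e i ∈ Fl F e i := by
  rw [Fl, show Set.Iio (i + 1) = insert i (Set.Iio i) by ext; simp [le_iff_eq_or_lt],
    Set.image_insert_eq, Submodule.mem_span_insert]
  exact ⟨fun ⟨c, z, h1, h2⟩ => ⟨c, by simpa [h2, Fl] using h1⟩, fun ⟨c, h⟩ => ⟨c, _, h, by simp⟩⟩

theorem Fl_map (g : V →ₗ[F] W) (i : ℕ) : Fl F (g ∘ e) i = (Fl F e i).map g := by
  rw [Fl, Fl, Submodule.map_span, Set.image_comp]

theorem Fl_congr {e' : ℕ → V} {i : ℕ} (h : ∀ j < i, e j = e' j) : Fl F e i = Fl F e' i :=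
  congrArg _ (Set.image_congr h)

theorem map_Fl {i : ℕ} {M : Submodule F W} {g : V →ₗ[F] W} (h : ∀ j < i, g (e j) ∈ M) :
    ∀ v ∈ Fl F e i, g v ∈ M := fun _ hv => (Fl_le (M := M.comap g)).2 h hv

/-- Hessenberg form -/
structure HsE (x : End F V) (e : ℕ → V) (w : List Bool) : Prop where
  rk : finrank F V = w.length
  top : Fl F e w.length = ⊤
  hs : ∀ i, ∀ v ∈ Fl F e i, x v ∈ Fl F e (i + 1)
  iv : ∀ i < w.length, (∀ v ∈ Fl F e (i + 1), x v ∈ Fl F e (i + 1)) ↔ w.getD i false = false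

theorem HsE.congr {e' : ℕ → V} (h : HsE x e w) (h' : ∀ i, Fl F e i = Fl F e' i) : HsE x e' w :=
  ⟨h.rk, h' _ ▸ h.top, fun i => h' i ▸ h' (i + 1) ▸ h.hs i, fun i hi => h' _ ▸ h.iv i hi⟩

theorem HsE.map {y : End F W} (h : HsE x e w) (g : V ≃ₗ[F] W) (hg : ∀ v, g (x v) = y (g v)) :
    HsE y (g.toLinearMap ∘ e) w := by
  have k : ∀ i j, (∀ v ∈ Fl F (g.toLinearMap ∘ e) i, y v ∈ Fl F (g.toLinearMap ∘ e) j) ↔
      ∀ v ∈ Fl F e i, x v ∈ Fl F e j := fun i j => by
    rw [Fl_map, Fl_map]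
    refine ⟨fun h v hv => ?_, ?_⟩
    · simpa [← hg] using h _ (Submodule.mem_map_of_mem hv)
    · rintro h _ ⟨v, hv, rfl⟩
      exact ⟨_, h v hv, hg v⟩
  exact ⟨g.finrank_eq ▸ h.rk, by rw [Fl_map, h.top]; simp, fun i => (k _ _).2 (h.hs i),
    fun i hi => (k _ _).trans (h.iv i hi)⟩

theorem HsE.exact [FiniteDimensional F V] {g : End F A} {h : End F W} {e₁ : ℕ → A} {e₂ : ℕ → W}
    {w₁ w₂ : List Bool} (H₁ : HsE g e₁ w₁) (H₂ : HsE h e₂ w₂) (j : A →ₗ[F] V) (π : V →ₗ[F] W)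
    (hj : Function.Injective j) (hπ : Function.Surjective π)
    (hex : LinearMap.ker π = LinearMap.range j) (h1 : ∀ v, j (g v) = x (j v))
    (h2 : ∀ v, π (x v) = h (π v)) :
    ∃ e, HsE x e (w₁ ++ w₂) ∧ Fl F e w₁.length = LinearMap.range j := by
  choose σ hσ using hπ
  let e : ℕ → V := fun i => if i < w₁.length then j (e₁ i) else σ (e₂ (i - w₁.length))
  have k1 : ∀ i ≤ w₁.length, Fl F e i = (Fl F e₁ i).map j := fun i hi => by
    rw [← Fl_map]
    exact Fl_congr fun l hl => if_pos (by omega)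
  have k2 : ∀ i, Fl F e (w₁.length + i) = (Fl F e₂ i).comap π := fun i => by
    induction i with
    | zero => rw [add_zero, k1 _ le_rfl, H₁.top, Fl_zero, Submodule.comap_bot, hex]; simp
    | succ i ih =>
      ext v
      rw [← add_assoc, mem_Fl_succ, ih, Submodule.mem_comap, mem_Fl_succ]
      simp [e, hσ]
  have k3 : ∀ i l, i ≤ w₁.length → l ≤ w₁.length → ((∀ v ∈ Fl F e i, x v ∈ Fl F e l) ↔
      ∀ v ∈ Fl F e₁ i, g v ∈ Fl F e₁ l) := fun i l hi hl => by
    rw [k1 i hi, k1 l hl]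
    refine ⟨fun h v hv => ?_, ?_⟩
    · obtain ⟨v', h3, h4⟩ := h _ (Submodule.mem_map_of_mem hv)
      rwa [← hj (h4.trans (h1 v).symm)]
    · rintro h _ ⟨v, hv, rfl⟩
      exact ⟨_, h v hv, h1 v⟩
  have k4 : ∀ i l, (∀ v ∈ Fl F e (w₁.length + i), x v ∈ Fl F e (w₁.length + l)) ↔
      ∀ v ∈ Fl F e₂ i, h v ∈ Fl F e₂ l := fun i l => by
    rw [k2, k2]
    exact ⟨fun h v hv => by simpa [h2, hσ] using h (σ v) (by simpa [hσ] using hv),
      fun h v hv => by simpa [h2] using h _ hv⟩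
  refine ⟨e, ⟨?_, by rw [List.length_append, k2, H₂.top]; simp, fun i => ?_, fun i hi => ?_⟩,
    by rw [k1 _ le_rfl, H₁.top]; simp⟩
  · rw [← π.finrank_range_add_finrank_ker, hex, LinearMap.range_eq_top.2 fun v => ⟨_, hσ v⟩,
      LinearMap.finrank_range_of_inj hj, finrank_top, H₁.rk, H₂.rk, List.length_append, add_comm]
  · rcases lt_or_ge i w₁.length with hi | hi
    · exact (k3 _ _ hi.le hi).2 (H₁.hs i)
    · obtain ⟨i, rfl⟩ := Nat.exists_eq_add_of_le hi
      exact (k4 i (i + 1)).2 (H₂.hs i)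
  · rcases lt_or_ge i w₁.length with hi' | hi'
    · rw [List.getD_append _ _ _ _ hi', k3 _ _ hi' hi', H₁.iv i hi']
    · obtain ⟨i, rfl⟩ := Nat.exists_eq_add_of_le hi'
      rw [List.getD_append_right _ _ _ _ hi', add_assoc, k4, H₂.iv i (by simpa using hi),
        Nat.add_sub_cancel_left]

/-- existence of a Hessenberg form -/
def Hs (x : End F V) (w : List Bool) : Prop := ∃ e, HsE x e w

theorem Hs.sim {y : End F W} (h : Hs x w) (h' : Sim x y) : Hs y w :=
  let ⟨_, h⟩ := h; let ⟨g, hg⟩ := h'; ⟨_, h.map g hg⟩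

theorem Hs.prod [FiniteDimensional F V] [FiniteDimensional F W] {y : End F W} {w' : List Bool}
    (h : Hs x w) (h' : Hs y w') : Hs (x.prodMap y : End F (V × W)) (w ++ w') :=
  let ⟨_, h⟩ := h; let ⟨_, h'⟩ := h'
  let ⟨e, he, _⟩ := h.exact (x := x.prodMap y) h' (LinearMap.inl F _ _) (LinearMap.snd F _ _)
    LinearMap.inl_injective Prod.snd_surjective (LinearMap.range_inl F V W).symm (by simp) (by simp)
  ⟨e, he⟩

theorem hsE_smul (κ : F) : HsE (κ • (1 : End F F)) (fun _ => 1) [false] := by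
  have : ∀ i, Fl F (fun _ => (1 : F)) (i + 1) = ⊤ := fun i => eq_top_iff.2 fun v _ => by
    simpa using Submodule.smul_mem _ v (mem_Fl (F := F) (e := fun _ => (1 : F)) i.succ_pos)
  exact ⟨by simp, this 0, fun i v _ => this i ▸ trivial, fun i hi => by
    obtain rfl : i = 0 := by simpa using hi
    simp [this]⟩

/-- the word of a cyclic block -/
def wC (m : ℕ) : List Bool := List.replicate (m - 1) true ++ [false]

theorem hs_cyc {f : F[X]} (hf : f.Monic) (h : 0 < f.natDegree) : Hs (cyc f) (wC f.natDegree) := by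
  have k1 : (wC f.natDegree).length = f.natDegree := by simp [wC]; omega
  have k2 : Fl F (fun i => root f ^ i) f.natDegree = ⊤ := eq_top_of_pow hf fun i hi => mem_Fl hi
  refine ⟨fun i => root f ^ i, by rw [k1, finrank_adjoinRoot], by rw [k1, k2], fun i => map_Fl
    fun j hj => ?_, fun i hi => ?_⟩
  · rw [cyc_apply, ← pow_succ']; exact mem_Fl (e := fun i => root f ^ i) (by omega)
  · rw [k1] at hi
    rcases eq_or_ne (i + 1) f.natDegree with h1 | h1
    · rw [h1, k2, wC, List.getD_append_right _ _ _ _ (by simp; omega)]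
      simp [show i - (f.natDegree - 1) = 0 by omega]
    · rw [wC, List.getD_append _ _ _ _ (by simp; omega), List.getD_replicate _ (by omega)]
      refine iff_of_false (fun h2 => ?_) (by simp)
      have h3 := h2 _ (mem_Fl (e := fun i => root f ^ i) i.lt_succ_self)
      rw [cyc_apply, ← pow_succ'] at h3
      have := map_Fl (M := ⊥) (g := cf hf (i + 1)) (fun j hj => by
        simp [cf_pow hf _ (show j < _ by omega), show i + 1 ≠ j by omega]) _ h3
      simp [cf_pow hf _ (show i + 1 < _ by omega)] at this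

theorem exists_emb [FiniteDimensional F V] {Z : End F V} {φ : Dual F V} {v₀ u : V} {μ : F}
    {b : F[X]} (h0 : φ v₀ = 1) (h1 : ∀ v, φ (Z v) = μ * φ v) (hu : φ u = 0) (hb : b.Monic)
    (hd : b.natDegree + 1 = finrank F V) (h2 : aeval Z b u = 0)
    (h3 : ∀ M : Submodule F V, u ∈ M → (∀ v ∈ M, Z v ∈ M) → LinearMap.ker φ ≤ M) :
    ∃ j : AdjoinRoot b →ₗ[F] V, Function.Injective j ∧ LinearMap.ker φ = LinearMap.range j ∧
      ∀ y, j (cyc b y) = Z (j y) := by
  have k1 : ∀ v ∈ LinearMap.ker φ, Z v ∈ LinearMap.ker φ := fun v hv => by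
    simp [h1, LinearMap.mem_ker.1 hv]
  have k2 := lv_finrank_inf_ker (U := ⊤) (ψ := φ) (a := v₀) trivial (by simp [h0])
  rw [top_inf_eq, finrank_top] at k2
  obtain ⟨g, hg⟩ := Cyc.sim_cyc (x := Z.restrict k1) (u := ⟨u, hu⟩) (fun M l1 l2 => by
    have := h3 (M.map (LinearMap.ker φ).subtype) ⟨_, l1, rfl⟩
      (by rintro _ ⟨v, hv, rfl⟩; exact ⟨_, l2 v hv, rfl⟩)
    refine eq_top_iff.2 fun v _ => ?_
    obtain ⟨v', l3, l4⟩ := this v.2
    exact Subtype.ext l4 ▸ l3) hb (by omega) (Subtype.ext ((aeval_intertwine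
      (LinearMap.ker φ).subtype (fun _ => rfl) b _).trans h2))
  exact ⟨(LinearMap.ker φ).subtype ∘ₗ g.toLinearMap, Subtype.val_injective.comp g.injective,
    by simp [LinearMap.range_comp], fun y => by simp [hg]⟩

theorem hs_cyc_mul {p : F[X]} (hp : p.Monic) (κ : F) (h : Hs (cyc p) w) :
    Hs (cyc ((X - C κ) * p)) (w ++ [false]) := by
  set f := (X - C κ) * p with hf
  have hm : f.Monic := (monic_X_sub_C κ).mul hp
  have := fd_adjoinRoot hm.ne_zero
  let φ : AdjoinRoot f →ₐ[F] F := liftAlgHom f (Algebra.ofId F F) κ (by simp [hf, eval₂_mul])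
  have hφ : ∀ q, φ (mk f q) = q.eval κ := fun q => by simp [φ, eval₂_id]
  have k1 : ∀ v, φ.toLinearMap (cyc f v) = κ * φ.toLinearMap v := fun v => by
    have := hφ X
    simp at this
    simp [cyc_apply, this]
  obtain ⟨j, h1, h2, h3⟩ := exists_emb (v₀ := 1) (u := mk f (X - C κ)) (by simp) k1
    ((hφ (X - C κ)).trans (by simp)) hp
    (by rw [finrank_adjoinRoot, (monic_X_sub_C κ).natDegree_mul hp, natDegree_X_sub_C, add_comm])
    (by rw [aeval_cyc, ← map_mul, mul_comm, mk_self]) fun M l1 l2 v hv => by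
      obtain ⟨q, rfl⟩ := mk_surjective v
      obtain ⟨q, rfl⟩ := dvd_iff_isRoot.2 ((hφ q).symm.trans hv)
      have := cyc_one f (M.comap (LinearMap.mulLeft F (mk f (X - C κ)))) (by simpa using l1)
        fun v hv => by simpa [cyc_apply, mul_left_comm] using l2 _ hv
      rw [map_mul]
      exact (this ▸ Submodule.mem_top : mk f q ∈ M.comap (LinearMap.mulLeft F (mk f (X - C κ))))
  obtain ⟨e, h⟩ := h
  obtain ⟨e, he, -⟩ := h.exact (hsE_smul κ) j φ.toLinearMap h1
    (fun c => ⟨mk f (C c), (hφ _).trans eval_C⟩) h2 h3 k1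
  exact ⟨e, he⟩

theorem hs_cyc_pow_mul {p : F[X]} (hp : p.Monic) (κ : F) (h : Hs (cyc p) w) (k : ℕ) :
    Hs (cyc ((X - C κ) ^ k * p)) (w ++ List.replicate k false) := by
  induction k with
  | zero => rw [pow_zero, one_mul]; simpa using h
  | succ k ih =>
    rw [pow_succ', mul_assoc, List.replicate_succ', ← List.append_assoc]
    exact hs_cyc_mul (((monic_X_sub_C κ).pow k).mul hp) κ ih

theorem HsE.down (h : HsE x e w) {i : ℕ} (hi : i < w.length) (hw : w.getD i false ≠ false) {v : V}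
    (h1 : v ∈ Fl F e (i + 1)) (h2 : x v ∈ Fl F e (i + 1)) : v ∈ Fl F e i := by
  obtain ⟨c, hc⟩ := mem_Fl_succ.1 h1
  rcases eq_or_ne c 0 with rfl | h0
  · simpa using hc
  refine (hw ((h.iv i hi).1 (map_Fl fun j hj => ?_))).elim
  rcases (Nat.lt_succ_iff.1 hj).eq_or_lt with rfl | hj
  · have := Submodule.sub_mem _ h2 (h.hs _ _ hc)
    simpa [Submodule.smul_mem_iff _ h0] using this
  · exact h.hs _ _ (mem_Fl hj)

theorem lvGen_of_hs [FiniteDimensional F V] {w' : List Bool} (hx : HsE x e w) (hy : HsE y e w')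
    (ux : IsUnit x) (uy : IsUnit y)
    (hw : ∀ i, i + 1 < w.length → w.getD i false ≠ w'.getD i false) :
    LvGen (Fl F e (w.length - 1)) LinearMap.id (x * y) := fun S hS h => by
  have hl : w'.length = w.length := hy.rk.symm.trans hx.rk
  have h1 : ∀ v ∈ S, x (y v) ∈ S := fun v hv => by simpa using h (Submodule.mem_map_of_mem hv)
  have h2 : S.map (x * y) = S := Submodule.eq_of_le_of_finrank_le (by simpa using h)
    (lv_finrank_map fun v _ h => inj_of_isUnit (ux.mul uy) (by simpa using h)).ge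
  have sync : ∀ i < w.length, S ≤ Fl F e i ↔ ∀ v ∈ S, y v ∈ Fl F e i := fun i hi => by
    have kx : (∀ v ∈ Fl F e i, x v ∈ Fl F e i) → (S ≤ Fl F e i ↔ ∀ v ∈ S, y v ∈ Fl F e i) :=
      fun k => ⟨fun l v hv => inv_mem_of_inj (inj_of_isUnit ux) k (l (h1 v hv)), fun l => by
        rw [← h2]; rintro _ ⟨v, hv, rfl⟩; exact k _ (l v hv)⟩
    have ky : (∀ v ∈ Fl F e i, y v ∈ Fl F e i) → (S ≤ Fl F e i ↔ ∀ v ∈ S, y v ∈ Fl F e i) :=
      fun k => ⟨fun l v hv => k _ (l hv), fun l v hv => inv_mem_of_inj (inj_of_isUnit uy) k (l v hv)⟩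
    rcases i with _ | i
    · exact kx (by simp [Fl_zero])
    · rcases h : w.getD i false with _ | _
      · exact kx ((hx.iv i (by omega)).2 h)
      · exact ky ((hy.iv i (by omega)).2 (Bool.eq_false_iff.2 (h ▸ (hw i hi).symm)))
  have : ∀ k ≤ w.length - 1, S ≤ Fl F e (w.length - 1 - k) := fun k hk => by
    induction k with
    | zero => exact hS
    | succ k ih =>
      obtain ⟨i, hi⟩ : ∃ i, w.length - 1 - k = i + 1 := ⟨w.length - 1 - (k + 1), by omega⟩
      rw [hi] at ih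
      rw [show w.length - 1 - (k + 1) = i by omega]
      have l1 := ih (by omega)
      have l2 := (sync (i + 1) (by omega)).1 l1
      rcases h : w.getD i false with _ | _
      · exact fun v hv => hy.down (by omega) (fun h' => hw i (by omega) (h.trans h'.symm))
          (l1 hv) (l2 v hv)
      · exact (sync i (by omega)).2 fun v hv => hx.down (by omega) (by rw [h]; simp) (l2 v hv)
          (l1 (h1 v hv))
  simpa [Fl_zero] using this _ le_rfl

end CF.LevC
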