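/-
Covering number of `PSL(n,q)`: complementary Hessenberg forms give every cyclic class.
-/
import Cfsg.Agent.LevC.G

set_option autoImplicit false

namespace CF.LevC

open Module CF.Cls CF.Classical Polynomial AdjoinRoot
open LinearMap (transvection)

variable {F V W : Type*} [Field F] [AddCommGroup V] [Module F V] [AddCommGroup W] [Module F W]
  [FiniteDimensional F V] [FiniteDimensional F W]

omit [FiniteDimensional F V] in
theorem exists_basis_Fl {e : ℕ → V} {n : ℕ} (h1 : finrank F V = n) (h2 : Fl F e n = ⊤) :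
    ∃ b : Basis (Fin n) F V, ∀ i, b i = e i := by
  refine ⟨basisOfTopLeSpanOfCardEqFinrank (fun i : Fin n => e i) ?_ (by simp [h1]),
    fun i => by rw [coe_basisOfTopLeSpanOfCardEqFinrank]⟩
  rw [← h2, Fl_le]
  exact fun j hj => Submodule.subset_span ⟨⟨j, hj⟩, rfl⟩

omit [FiniteDimensional F V] in
theorem repr_eq_zero {e : ℕ → V} {n : ℕ} {b : Basis (Fin n) F V} (hb : ∀ i, b i = e i) {j : ℕ}
    (hj : j ≤ n) {i : Fin n} (hi : j ≤ i) {v : V} (hv : v ∈ Fl F e j) : b.repr v i = 0 :=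
  map_Fl (M := ⊥) (g := b.coord i) (fun l hl => by
    rw [← hb ⟨l, by omega⟩]
    simp [Finsupp.single_apply, Fin.ext_iff]
    omega) v hv

theorem exists_equiv_det {t : End F V} (h : LinearMap.det t ≠ 0) :
    ∃ g : V ≃ₗ[F] V, (g : End F V) = t ∧ (LinearEquiv.det g : F) = LinearMap.det t :=
  ⟨LinearEquiv.ofBijective t ((End.isUnit_iff t).1 (isUnit_of_det h)), rfl,
    LinearEquiv.coe_det _⟩

theorem exists_equiv_Fl {e e' : ℕ → V} {n : ℕ} (hn : 0 < n) (h1 : finrank F V = n)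
    (h2 : Fl F e n = ⊤) (h3 : Fl F e' n = ⊤) :
    ∃ g : V ≃ₗ[F] V, LinearEquiv.det g = 1 ∧ ∀ i, Fl F (g.toLinearMap ∘ e') i = Fl F e i := by
  obtain ⟨b, hb⟩ := exists_basis_Fl h1 h2
  obtain ⟨b', hb'⟩ := exists_basis_Fl h1 h3
  let g := b'.equiv b (Equiv.refl _)
  let c : F := (LinearEquiv.det g)⁻¹
  have hg : LinearMap.det (g : End F V) ≠ 0 := (LinearEquiv.isUnit_det' g).ne_zero
  obtain ⟨t, k1, k2⟩ := exists_equiv_det
    (t := transvection ((c - 1) • b.coord ⟨0, hn⟩) (b ⟨0, hn⟩)) (by simp [c, hg])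
  refine ⟨g.trans t, Units.ext ?_, fun i => ?_⟩
  · rw [LinearEquiv.det_trans, Units.val_mul, k2]; simp [c, hg]
  rcases le_or_gt i n with hi | hi
  · have k3 : Fl F (g.toLinearMap ∘ e') i = Fl F e i := Fl_congr fun j hj => by
      have := hb' ⟨j, by omega⟩
      simp only [Function.comp, ← this]
      simp [g, hb]
    rw [show (g.trans t).toLinearMap ∘ e' = t.toLinearMap ∘ g.toLinearMap ∘ e' from rfl, Fl_map, k3]
    refine Submodule.eq_of_le_of_finrank_le ?_ (LinearEquiv.finrank_map_eq t _).ge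
    rw [Submodule.map_le_iff_le_comap, Fl_le]
    intro j hj
    rw [Submodule.mem_comap, k1, LinearMap.transvection.apply, hb]
    exact Submodule.add_mem _ (mem_Fl hj) (Submodule.smul_mem _ _ (mem_Fl (by simp; omega)))
  · rw [eq_top_iff.2 (h2.ge.trans (Fl_mono hi.le)), Fl_map, eq_top_iff.2 (h3.ge.trans
      (Fl_mono hi.le))]
    simp

theorem cj_of_agree {y : End F W} {y₁ y₂ : End F V} {j : W →ₗ[F] V} {φ : Dual F V} {v₀ : V} {ν : F}
    (h0 : φ v₀ = 1) (hk : LinearMap.ker φ = LinearMap.range j) (h1 : ∀ w, j (y w) = y₁ (j w))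
    (h2 : ∀ w, j (y w) = y₂ (j w)) (h3 : ∀ v, φ (y₁ v) = ν * φ v) (h4 : ∀ v, φ (y₂ v) = ν * φ v)
    (hy : NoEig y ν) : CJ ⊥ y₁ y₂ := by
  have k0 : ∀ w, φ (j w) = 0 := fun w => (hk ▸ LinearMap.mem_range_self j w : j w ∈ LinearMap.ker φ)
  obtain ⟨w₁, k1⟩ : y₁ v₀ - y₂ v₀ ∈ LinearMap.range j := by rw [← hk]; simp [h3, h4]
  obtain ⟨w, k2⟩ := LinearMap.injective_iff_surjective.1 ((injective_iff_map_eq_zero
    (y - ν • (1 : End F W))).2 fun v hv => hy v (by simpa [sub_eq_zero] using hv)) w₁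
  refine ⟨LinearEquiv.transvection (k0 w), by simp, fun v => ?_⟩
  obtain ⟨w', k3⟩ : v - φ v • v₀ ∈ LinearMap.range j := by rw [← hk]; simp [h0]
  rw [eq_add_of_sub_eq k3.symm]
  generalize φ v = c
  rw [← k2] at k1
  simp only [LinearEquiv.transvection.apply, map_add, map_smul, k0, h3, h0, ← h1, ← h2,
    eq_add_of_sub_eq k1.symm]
  simp [h4, h0, k0]
  module

theorem control {x y' : End F V} {y : End F W} {w w' : List Bool} {ν : F} (hx : Hs x w)
    (hy : Hs y w') (hν : NoEig y ν)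
    (hs : Sim (y.prodMap (ν • (1 : End F F)) : End F (W × F)) y') (ux : IsUnit x) (uy : IsUnit y')
    (hw : ∀ i, i + 1 < w.length → w.getD i false ≠ w'.getD i false) {a : F[X]} (ha : a.Monic)
    (hd : a.natDegree = finrank F V)
    (hdet : LinearMap.det x * LinearMap.det y' = (-1) ^ a.natDegree * a.coeff 0) :
    ∃ y'', CJ ⊥ y' y'' ∧ Sim (cyc a) (x * y'') := by
  obtain ⟨e, hx⟩ := hx
  obtain ⟨e₁, hy⟩ := hy
  obtain ⟨e₂, k1, k2⟩ := hy.exact (x := y.prodMap (ν • (1 : End F F))) (hsE_smul ν)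
    (LinearMap.inl F _ _) (LinearMap.snd F _ _) LinearMap.inl_injective Prod.snd_surjective
    (LinearMap.range_inl F W F).symm (by simp) (by simp)
  obtain ⟨g₀, hg₀⟩ := hs
  have k3 := k1.map g₀ hg₀
  have hl : w.length = w'.length + 1 := by simpa using hx.rk.symm.trans k3.rk
  obtain ⟨g, k4, k5⟩ := exists_equiv_Fl (by omega) hx.rk hx.top (by simpa [hl] using k3.top)
  have k6 := (k3.map g (conj_app g y')).congr k5
  set y₁ := g.conj y'
  have uy₁ : IsUnit y₁ := (Sim.of_conj g y').isUnit_iff.1 uy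
  have k7 := lvGen_of_hs hx k6 ux uy₁ fun i hi => by
    rw [List.getD_append _ _ _ _ (by omega)]; exact hw i hi
  let G := g₀.trans g
  have hG : ∀ v, G ((y.prodMap (ν • (1 : End F F)) : End F _) v) = y₁ (G v) := fun v => by
    simp only [G, LinearEquiv.trans_apply, hg₀]; exact conj_app g y' _
  let j : W →ₗ[F] V := G.toLinearMap ∘ₗ LinearMap.inl F _ _
  let φ : Dual F V := LinearMap.snd F _ _ ∘ₗ G.symm.toLinearMap
  have l1 : Fl F e (w.length - 1) = LinearMap.range j := by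
    rw [← k5, hl, Nat.add_sub_cancel, Fl_map,
      show (g₀ ∘ e₂ : ℕ → V) = g₀.toLinearMap ∘ e₂ from rfl, Fl_map, k2, LinearMap.range_comp,
      ← Submodule.map_comp]
    rfl
  have l2 : LinearMap.ker φ = LinearMap.range j := by
    ext v
    obtain ⟨⟨p, c⟩, rfl⟩ := G.surjective v
    simp [φ, j, eq_comm]
  have l3 : ∀ v, j (y v) = y₁ (j v) := fun v => by simp [j, ← hG]
  have l4 : ∀ v, φ (y₁ v) = ν * φ v := fun v => by
    obtain ⟨v, rfl⟩ := G.surjective v
    simp [φ, ← hG]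
  have l5 : Function.Injective j := G.injective.comp LinearMap.inl_injective
  have l6 : φ (G (0, 1)) = 1 := by simp [φ]
  have l7 : Function.Surjective φ := fun c => ⟨c • G (0, 1), by simp [l6]⟩
  obtain ⟨E, m1, m2, m3⟩ := k7.ext (W := ⊤) (by
    rw [l1, LinearMap.finrank_range_of_inj l5, finrank_top, hx.rk, hy.rk, hl]) le_top le_top
    (fun _ _ h => h) ha (by simpa using hd)
  let E' := LinearEquiv.ofBijective E ⟨m1, LinearMap.range_eq_top.1 m2⟩
  obtain ⟨x', n1, n2⟩ := exists_inv ux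
  let y₂ := x' * E'.conj (cyc a)
  have n3 : x * y₂ = E'.conj (cyc a) := by rw [← mul_assoc, n2, one_mul]
  have n4 : ∀ v, j (y v) = y₂ (j v) := fun v => by
    obtain ⟨z, h1, h2⟩ := m3 (j v) (l1 ▸ LinearMap.mem_range_self j v)
    refine inj_of_isUnit ux ?_
    rw [← End.mul_apply x y₂, n3, l3, ← End.mul_apply, ← h2, show j v = E' z from h1.symm,
      ← conj_app]
    rfl
  have n5 : ∀ v, φ (y₂ v) = (φ (y₂ (G (0, 1))) • (1 : End F F)) (φ v) := fun v => by
    obtain ⟨p, hp⟩ : v - φ v • G (0, 1) ∈ LinearMap.range j := by rw [← l2]; simp [l6]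
    have : φ (j (y p)) = 0 := (l2 ▸ LinearMap.mem_range_self j _ : _ ∈ LinearMap.ker φ)
    conv_lhs => rw [eq_add_of_sub_eq hp.symm]
    simp [← n4, this, mul_comm]
  have n6 := det_of_exact j φ l5 l7 l2 n4 n5
  have n7 := det_of_exact (h := ν • (1 : End F F)) j φ l5 l7 l2 l3 l4
  have n8 : LinearMap.det y₂ = LinearMap.det y₁ := by
    refine mul_left_cancel₀ (det_ne_zero ux) ?_
    rw [← map_mul, n3, ← (Sim.of_conj E' _).det_eq, det_cyc ha, ← hdet, (Sim.of_conj g y').det_eq]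
  have n9 : φ (y₂ (G (0, 1))) = ν := by
    have := det_ne_zero uy₁
    rw [n6, n7] at n8
    rw [n7] at this
    simpa using mul_left_cancel₀ (left_ne_zero_of_mul this) n8
  exact ⟨y₂, (CJ.of_conj g (by simp [k4]) y').trans (cj_of_agree l6 l2 l3 n4 l4
    (fun v => by rw [n5, n9]; rfl) hν), n3 ▸ Sim.of_conj E' _⟩

end CF.LevC
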