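/-
Covering number of `PSL(n,q)`: products of two cyclic elements with prescribed determinant of
the conjugating element.
-/
import Cfsg.Agent.LevC.H

set_option autoImplicit false

namespace CF.LevC

open Module CF.Cls CF.Classical Polynomial AdjoinRoot
open LinearMap (transvection)

variable {F V W : Type*} [Field F] [AddCommGroup V] [Module F V] [AddCommGroup W] [Module F W]

/-- conjugate by an automorphism with given determinant -/
def CD (δ : Fˣ) (x y : End F V) : Prop :=
  ∃ h : V ≃ₗ[F] V, LinearEquiv.det h = δ ∧ ∀ v, h (x v) = y (h v)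

variable {x y z : End F V} {δ ε : Fˣ}

theorem CD.cj {D : Subgroup Fˣ} (h : CD 1 x y) : CJ D x y :=
  let ⟨e, h1, h2⟩ := h; ⟨e, h1 ▸ D.one_mem, h2⟩

theorem CD.sim (h : CD δ x y) : Sim x y := let ⟨e, _, h⟩ := h; ⟨e, h⟩

theorem exists_CD (h : Sim x y) : ∃ δ, CD δ x y := let ⟨e, h⟩ := h; ⟨_, e, rfl, h⟩

theorem CD.conj (e : V ≃ₗ[F] W) (h : CD δ x y) : CD δ (e.conj x) (e.conj y) := by
  obtain ⟨t, h1, h2⟩ := h
  refine ⟨conjLE e t, by rwa [det_conjLE], fun w => ?_⟩
  simp [conjLE, LinearEquiv.conj_apply, h2]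

variable [FiniteDimensional F V] [FiniteDimensional F W]

theorem CD.scale (h : CD δ x y) (c : Fˣ) : CD (c ^ finrank F V * δ) x y := by
  obtain ⟨t, h1, h2⟩ := h
  obtain ⟨s, k1, k2⟩ := smul_mem_detC y c
  exact ⟨t.trans s, by rw [LinearEquiv.det_trans, h1]; exact congrArg (· * δ) k2,
    fun v => by simp [h2, k1 (t v)]⟩

theorem CD.prod {x' y' : End F W} (h : CD δ x y) (h' : CD ε x' y') :
    CD (δ * ε) (x.prodMap x' : End F (V × W)) (y.prodMap y') := by
  obtain ⟨t, h1, h2⟩ := h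
  obtain ⟨s, h3, h4⟩ := h'
  refine ⟨t.prodCongr s, Units.ext ?_, fun v => by simp [h2, h4]⟩
  rw [← h1, ← h3, Units.val_mul, LinearEquiv.coe_det, LinearEquiv.coe_det, LinearEquiv.coe_det,
    ← LinearMap.det_prodMap]
  rfl

theorem Cyc.fl_top {u : V} (h : Cyc x u) : Fl F (fun i => (x ^ i) u) (finrank F V) = ⊤ := by
  refine eq_top_iff.2 fun w _ => ?_
  obtain ⟨p, rfl⟩ := h.exists_aeval w
  rw [← modByMonic_add_div p x.charpoly, map_add, map_mul, LinearMap.aeval_self_charpoly, zero_mul,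
    add_zero]
  rcases eq_or_ne (p %ₘ x.charpoly) 0 with h0 | h0
  · simp [h0]
  rw [aeval_eq_sum_range' ((natDegree_lt_natDegree h0 (degree_modByMonic_lt p
    x.charpoly_monic)).trans_eq x.charpoly_natDegree), LinearMap.sum_apply]
  exact Submodule.sum_mem _ fun i hi =>
    Submodule.smul_mem _ _ (mem_Fl (e := fun i => (x ^ i) u) (by simpa using hi))

omit [FiniteDimensional F V] [FiniteDimensional F W] in
theorem exists_map_Fl {e : ℕ → V} {n : ℕ} (h1 : finrank F V = n) (h2 : Fl F e n = ⊤) (u : ℕ → W) :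
    ∃ P : V →ₗ[F] W, ∀ i < n, P (e i) = u i := by
  obtain ⟨b, hb⟩ := exists_basis_Fl h1 h2
  exact ⟨b.constr F fun i => u i, fun i hi => by rw [← hb ⟨i, hi⟩, b.constr_basis]⟩

omit [FiniteDimensional F V] in
theorem det_of_Fl {e : ℕ → V} {n : ℕ} (h1 : finrank F V = n) (h2 : Fl F e n = ⊤) {d : ℕ → F}
    (h : ∀ i < n, x (e i) - d i • e i ∈ Fl F e i) :
    LinearMap.det x = ∏ i ∈ Finset.range n, d i := by
  obtain ⟨b, hb⟩ := exists_basis_Fl h1 h2
  have k : ∀ i j : Fin n, j ≤ i → LinearMap.toMatrix b b x i j = if i = j then d j else 0 :=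
    fun i j hij => by
      have := repr_eq_zero hb j.2.le hij (h j j.2)
      rw [← hb j] at this
      simpa [LinearMap.toMatrix_apply, sub_eq_zero, Finsupp.single_apply, @eq_comm _ j] using this
  rw [← LinearMap.det_toMatrix b, Matrix.det_of_isUpperTriangular fun i j hij =>
    (k i j (le_of_lt hij)).trans (if_neg (ne_of_gt hij)), Finset.prod_range]
  exact Finset.prod_congr rfl fun i _ => by rw [k i i le_rfl, if_pos rfl]

theorem cc_core {x₂ : End F V} {u v : V} {r : ℕ} (hr : finrank F V = r + 3) (h1 : Cyc x u)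
    (h2 : Cyc y v) (hy : x₂ * y = 1) {κ Δ : F} (hκ : κ ≠ 0) (hΔ : Δ ≠ 0) :
    ∃ c : Fˣ, ∀ (d : Fˣ) (α : F), ∃ x', CD (d ^ (r + 2) * c) x x' ∧
      (x' * x₂) ((y ^ 1) v) = α • (y ^ 1) v + (α * d - Δ) • (y ^ 2) v ∧
      (x' * x₂) ((y ^ 2) v) = (d : F) • (y ^ 2) v + (y ^ 1) v ∧
      ∀ i < r, (x' * x₂) ((y ^ (i + 3)) v) = κ • (y ^ (i + 3)) v + (y ^ (i + 2)) v := by
  have k1 := h1.fl_top
  have k2 := h2.fl_top
  rw [hr] at k1 k2
  have k3 : ∀ i, x₂ ((y ^ (i + 1)) v) = (y ^ i) v := fun i => by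
    rw [pow_succ', End.mul_apply, ← End.mul_apply x₂, hy]; rfl
  generalize he : (fun i => (y ^ i) v) = e at k2
  have he' : ∀ i, (y ^ i) v = e i := congrFun he
  simp only [he'] at k3 ⊢
  obtain ⟨R, hR⟩ := exists_map_Fl hr k1 e
  have hR0 : LinearMap.det R ≠ 0 := det_ne_zero ((LinearMap.isUnit_iff_range_eq_top R).2
    (eq_top_iff.2 (k2.ge.trans (Fl_le.2 fun j hj => ⟨_, hR j hj⟩))))
  refine ⟨Units.mk0 (Δ ^ (r + 2) * (∏ i ∈ Finset.range (r + 1), κ ^ i) * LinearMap.det R)
    (mul_ne_zero (mul_ne_zero (pow_ne_zero _ hΔ) (Finset.prod_ne_zero_iff.2 fun i _ =>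
      pow_ne_zero _ hκ)) hR0), fun d α => ?_⟩
  obtain ⟨T, hT⟩ := exists_map_Fl hr k2 fun i => match i with
    | 0 => α • e 1 + (α * d - Δ) • e 2
    | 1 => (d : F) • e 2 + e 1
    | i + 2 => κ • e (i + 3) + e (i + 2)
  have t0 : T (e 0) = α • e 1 + (α * d - Δ) • e 2 := hT 0 (by omega)
  have t1 : T (e 1) = (d : F) • e 2 + e 1 := hT 1 (by omega)
  have t2 : ∀ i ≤ r, T (e (i + 2)) = κ • e (i + 3) + e (i + 2) := fun i hi => hT (i + 2) (by omega)
  have t3 : ∀ i ≤ r, ∀ w ∈ Fl F e (i + 2), T w ∈ Fl F e (i + 3) := fun i hi => map_Fl fun j hj => by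
    match j with
    | 0 =>
      rw [t0]
      exact Submodule.add_mem _ (Submodule.smul_mem _ _ (mem_Fl (by omega)))
        (Submodule.smul_mem _ _ (mem_Fl (by omega)))
    | 1 =>
      rw [t1]
      exact Submodule.add_mem _ (Submodule.smul_mem _ _ (mem_Fl (by omega))) (mem_Fl (by omega))
    | j + 2 =>
      rw [t2 j (by omega)]
      exact Submodule.add_mem _ (Submodule.smul_mem _ _ (mem_Fl (by omega))) (mem_Fl (by omega))
  set u₀ := (d : F) • e 0 - (α * d - Δ) • e 1 with hu₀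
  have t4 : (T ^ 1) u₀ = Δ • e 1 := by
    simp only [pow_one, hu₀, map_sub, map_smul, t0, t1]; module
  have t5 : ∀ i ≤ r, (T ^ (i + 2)) u₀ - (Δ * d * κ ^ i) • e (i + 2) ∈ Fl F e (i + 2) :=
    fun i hi => by
      induction i with
      | zero =>
        rw [pow_succ', End.mul_apply, t4, map_smul, t1]
        convert Submodule.smul_mem _ Δ (mem_Fl (e := e) (j := 1) (i := 0 + 2) (by omega)) using 1
        module
      | succ i ih =>
        have := Submodule.add_mem _ (t3 i (by omega) _ (ih (by omega)))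
          (Submodule.smul_mem _ (Δ * d * κ ^ i) (mem_Fl (e := e) (j := i + 2) (by omega)))
        rw [map_sub, map_smul, t2 i (by omega), ← End.mul_apply, ← pow_succ'] at this
        convert this using 1
        module
  obtain ⟨P, hP⟩ := exists_map_Fl hr k2 fun i => (T ^ i) u₀
  obtain ⟨b, hb⟩ := exists_basis_Fl hr k2
  have b0 : ∀ i < r + 3, b.coord 0 (e i) = if i = 0 then 1 else 0 := fun i hi => by
    rw [← hb ⟨i, hi⟩]; simp [Finsupp.single_apply, Fin.ext_iff]
  have hd := det_of_Fl (x := P * transvection (b.coord 0) (((α * d - Δ) / Δ) • e 1)) hr k2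
    (d := fun i => match i with | 0 => d | 1 => Δ | i + 2 => Δ * d * κ ^ i) fun i hi => by
      rw [End.mul_apply, LinearMap.transvection.apply, b0 i hi, map_add, map_smul, map_smul,
        hP i hi, hP 1 (by omega), t4]
      match i with
      | 0 =>
        convert Submodule.zero_mem _ using 1
        simp only [hu₀, pow_zero, End.one_apply, if_true]
        match_scalars <;> field_simp <;> ring
      | 1 => rw [t4]; simp
      | i + 2 => simpa using t5 i (by omega)
  rw [map_mul, LinearMap.transvection.det, map_smul, b0 1 (by omega), if_neg one_ne_zero, smul_zero,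
    Finset.prod_range_succ',
    Finset.prod_range_succ'] at hd
  simp only [Finset.prod_mul_distrib, Finset.prod_const, Finset.card_range] at hd
  have hd' : LinearMap.det (P * R) = d ^ (r + 2) *
      (Δ ^ (r + 2) * (∏ i ∈ Finset.range (r + 1), κ ^ i) * LinearMap.det R) := by
    rw [map_mul]
    linear_combination hd * LinearMap.det R
  have hP0 : LinearMap.det (P * R) ≠ 0 := by
    rw [hd']
    exact mul_ne_zero (pow_ne_zero _ d.ne_zero) (mul_ne_zero (mul_ne_zero (pow_ne_zero _ hΔ)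
      (Finset.prod_ne_zero_iff.2 fun i _ => pow_ne_zero _ hκ)) hR0)
  obtain ⟨K, l1, l2⟩ := exists_equiv_det hP0
  have l3 : ∀ i < r + 3, K ((x ^ i) u) = (T ^ i) u₀ := fun i hi => by
    rw [← hP i hi, ← hR i hi, ← End.mul_apply, ← l1]; rfl
  have l4 : ∀ w ∈ Fl F e (r + 2), K.conj x (P w) = T (P w) := fun w hw => by
    refine sub_eq_zero.1 (map_Fl (M := ⊥) (g := (K.conj x - T) * P) (fun j hj => ?_) w hw)
    rw [End.mul_apply, hP j (by omega), LinearMap.sub_apply, ← l3 j (by omega), ← conj_app,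
      ← End.mul_apply x, ← pow_succ', l3 _ (by omega), l3 j (by omega), pow_succ']
    simp
  have l5 : (Fl F e (r + 2)).map P = Fl F e (r + 2) := by
    refine Submodule.eq_of_le_of_finrank_le (Submodule.map_le_iff_le_comap.2 (Fl_le.2 fun j hj => ?_))
      (lv_finrank_map fun w _ h => inj_of_isUnit (isUnit_of_det (x := P) fun h0 => hP0
        (by rw [map_mul, h0, zero_mul])) (by simpa using h)).ge
    rw [Submodule.mem_comap, hP j (by omega)]
    match j with
    | 0 => exact Submodule.sub_mem _ (Submodule.smul_mem _ _ (mem_Fl (by omega)))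
            (Submodule.smul_mem _ _ (mem_Fl (by omega)))
    | 1 => exact t4 ▸ Submodule.smul_mem _ _ (mem_Fl (by omega))
    | j + 2 => simpa using Submodule.add_mem _ (Fl_mono (show j + 2 ≤ r + 2 by omega)
            (t5 j (by omega))) (Submodule.smul_mem _ (Δ * d * κ ^ j) (mem_Fl hj))
  have l6 : ∀ i < r + 2, (K.conj x * x₂) (e (i + 1)) = T (e i) := fun i hi => by
    obtain ⟨w, hw, h⟩ : e i ∈ (Fl F e (r + 2)).map P := l5.symm ▸ mem_Fl hi
    rw [End.mul_apply, k3, ← h, l4 w hw]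
  exact ⟨K.conj x, ⟨K, Units.ext (by rw [l2, hd']; simp), conj_app K x⟩, (l6 0 (by omega)).trans t0,
    (l6 1 (by omega)).trans t1, fun i hi => (l6 (i + 2) (by omega)).trans (t2 i hi.le)⟩

theorem sim_mul_comm (hx : IsUnit x) (y : End F V) : Sim (y * x) (x * y) :=
  ⟨LinearEquiv.ofBijective x ((End.isUnit_iff x).1 hx), fun _ => rfl⟩

theorem cc {x₂ : End F V} {u v : V} {r : ℕ} (hr : finrank F V = r + 3) (h1 : Cyc x u)
    (h2 : Cyc x₂ v) (ux : IsUnit x₂) {μ κ : F} {g : F[X]} (hg : g.Monic) (hd : g.natDegree = 2)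
    (hκ : κ ≠ 0) (h0 : g.coeff 0 ≠ 0) (hμ : ((X - C κ) ^ r * g).eval μ ≠ 0)
    (hdet : μ * (κ ^ r * g.coeff 0) = LinearMap.det x₂ * LinearMap.det x) (δ : Fˣ) :
    ∃ x', CD δ x x' ∧ Sim ((μ • (1 : End F F)).prodMap (cyc ((X - C κ) ^ r * g)) : End F (F × _))
      (x₂ * x') := by
  obtain ⟨y, k1, k2⟩ := exists_inv ux
  have k3 := h2.inv k1
  obtain ⟨c, hc⟩ := cc_core hr h1 k3 k2 hκ h0
  obtain ⟨x', l1, l2, l3, l4⟩ := hc (c / δ) (-g.coeff 1 - (c / δ : Fˣ))
  refine ⟨x', by
    convert l1.scale (δ / c) using 1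
    rw [hr, pow_succ', mul_assoc, ← mul_assoc (_ ^ _), ← mul_pow]; simp, Sim.trans ?_
      (sim_mul_comm ux x')⟩
  have k4 := k3.fl_top
  rw [hr] at k4
  generalize (c / δ : Fˣ) = d at l2 l3
  have hZ : LinearMap.det (x' * x₂) = μ * (κ ^ r * g.coeff 0) := by
    rw [hdet, map_mul, l1.sim.det_eq, mul_comm]
  generalize x' * x₂ = Z at l2 l3 l4 hZ ⊢
  generalize he : (fun i => (y ^ i) v) = e at k4
  have he' : ∀ i, (y ^ i) v = e i := congrFun he
  simp only [he'] at l2 l3 l4
  obtain ⟨b, hb⟩ := exists_basis_Fl hr k4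
  have b0 : ∀ i < r + 3, b.coord 0 (e i) = if i = 0 then 1 else 0 := fun i hi => by
    rw [← hb ⟨i, hi⟩]; simp [Finsupp.single_apply, Fin.ext_iff]
  have m1 : ∀ v, b.coord 0 (Z v) = b.coord 0 (Z (e 0)) * b.coord 0 v := fun v =>
    sub_eq_zero.1 (map_Fl (M := ⊥) (g := b.coord 0 ∘ₗ Z - b.coord 0 (Z (e 0)) • b.coord 0)
      (fun j hj => by
        rw [LinearMap.sub_apply, LinearMap.smul_apply, LinearMap.comp_apply, b0 j hj]
        match j with
        | 0 => simp
        | 1 => simp only [l2, map_add, map_smul, b0 1 hj, b0 2 (by omega)]; simp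
        | 2 => simp only [l3, map_add, map_smul, b0 2 hj, b0 1 (by omega)]; simp
        | j + 3 =>
          simp only [l4 j (by omega), map_add, map_smul, b0 _ hj, b0 (j + 2) (by omega)]; simp)
      v (k4.ge trivial))
  have hm : ((X - C κ) ^ r * g).Monic := ((monic_X_sub_C κ).pow r).mul hg
  have hn : ((X - C κ) ^ r * g).natDegree = r + 2 := by
    rw [((monic_X_sub_C κ).pow r).natDegree_mul hg, hd, (monic_X_sub_C κ).natDegree_pow]; simp
  have m2 : ∀ i ≤ r, aeval Z ((X - C κ) ^ i) (e (i + 2)) = e 2 := fun i hi => by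
    induction i with
    | zero => simp
    | succ i ih =>
      rw [pow_succ, map_mul, End.mul_apply, ← ih (by omega)]
      simp [l4 i hi, Algebra.algebraMap_eq_smul_one]
  obtain ⟨j, n1, n2, n3⟩ := exists_emb (Z := Z) (v₀ := e 0) (u := e (r + 2)) (by simpa using b0 0)
    m1 (by simpa using b0 (r + 2)) hm (by rw [hn, hr]) (by
      have := hg.coeff_natDegree
      rw [hd] at this
      rw [mul_comm, map_mul, End.mul_apply, m2 r le_rfl, aeval_eq_sum_range, hd]
      simp only [Finset.sum_range_succ, Finset.range_zero, Finset.sum_empty, this, pow_succ,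
        pow_zero, one_mul, LinearMap.add_apply, LinearMap.smul_apply, End.mul_apply, l3, map_add,
        map_smul, l2, End.one_apply, LinearMap.zero_apply]
      module) fun M p1 p2 w hw => by
      have p3 : ∀ i ≤ r + 1, e (r + 1 - i + 1) ∈ M := fun i hi => by
        induction i with
        | zero => exact p1
        | succ i ih =>
          have p4 := ih (by omega)
          obtain ⟨k, hk⟩ : ∃ k, r + 1 - (i + 1) = k := ⟨_, rfl⟩
          rw [show r + 1 - i = k + 1 by omega] at p4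
          rw [hk]
          match k with
          | 0 => simpa [l3] using M.sub_mem (p2 _ p4) (M.smul_mem (d : F) p4)
          | k + 1 => simpa [l4 k (by omega)] using M.sub_mem (p2 _ p4) (M.smul_mem κ p4)
      simpa [LinearMap.mem_ker.1 hw] using map_Fl (M := M)
        (g := (1 : End F V) - (b.coord 0).smulRight (e 0)) (fun j hj => by
          rw [LinearMap.sub_apply, LinearMap.smulRight_apply, b0 j hj]
          match j with
          | 0 => simp
          | j + 1 => simpa [show r + 1 - (r + 1 - j) = j by omega] using p3 (r + 1 - j) (by omega))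
        w (k4.ge trivial)
  have := fd_adjoinRoot hm.ne_zero
  have n4 : Function.Surjective (b.coord 0) := fun c => ⟨c • e 0, by
    rw [map_smul, b0 0 (by omega)]; simp⟩
  have n5 := det_of_exact (h := b.coord 0 (Z (e 0)) • (1 : End F F)) j _ n1 n4 n2 n3 m1
  rw [hZ, det_cyc hm, hn] at n5
  have n6 : b.coord 0 (Z (e 0)) = μ := mul_left_cancel₀ (mul_ne_zero (pow_ne_zero r hκ) h0) (by
    simp only [mul_coeff_zero, coeff_zero_eq_eval_zero ((X - C κ) ^ r), eval_pow, eval_sub, eval_X,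
      eval_C, zero_sub, ← mul_assoc, ← mul_pow, pow_add] at n5
    simp [← mul_pow] at n5
    simp only [Basis.coord_apply]
    linear_combination -n5)
  rw [n6] at m1
  exact sim_prodMap_of_exact j _ n1 n4 n2 n3 m1 ((aeval_cyc_eq_zero_iff _ _).2 dvd_rfl)
    (q := X - C μ) (by simp [Algebra.algebraMap_eq_smul_one])
    ((irreducible_X_sub_C μ).coprime_iff_not_dvd.2 (mt dvd_iff_isRoot.1 hμ)).symm

end CF.LevC
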