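/-
Covering number of `PSL(n,q)`: three conjugates of an element with at least two blocks give every
cyclic class.
-/
import Cfsg.Agent.LevC.I

set_option autoImplicit false

namespace CF.LevC

open Module CF.Cls CF.Classical Polynomial AdjoinRoot

universe u

variable {F V W : Type*} [Field F] [AddCommGroup V] [Module F V] [AddCommGroup W] [Module F W]
  [FiniteDimensional F V] [FiniteDimensional F W] [Fintype F]

theorem exists_quad (h4 : 4 ≤ Fintype.card F) (s p r : F) : ∃ a, a ≠ s ∧ a ^ 2 + p * a + r ≠ 0 := by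
  by_cases h : ∃ b : F, b ^ 2 + p * b + r = 0
  · obtain ⟨b, hb⟩ := h
    obtain ⟨a, h1, h2, h3⟩ := exists_three h4 s b (-p - b)
    refine ⟨a, h1, fun h => mul_ne_zero (sub_ne_zero.2 h2) (sub_ne_zero.2 h3) ?_⟩
    linear_combination h - hb
  · obtain ⟨a, h1, -⟩ := exists_three h4 s s s
    exact ⟨a, h1, fun h2 => h ⟨a, h2⟩⟩

omit [Fintype F] in
theorem aeval_two {g : F[X]} (hg : g.Monic) (hd : g.natDegree = 2) {A : Type*} [Ring A]
    [Algebra F A] (z : A) : aeval z g = z * z + g.coeff 1 • z + g.coeff 0 • 1 := by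
  have := hg.coeff_natDegree
  rw [hd] at this
  rw [aeval_eq_sum_range, hd]
  simp [Finset.sum_range_succ, this, sq]
  abel

omit [Fintype F] in
theorem cyc_prod {x : End F (F × F)} (h : (x (1, 0)).2 ≠ 0) : Cyc x (1, 0) := fun M h1 h2 =>
  eq_top_iff.2 fun v _ => by
    convert M.add_mem (M.smul_mem (v.1 - v.2 / (x (1, 0)).2 * (x (1, 0)).1) h1)
      (M.smul_mem (v.2 / (x (1, 0)).2) (h2 _ h1)) using 1
    ext <;> simp [h]

theorem cc_two (h4 : 4 ≤ Fintype.card F) {x : End F V} {u : V} (hr : finrank F V = 2)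
    (h1 : Cyc x u) (ux : IsUnit x) {ν ν' : F} (hν : ν * ν' = LinearMap.det x ^ 2) (δ : Fˣ) :
    ∃ x' w, CD δ x x' ∧ Cyc (x * x') w ∧ NoEig (x * x') ν ∧ NoEig (x * x') ν' := by
  have k1 := h1.sim_charpoly
  have k2 : x.charpoly.natDegree = 2 := x.charpoly_natDegree.trans hr
  have k3 := k1.det_eq
  rw [det_cyc x.charpoly_monic, k2, neg_one_sq, one_mul] at k3
  have he := det_ne_zero ux
  rw [← k3] at hν he
  set e := x.charpoly.coeff 0
  set t := -x.charpoly.coeff 1 with ht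
  let x₀ : End F (F × F) := ((-e) • LinearMap.snd F F F).prod
    (LinearMap.fst F F F + t • LinearMap.snd F F F)
  obtain ⟨E, hE⟩ := ((cyc_prod (x := x₀) (by simp [x₀])).sim_cyc x.charpoly_monic (by simp [k2])
    (by rw [aeval_two x.charpoly_monic k2]; simp [x₀, ht, e])).symm.trans k1
  rw [← conj_eq E hE]
  obtain ⟨a, l1, l2⟩ := exists_quad h4 (-(t * δ)) (δ * t - t)
    (e + δ ^ 2 * e - δ * t ^ 2 + δ * (ν + ν'))
  let h : End F (F × F) := (LinearMap.fst F F F + a • LinearMap.snd F F F).prod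
    ((δ : F) • LinearMap.snd F F F)
  have hd := det_of_exact (f := h) (g := 1) (h := (δ : F) • (1 : End F F)) (LinearMap.inl F F F)
    (LinearMap.snd F F F) LinearMap.inl_injective Prod.snd_surjective
    (LinearMap.range_inl F F F).symm (by simp [h]) (by simp [h])
  obtain ⟨H, l3, l4⟩ := exists_equiv_det (t := h) (by simp [hd])
  let x₁ : End F (F × F) :=
    (a • LinearMap.fst F F F + (((t - a) * a - e) / δ) • LinearMap.snd F F F).prod
    ((δ : F) • LinearMap.fst F F F + (t - a) • LinearMap.snd F F F)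
  have l5 : CD δ x₀ x₁ := ⟨H, Units.ext (by simp [l4, hd]), fun v => by
    change (H : End F _) _ = x₁ ((H : End F _) _)
    rw [l3]
    ext <;> simp [h, x₀, x₁] <;> field_simp <;> ring⟩
  have l6 : ∀ ν ν' : F, ν * ν' = e ^ 2 → a ^ 2 + (δ * t - t) * a +
      (e + δ ^ 2 * e - δ * t ^ 2 + δ * (ν + ν')) ≠ 0 → NoEig (x₀ * x₁) ν := fun ν ν' m1 m2 v hv => by
    have hν : ν ≠ 0 := by rintro rfl; exact he (by simpa using m1.symm)
    have m3 := congrArg Prod.fst hv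
    have m4 := congrArg (fun w : F × F => (δ : F) * w.2) hv
    simp [x₀, x₁, mul_add, ← mul_assoc, mul_div_cancel₀ _ δ.ne_zero] at m3 m4
    have m5 := mul_ne_zero hν m2
    refine Prod.ext (mul_left_cancel₀ m5 ?_) (mul_left_cancel₀ m5 ?_)
    · rw [Prod.fst_zero]
      linear_combination ((t - a) * a - e + δ * t * (t - a) - δ * ν) * m3 + e * (t - a) * m4 +
        δ * v.1 * m1
    · rw [Prod.snd_zero]
      linear_combination (-e * δ - ν) * m4 - (δ * a + δ ^ 2 * t) * m3 + δ * v.2 * m1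
  refine ⟨E.conj x₁, E (1, 0), l5.conj E, ?_⟩
  rw [← conj_mul]
  exact ⟨(cyc_prod (x := x₀ * x₁) (by simpa [x₀, x₁, add_eq_zero_iff_eq_neg] using l1)).map E
    (conj_app E _), (l6 ν ν' hν l2).sim (Sim.of_conj E _),
    (l6 ν' ν (by rwa [mul_comm]) (by rwa [add_comm ν'])).sim (Sim.of_conj E _)⟩

/-- a product of two conjugates with prescribed Hessenberg form -/
def NS (δ : Fˣ) (ν : F) (x : End F V) (w : List Bool) : Prop :=
  ∃ x', CD δ x x' ∧ Hs (x * x') w ∧ NoEig (x * x') ν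

omit [Fintype F] [FiniteDimensional F V] [FiniteDimensional F W] in
theorem NS.sim {δ : Fˣ} {ν : F} {x : End F V} {y : End F W} {w : List Bool} (h : NS δ ν x w)
    (h' : Sim x y) : NS δ ν y w := by
  obtain ⟨x', h1, h2, h3⟩ := h
  obtain ⟨e, rfl⟩ := h'.exists_conj
  refine ⟨_, h1.conj e, ?_⟩
  rw [← conj_mul]
  exact ⟨h2.sim (Sim.of_conj e _), h3.sim (Sim.of_conj e _)⟩

omit [Fintype F] in
theorem NS.prod {δ ε : Fˣ} {ν : F} {x : End F V} {y : End F W} {w w' : List Bool}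
    (h : NS δ ν x w) (h' : NS ε ν y w') :
    NS (δ * ε) ν (x.prodMap y : End F (V × W)) (w ++ w') :=
  let ⟨_, h1, h2, h3⟩ := h; let ⟨_, h4, h5, h6⟩ := h'
  ⟨_, h1.prod h4, h2.prod h5, h3.prodMap h6⟩

theorem ns_cyc (h4 : 4 ≤ Fintype.card F) {x : End F V} {u : V} (hr : 2 ≤ finrank F V)
    (h1 : Cyc x u) (ux : IsUnit x) {ν : F} (hν : ν ≠ 0) (δ : Fˣ) :
    NS δ ν x (true :: List.replicate (finrank F V - 1) false) := by
  classical
  rcases hr.eq_or_lt with h | h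
  · obtain ⟨x', w, k1, k2, k3, -⟩ := cc_two h4 h.symm h1 ux (mul_div_cancel₀ _ hν) δ
    have := (hs_cyc (x * x').charpoly_monic (by rw [LinearMap.charpoly_natDegree]; omega)).sim
      k2.sim_charpoly
    rw [LinearMap.charpoly_natDegree] at this
    rw [← h] at this ⊢
    exact ⟨x', k1, this, k3⟩
  obtain ⟨r, hr⟩ : ∃ r, finrank F V = r + 3 := ⟨finrank F V - 3, by omega⟩
  obtain ⟨μ, k1, k2, -⟩ := exists_three h4 0 ν ν
  obtain ⟨κ, k3, k4, k5⟩ := exists_three h4 0 ν μ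
  have hd := det_ne_zero ux
  obtain ⟨g, l1, l2, l3, l4⟩ := exists_poly (m := 2) le_rfl
    (LinearMap.det x * LinearMap.det x / (μ * κ ^ r)) {μ, ν}
    (Finset.card_le_two.trans_lt (by omega)) (by simp [k1.symm, hν.symm])
  have hm : ((X - C κ) ^ r * g).Monic := ((monic_X_sub_C κ).pow r).mul l1
  have := fd_adjoinRoot hm.ne_zero
  obtain ⟨x', m1, m2⟩ := cc hr h1 h1 ux (μ := μ) l1 l2 k3 (by simp [l3, hd, k1, k3])
    (by simp [l4 μ (by simp), sub_eq_zero, k5.symm]) (by rw [l3]; field_simp) δ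
  refine ⟨x', m1, ?_, ((noEig_smul_one k2).prodMap ((noEig_cyc_iff hm.ne_zero).2
    (by simp [l4 ν (by simp), sub_eq_zero, k4.symm]))).sim m2⟩
  have m3 := ((hs_cyc_pow_mul l1 κ (hs_cyc l1 (by omega)) r).prod ⟨_, hsE_smul μ⟩).sim
    ((sim_swap _ _).trans m2)
  rw [l2] at m3
  convert m3 using 1
  rw [hr, List.append_assoc, ← List.replicate_succ']
  rfl

theorem ns_blk {F : Type u} [Field F] [Fintype F] (h4 : 4 ≤ Fintype.card F) {ν : F} (hν : ν ≠ 0)
    (s : Multiset F[X]) (hs : ∀ f ∈ s, f.Monic ∧ 2 ≤ f.natDegree ∧ f.coeff 0 ≠ 0) :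
    ∀ (V : Type u) [AddCommGroup V] [Module F V] [FiniteDimensional F V] (x : End F V),
      HasED x s → ∃ w w', Hs x w ∧ w' ++ [true] = true :: w.map not ∧
        ∀ δ, s ≠ 0 ∨ δ = 1 → NS δ ν x w' := by
  induction s using Multiset.induction with
  | empty =>
    intro V _ _ _ x h
    have h1 : finrank F V = 0 := by simpa using h.finrank_eq
    have := finrank_zero_iff.1 h1
    have h2 : ∀ y : End F V, Hs y [] := fun y =>
      ⟨0, h1, Subsingleton.elim _ _, fun _ _ _ => Subsingleton.elim 0 (y _) ▸ zero_mem _, by simp⟩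
    refine ⟨[], [], h2 x, rfl, fun δ hδ => ⟨x, ⟨.refl F V, ?_, fun _ => rfl⟩, h2 _,
      fun _ _ => Subsingleton.elim _ _⟩⟩
    simpa using (hδ.resolve_left (by simp)).symm
  | cons f s ih =>
    intro V _ _ _ x h
    obtain ⟨n, b, rfl, h0⟩ := h.exists_prod
    obtain ⟨k1, k2, k3⟩ := hs f (Multiset.mem_cons_self _ _)
    have hs' := fun g hg => hs g (Multiset.mem_cons_of_mem hg)
    have := fd_blk fun g hg => (hs' g hg).1.ne_zero
    have := fd_adjoinRoot k1.ne_zero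
    obtain ⟨w, w', l1, l2, l3⟩ := ih hs' _ _ (hasED_blk b)
    refine ⟨_, _, ((hs_cyc k1 (by omega)).prod l1).sim h0.symm, ?_, fun δ _ => ((mul_one δ ▸
      (ns_cyc h4 (by rwa [finrank_adjoinRoot]) (cyc_one f) (isUnit_cyc k1 k3) hν δ).prod
      (l3 1 (Or.inr rfl)) : NS δ ν _ _)).sim h0.symm⟩
    rw [List.append_assoc, l2, finrank_adjoinRoot]
    simp [wC]

omit [Fintype F] in
theorem exists_two_TT {x Z : End F V} {u : V} (h : Cyc x u) (hx : IsUnit x)
    (hn : 2 ≤ finrank F V) (hZ : TT Z) (hd : LinearMap.det Z = LinearMap.det x ^ 2) :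
    ∃ x', Sim x x' ∧ Sim Z (x * x') := by
  obtain ⟨y, h1, h2⟩ := exists_inv hx
  obtain ⟨Z', k1, k2⟩ := lev_TT (IsUnit.of_mul_eq_one _ h1) (nonscalar_inv (h.nonscalar hn) h2) hZ
    (isUnit_of_det (by simp [hd, det_ne_zero hx])) h
    (by rw [hd, sq, ← mul_assoc, ← map_mul, h1, map_one, one_mul])
  exact ⟨_, k2, by rwa [← mul_assoc, h2, one_mul]⟩

theorem exists_nu (h4 : 4 ≤ Fintype.card F) (D : F) (m : ℕ) :
    ∃ ν κ : F, ν ≠ 0 ∧ κ ≠ 0 ∧ ν ≠ κ ∧ ν ^ 2 * κ ^ m ≠ D := by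
  obtain ⟨a, h1, -, -⟩ := exists_three h4 0 0 0
  obtain ⟨b, h2, h3, -⟩ := exists_three h4 0 a a
  obtain ⟨c, h5, h6, h7⟩ := exists_three h4 0 a b
  by_contra h
  push Not at h
  have k1 := mul_right_cancel₀ (pow_ne_zero m h5)
    ((h a c h1 h5 h6.symm).trans (h b c h2 h5 h7.symm).symm)
  have k2 := mul_right_cancel₀ (pow_ne_zero m h2)
    ((h a b h1 h2 h3.symm).trans (h c b h5 h2 h7).symm)
  rw [sq_eq_sq_iff_eq_or_eq_neg, or_iff_right h3.symm] at k1
  rw [sq_eq_sq_iff_eq_or_eq_neg, or_iff_right h6.symm] at k2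
  exact h7 (neg_injective (k2.symm.trans k1))

theorem words_ne {w w' : List Bool} (h : w.map not = w' ++ [true]) (i : ℕ) (hi : i + 1 < w.length) :
    w.getD i false ≠ w'.getD i false := by
  have q1 := congrArg List.length h
  have q2 := congrArg (·.getD i true) h
  rw [List.length_map, List.length_append, List.length_singleton] at q1
  rw [List.getD_append _ _ _ _ (by omega), List.getD_eq_getElem _ _ (by
    rw [List.length_map]; omega), List.getD_eq_getElem _ _ (by omega), List.getElem_map] at q2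
  rw [List.getD_eq_getElem _ _ (by omega), List.getD_eq_getElem _ _ (by omega), ← q2]
  exact (Bool.not_ne_self _).symm

omit [Fintype F] in
theorem three_core {A U : Type*} [AddCommGroup A] [Module F A] [FiniteDimensional F A]
    [AddCommGroup U] [Module F U] [FiniteDimensional F U] {x : End F U}
    {x₁ x₁' : End F V} {x₂ : End F W} {T : End F A} {ν : F} {w₁ w₂ w t : List Bool}
    (h0 : Sim x (x₁.prodMap x₂ : End F (V × W))) (h1 : Hs x₁ w₁) (h2 : Hs x₂ w₂)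
    (h3 : Sim x₁ x₁') (h4 : Sim ((ν • (1 : End F F)).prodMap T : End F (F × A)) (x₁ * x₁'))
    (h5 : Hs T t) (h6 : NoEig T ν) (h7 : ∀ δ, NS δ ν x₂ w)
    (h8 : (w₁ ++ w₂).map not = t ++ w ++ [true]) (ux : IsUnit x) {a : F[X]} (ha : a.Monic)
    (hd : a.natDegree = finrank F U)
    (hdet : LinearMap.det x ^ 3 = (-1) ^ a.natDegree * a.coeff 0) :
    ∃ Y, PW ⊥ x 3 Y ∧ Sim (cyc a) Y := by
  obtain ⟨δ, m6⟩ := exists_CD h3
  obtain ⟨x₂', n4, n5, n6⟩ := h7 δ⁻¹
  obtain ⟨e, he⟩ := h0.symm.exists_conj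
  have n7 := (m6.prod n4).conj e
  have n10 : Sim ((x₁ * x₁').prodMap (x₂ * x₂') : End F (V × W))
      (x * e.conj (x₁'.prodMap x₂')) := ⟨e, fun v => by simp [← he, LinearEquiv.conj_apply]⟩
  have n11 := (sim_swap (T.prodMap (x₂ * x₂') : End F (A × W)) (ν • (1 : End F F))).trans
    (sim_assoc _ _ _).symm
  have n9 := (n11.trans (h4.prodMap (Sim.refl (x₂ * x₂')))).trans n10
  clear n10
  rw [mul_inv_cancel, he] at n7
  generalize e.conj (x₁'.prodMap x₂') = x' at n7 n9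
  have n8 : PW ⊥ x 2 (x * x') := ((PW.one _).left n7.cj.symm).succ (CJ.refl _)
  obtain ⟨y, p1, p2⟩ := control ((h1.prod h2).sim h0.symm) (h5.prod n5) (h6.prodMap n6) n9 ux
    (n8.isUnit ux) (words_ne h8) ha hd (by rw [n8.det, ← hdet]; ring)
  exact ⟨_, (n8.right p1).succ (CJ.refl _), p2⟩

theorem exists_special (h4 : 4 ≤ Fintype.card F) {x : End F V} {u : V} {m : ℕ}
    (hr : finrank F V = m + 2) (h1 : Cyc x u) (ux : IsUnit x) :
    ∃ (ν : F) (b : F[X]) (x' : End F V), ν ≠ 0 ∧ b ≠ 0 ∧ Sim x x' ∧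
      Sim ((ν • (1 : End F F)).prodMap (cyc b) : End F (F × _)) (x * x') ∧
      Hs (cyc b) (List.replicate (m + 1) false) ∧ NoEig (cyc b) ν := by
  obtain ⟨ν, κ, l1, l2, l3, l4⟩ := exists_nu h4 (LinearMap.det x ^ 2) m
  obtain ⟨κ', hκ⟩ : ∃ κ', ν * κ ^ m * κ' = LinearMap.det x ^ 2 :=
    ⟨_, mul_div_cancel₀ _ (by simp [l1, l2])⟩
  have l5 : ((X - C κ) ^ m * (X - C κ')).Monic := ((monic_X_sub_C κ).pow m).mul (monic_X_sub_C κ')
  have l6 : ((X - C κ) ^ m * (X - C κ')).natDegree = m + 1 := by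
    rw [((monic_X_sub_C κ).pow m).natDegree_mul (monic_X_sub_C κ'), (monic_X_sub_C κ).natDegree_pow]
    simp
  have l7 : ((X - C κ) ^ m * (X - C κ')).eval ν ≠ 0 := by
    simp only [eval_mul, eval_pow, eval_sub, eval_X, eval_C]
    refine mul_ne_zero (pow_ne_zero _ (sub_ne_zero.2 l3)) (sub_ne_zero.2 fun h => l4 ?_)
    rw [← hκ, ← h]; ring
  obtain ⟨Z, m1, m2, m3⟩ := exists_TT (V := V) l5 (by rw [l6, hr]) l7
  obtain ⟨x₁, m4, m5⟩ := exists_two_TT h1 ux (by omega) m1 (by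
    rw [m3, l6, coeff_zero_eq_eval_zero, ← hκ]
    simp only [eval_mul, eval_pow, eval_sub, eval_X, eval_C, zero_sub, pow_succ, neg_pow κ]
    have : ((-1 : F) ^ m) * (-1) ^ m = 1 := by simp [← mul_pow]
    linear_combination (ν * κ ^ m * κ') * this)
  refine ⟨ν, _, x₁, l1, l5.ne_zero, m4, m2.trans m5, ?_, (noEig_cyc_iff l5.ne_zero).2 l7⟩
  simpa [wC, List.replicate_succ] using
    hs_cyc_pow_mul (monic_X_sub_C κ') κ (hs_cyc (monic_X_sub_C κ') (by simp)) m

theorem three {F : Type u} [Field F] [Fintype F] (h4 : 4 ≤ Fintype.card F) {s : Multiset F[X]}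
    (hs : ∀ f ∈ s, f.Monic ∧ 2 ≤ f.natDegree ∧ f.coeff 0 ≠ 0) (h2 : 2 ≤ s.card)
    {V : Type*} [AddCommGroup V] [Module F V] [FiniteDimensional F V] {x : End F V}
    (h : HasED x s) {a : F[X]} (ha : a.Monic) (hd : a.natDegree = finrank F V)
    (hdet : LinearMap.det x ^ 3 = (-1) ^ a.natDegree * a.coeff 0) :
    ∃ Y, PW ⊥ x 3 Y ∧ Sim (cyc a) Y := by
  obtain ⟨f, hf⟩ := Multiset.card_pos_iff_exists_mem.1 (show 0 < s.card by omega)
  obtain ⟨s, rfl⟩ := Multiset.exists_cons_of_mem hf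
  obtain ⟨n, b, rfl, h0⟩ := h.exists_prod
  obtain ⟨k1, k2, k3⟩ := hs f hf
  have hs' := fun g hg => hs g (Multiset.mem_cons_of_mem hg)
  have := fd_blk fun g hg => (hs' g hg).1.ne_zero
  have := fd_adjoinRoot k1.ne_zero
  obtain ⟨m, hm⟩ := Nat.exists_eq_add_of_le' k2
  obtain ⟨ν, c, x₁, l1, l2, l3, l4, l5, l6⟩ := exists_special h4 ((finrank_adjoinRoot f).trans hm)
    (cyc_one f) (isUnit_cyc k1 k3)
  have := fd_adjoinRoot l2
  obtain ⟨w, w', n1, n2, n3⟩ := ns_blk h4 l1 _ hs' _ _ (hasED_blk b)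
  refine three_core h0 (hs_cyc k1 (by omega)) n1 l3 l4 l5 l6
    (fun δ => n3 δ (Or.inl fun h => by simp [h] at h2)) ?_
    ((h.isUnit_iff fun g hg => (hs g hg).1).2 fun g hg => mt X_dvd_iff.1 (hs g hg).2.2) ha hd hdet
  rw [List.append_assoc _ w', n2, hm]
  simp [wC]

theorem nice_three {F : Type u} [Field F] [Fintype F] (h4 : 4 ≤ Fintype.card F)
    {s : Multiset F[X]} (hs : ∀ f ∈ s, Bk f) (h2 : 2 ≤ s.card) :
    Nice (s.bind edc) 3 (s.map natDegree).sum := by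
  obtain ⟨n, b, rfl⟩ := exists_fin_map_eq s
  have h0 := fun g hg => (hs g hg).1.ne_zero
  have := fd_blk h0
  have h := hasED_blk b
  have h1 := h.finrank_eq h0
  obtain ⟨a, k1, k2, k3, k4⟩ := exists_poly (m := finrank F (∀ i, AdjoinRoot (b i))) (by
    have := Multiset.card_nsmul_le_sum (s := (Finset.univ.val.map b).map natDegree) (a := 1)
      fun d hd => by
        obtain ⟨g, hg, rfl⟩ := Multiset.mem_map.1 hd
        have := (hs g hg).2.1
        omega
    rw [Multiset.card_map, smul_eq_mul] at this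
    omega) ((-1) ^ finrank F (∀ i, AdjoinRoot (b i)) * LinearMap.det (blk b) ^ 3) {1}
    (by simp; omega) (by simp)
  obtain ⟨Y, l1, l2⟩ := three h4 (fun g hg => ⟨(hs g hg).1, (hs g hg).2.1, (hs g hg).2.2.2⟩) h2 h
    k1 k2 (by rw [k2, k3, ← mul_assoc, ← mul_pow]; simp)
  obtain ⟨w, hw⟩ := exists_cyc_of_sim l2
  exact ⟨_, inferInstance, inferInstance, this, blk b, Y, w, h1, ed_eq_bind h h0 ▸ LK.refl _,
    (h.isUnit_iff fun g hg => (hs g hg).1).2 fun g hg => mt X_dvd_iff.1 (hs g hg).2.2.2,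
    l1.mono le_top, hw, ((noEig_cyc_iff k1.ne_zero).2 (k4 1 (by simp))).sim l2⟩

end CF.LevC
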