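/-
Covering number of `PSL(n,q)`: elements with a linear invariant factor.
-/
import Cfsg.Agent.LevC.J

set_option autoImplicit false

namespace CF.LevC

open Module CF.Cls CF.Classical Polynomial AdjoinRoot

universe u

variable {F : Type u} {V W : Type*} [Field F] [AddCommGroup V] [Module F V] [AddCommGroup W]
  [Module F W] {x : End F V} {y : End F W}

theorem sim_smul (h : Sim x y) (c : F) : Sim (c • x) (c • y) :=
  let ⟨e, h⟩ := h; ⟨e, fun v => by simp [h]⟩

theorem TT.smul (h : TT x) {c : F} (hc : c ≠ 0) : TT (c • x) := by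
  obtain ⟨μ, b, h1, -, h3, h⟩ := h
  have := fd_adjoinRoot h1.ne_zero
  refine TT.of (μ := c * μ) ((cyc_one b).smul hc) (fun v hv => (noEig_cyc_iff h1.ne_zero).2 h3 v
    (smul_right_injective _ hc (by simpa [mul_smul] using hv))) (Sim.trans ?_ (sim_smul h c))
  exact ⟨.refl _ _, fun v => by simp [mul_smul]⟩

theorem sim_cyc_scale {a : F[X]} (ha : a.Monic) {c : F} (hc : c ≠ 0) :
    Sim (cyc (a.scaleRoots c)) (c • cyc a) := by
  have := fd_adjoinRoot ha.ne_zero
  refine ((cyc_one a).smul hc).sim_cyc ((monic_scaleRoots_iff c).2 ha)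
    (by rw [natDegree_scaleRoots, finrank_adjoinRoot]) ?_
  rw [Algebra.smul_def, scaleRoots_aeval_eq_zero ((aeval_cyc_eq_zero_iff a a).2 dvd_rfl)]
  rfl

theorem hasED_smul {s : Multiset F[X]} (h : HasED x s) (hs : ∀ a ∈ s, a.Monic) {c : F}
    (hc : c ≠ 0) : HasED (c • x) (s.map (scaleRoots · c)) := by
  obtain ⟨n, a, rfl, h⟩ := h
  refine ⟨n, fun i => (a i).scaleRoots c, by rw [Multiset.map_map]; rfl, (sim_smul h c).trans ?_⟩
  exact Sim.piMap (f := fun i => c • cyc (a i)) (Equiv.refl _) fun i =>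
    (sim_cyc_scale (hs _ (by simp)) hc).symm

theorem sim_cyc_mul {a b : F[X]} (h : IsCoprime a b) :
    Sim (cyc (a * b)) ((cyc a).prodMap (cyc b) : End F (_ × _)) := by
  have k : ∀ p, aeval ((cyc a).prodMap (cyc b) : End F (_ × _)) p (1, 1) = (mk a p, mk b p) :=
    fun p => Prod.ext
      (by simpa [aeval_cyc] using (aeval_intertwine (f := (cyc a).prodMap (cyc b)) (g := cyc a)
        (LinearMap.fst F _ _) (fun _ => rfl) p (1, 1)))
      (by simpa [aeval_cyc] using (aeval_intertwine (f := (cyc a).prodMap (cyc b)) (g := cyc b)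
        (LinearMap.snd F _ _) (fun _ => rfl) p (1, 1)))
  refine sim_cyc_of_cyclic _ (1, 1) _ (fun p => ?_) fun ⟨v, w⟩ => ?_
  · rw [k, Prod.mk_eq_zero, mk_eq_zero, mk_eq_zero]
    exact ⟨fun ⟨h1, h2⟩ => h.mul_dvd h1 h2, fun h1 =>
      ⟨(dvd_mul_right a b).trans h1, (dvd_mul_left b a).trans h1⟩⟩
  · obtain ⟨p, rfl⟩ := mk_surjective v
    obtain ⟨q, rfl⟩ := mk_surjective w
    obtain ⟨r, s, h⟩ := h
    refine ⟨p * (s * b) + q * (r * a), (k _).trans (Prod.ext (mk_eq_mk.2 ⟨r * (q - p), ?_⟩)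
      (mk_eq_mk.2 ⟨s * (p - q), ?_⟩))⟩
    · linear_combination p * h
    · linear_combination q * h

theorem hasED_merge {a b : F[X]} {s : Multiset F[X]} (h : IsCoprime a b) :
    HasED x (a ::ₘ b ::ₘ s) ↔ HasED x ((a * b) ::ₘ s) := by
  obtain ⟨n, c, rfl⟩ := exists_fin_map_eq s
  have h1 := ((hasED_cyc a).prodMap (hasED_cyc b)).prodMap (hasED_blk c)
  have h2 := (hasED_cyc (a * b)).prodMap (hasED_blk c)
  have h3 := (sim_cyc_mul h).prodMap (Sim.refl (blk c))
  exact ⟨fun k => h2.of_sim ((k.sim h1).trans h3.symm), fun k => h1.of_sim ((k.sim h2).trans h3)⟩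

variable [FiniteDimensional F V]

theorem exists_dec (x : End F V) : ∃ s, HasED x s ∧ (∀ a ∈ s, a.Monic ∧ 0 < a.natDegree) ∧
    ∀ a b t, s = a ::ₘ b ::ₘ t → ¬ IsCoprime a b := by
  classical
  have h : ∃ k, ∃ s, HasED x s ∧ (∀ a ∈ s, a.Monic ∧ 0 < a.natDegree) ∧ s.card = k :=
    ⟨_, _, hasED_ed x, fun a ha => ⟨(ed_isPP x a ha).monic, (ed_isPP x a ha).natDegree_pos⟩, rfl⟩
  obtain ⟨s, h1, h2, h3⟩ := Nat.find_spec h
  refine ⟨s, h1, h2, ?_⟩
  rintro a b t rfl hc
  refine Nat.find_min h (m := t.card + 1) (by simp [← h3]) ⟨_, (hasED_merge hc).1 h1, ?_, by simp⟩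
  have k1 := h2 a (by simp)
  have k2 := h2 b (by simp)
  simp only [Multiset.mem_cons]
  rintro c (rfl | hc)
  · exact ⟨k1.1.mul k2.1, by rw [k1.1.natDegree_mul k2.1]; omega⟩
  · exact h2 c (by simp [hc])

theorem lk_rank_one (h : finrank F (LinearMap.range (x - 1)) = 1) (hx : IsUnit x) :
    LK x (rowM (LinearMap.det x)) := by
  have h1 := rp_of_sub (det_ne_zero hx) 0 _ x h (fun v => ⟨v, rfl⟩) (by simp) (Or.inl rfl)
  generalize LinearMap.det x = δ at h1
  cases h1 with
  | succ h2 h3 h4 =>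
    cases h4
    rw [one_mul] at h ⊢
    refine h3 ▸ lk_transvection h2 ?_
    rintro rfl
    rw [LinearMap.transvection.of_left_eq_zero, ← End.one_eq_id, sub_self,
      LinearMap.range_zero, finrank_bot] at h
    exact zero_ne_one h

theorem sum_deg {s : Multiset F[X]} (hs : ∀ f ∈ s, 0 < f.natDegree) :
    (s.map natDegree).sum = s.card + rk s := by
  induction s using Multiset.induction with
  | empty => simp [rk]
  | cons f s ih =>
    have := ih fun g hg => hs g (Multiset.mem_cons_of_mem hg)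
    have h := hs f (Multiset.mem_cons_self f s)
    simp only [rk, Multiset.card_cons, Multiset.map_cons, Multiset.sum_cons] at *
    omega

variable [Fintype F]

theorem caseA_one (h4 : 4 ≤ Fintype.card F) {s : Multiset F[X]} {r : ℕ} (hs : ∀ f ∈ s, Bk f)
    (h : HasED x (s + Multiset.replicate (r + 1) (X - 1))) (hx : x ≠ 1) :
    LK x (rowM (LinearMap.det x)) ∨ ∃ j, 2 * j ≤ finrank F V ∧ Good ⊤ x j := by
  have h0 : ∀ f ∈ s + Multiset.replicate (r + 1) (X - 1), f.Monic ∧ f.eval 1 = 0 ∧ f.coeff 0 ≠ 0 := by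
    intro f hf
    rcases Multiset.mem_add.1 hf with hf | hf
    · exact ⟨(hs f hf).1, (hs f hf).2.2⟩
    · rw [Multiset.eq_of_mem_replicate hf]; exact ⟨monic_X_sub_one, by simp, by simp⟩
  have h1 := h.finrank_eq fun f hf => (h0 f hf).1.ne_zero
  have h2 := sum_deg (s := s) fun f hf => by have := (hs f hf).2.1; omega
  simp only [Multiset.map_add, Multiset.sum_add, Multiset.map_replicate, natDegree_X_sub_one,
    Multiset.sum_replicate, smul_eq_mul, mul_one, h2] at h1
  have h3 : LK x (s.bind edc) := ⟨0, r + 1, by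
    have := fd_adjoinRoot (monic_X_sub_one (F := F)).ne_zero
    have k : edc (X - 1 : F[X]) = {X - 1} := by
      rw [edc_eq monic_X_sub_one.ne_zero]
      exact (hasED_cyc _).ed_eq (by
        simpa using isPP_of_irreducible monic_X_sub_one (irreducible_X_sub_C (1 : F)))
    rw [ed_eq_bind h fun f hf => (h0 f hf).1.ne_zero, Multiset.add_bind, Multiset.replicate_zero,
      add_zero, Multiset.bind_congr (g := fun f => {f}) (m := Multiset.replicate _ _)
        fun f hf => by rw [Multiset.eq_of_mem_replicate hf, k], Multiset.bind_singleton]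
    simp⟩
  have h5 := card_le_rk hs
  have h6 : s.card ≠ 0 := fun h6 => hx (by
    rw [Multiset.card_eq_zero.1 h6, zero_add] at h
    have := (h.aeval_eq_zero_iff (X - 1)).2 fun f hf => by rw [Multiset.eq_of_mem_replicate hf]
    rwa [map_sub, aeval_X, map_one, sub_eq_zero] at this)
  rcases eq_or_ne (rk s) 1 with h7 | h7
  · refine Or.inl (lk_rank_one ?_ ((h.isUnit_iff fun g hg => (h0 g hg).1).2 fun g hg =>
      mt X_dvd_iff.1 (h0 g hg).2.2))
    have k1 := h.kd_eq (fun f hf => (h0 f hf).1.ne_zero) (X - 1)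
    rw [Multiset.map_congr rfl (g := fun _ => 1) fun f hf => (kd_cyc (h0 f hf).1.ne_zero
      (dvd_iff_isRoot.2 (h0 f hf).2.1) (by simp) ⟨1, 0, by simp⟩).trans (natDegree_X_sub_C _)] at k1
    have k2 := (x - 1).finrank_range_add_finrank_ker
    rw [kd, map_sub, aeval_X, map_one] at k1
    simp at k1
    omega
  refine Or.inr ?_
  rcases le_or_gt (finrank F V) (2 * rk s) with h8 | h8
  · rcases eq_or_ne s.card 1 with h9 | h9
    · obtain ⟨f, rfl⟩ := Multiset.card_eq_one.1 h9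
      simp only [Multiset.map_singleton, Multiset.sum_singleton, h9] at h2
      rw [Multiset.singleton_bind] at h3
      exact ⟨2 + r, by omega, ((nice_single h4 (hs f (by simp)) (by omega)).grow' (by omega) r).good
        h3 (by omega)⟩
    · exact ⟨3 + r, by omega, ((nice_three h4 hs (by omega)).grow' (by omega) r).good h3 (by omega)⟩
  · obtain ⟨j, k1, k2⟩ := nice_large h4 hs (by omega) (finrank F V - 1) (by omega)
    exact ⟨j, by omega, k2.good h3 (by omega)⟩

/-- the covering property modulo scalars -/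
def Cov (x : End F V) : Prop :=
  (∀ g : End F V, (∀ c : F, g ≠ c • 1) → LinearMap.det g = 1 → PW ⊥ x (finrank F V) g) ∧
    ∃ c : F, PW ⊥ x (finrank F V) (c • 1)

theorem caseA (h4 : 4 ≤ Fintype.card F) {s : Multiset F[X]} {μ : F} (h : HasED x ((X - C μ) ::ₘ s))
    (hs : ∀ f ∈ s, f.Monic ∧ f.eval μ = 0) (hx : ∀ c : F, x ≠ c • 1) (hd : LinearMap.det x = 1) :
    Cov x := by
  classical
  have h0 : ∀ f ∈ (X - C μ) ::ₘ s, f.Monic ∧ f.eval μ = 0 := by
    simpa [monic_X_sub_C] using hs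
  have h1 := (h.isUnit_iff fun f hf => (h0 f hf).1).1 (isUnit_of_det (by simp [hd]))
  have hμ : μ ≠ 0 := by rintro rfl; exact h1 (X - C 0) (by simp) (by simp)
  have hD : detC x = ⊤ := by
    obtain ⟨n, b, rfl, h2⟩ := h.exists_prod
    have := fd_blk (a := b) fun g hg => (hs g hg).1.ne_zero
    have := fd_adjoinRoot (monic_X_sub_C μ).ne_zero
    rw [h2.detC_eq]
    exact eq_top_iff.2 ((detC_cyc_irreducible (irreducible_X_sub_C μ)).ge.trans
      (detC_prodMap_left _ _))
  refine ⟨fun g g1 g2 => PW.of_top hD ?_, 1, by simpa using pw_one hx hd (Or.inr hD)⟩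
  have h2 := hasED_smul h (fun f hf => (h0 f hf).1) (inv_ne_zero hμ)
  set t := ((X - C μ) ::ₘ s).map (scaleRoots · μ⁻¹) with ht
  have h3 : ∀ f ∈ t, f.Monic ∧ f.eval 1 = 0 ∧ f.coeff 0 ≠ 0 := fun f hf => by
    obtain ⟨f, k, rfl⟩ := Multiset.mem_map.1 hf
    refine ⟨(monic_scaleRoots_iff _).2 (h0 f k).1, ?_, by simpa [hμ, X_dvd_iff] using h1 f k⟩
    rw [← inv_mul_cancel₀ hμ, scaleRoots_eval_mul, (h0 f k).2, mul_zero]
  obtain ⟨r, hr⟩ : ∃ r, t.filter (fun f => ¬ 2 ≤ f.natDegree) =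
      Multiset.replicate (r + 1) (X - 1) := by
    refine ⟨(t.filter (fun f => ¬ 2 ≤ f.natDegree)).card - 1, Multiset.eq_replicate.2
      ⟨(Nat.sub_add_cancel (Multiset.card_pos_iff_exists_mem.2 ⟨X - 1, ?_⟩)).symm, fun f hf => ?_⟩⟩
    · simp [ht, hμ, natDegree_X_sub_one]
    · obtain ⟨k1, k2⟩ := Multiset.mem_filter.1 hf
      exact eq_of_monic_of_dvd_of_natDegree_le monic_X_sub_one (h3 f k1).1
        (dvd_iff_isRoot.2 (h3 f k1).2.1) (by rw [natDegree_X_sub_one]; omega)
  rw [← Multiset.filter_add_not (fun f => 2 ≤ f.natDegree) t, hr] at h2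
  have h5 : μ • μ⁻¹ • x = x := smul_inv_smul₀ hμ x
  rcases caseA_one h4 (fun f hf => by
      obtain ⟨k1, k2⟩ := Multiset.mem_filter.1 hf
      exact ⟨(h3 f k1).1, k2, (h3 f k1).2⟩) h2 (fun h => hx μ (by rw [← h, h5])) with k | ⟨j, k1, Z, k2, k3⟩
  · have := (pw_row (g := μ⁻¹ ^ finrank F V • g) (exists_ne01 h4) (by simp [hd, hμ]) k
      (fun c hc => g1 (μ ^ finrank F V * c) (by rw [mul_smul, ← hc, smul_smul]; simp [hμ]))
      (by simp [hd, g2])).smul μ
    rwa [h5, smul_smul, ← mul_pow, mul_inv_cancel₀ hμ, one_pow, one_smul] at this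
  · exact Good.cover hx hd ⟨_, k2.smul (pow_ne_zero j hμ), h5 ▸ k3.smul μ⟩ k1 g1 g2

end CF.LevC
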