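/-
Covering number of `PSL(n,q)`: the case analysis.
-/
import Cfsg.Agent.LevC.K

set_option autoImplicit false

namespace CF.LevC

open Module CF.Cls CF.Classical Polynomial AdjoinRoot

universe u

variable {F : Type u} {V W : Type*} [Field F] [AddCommGroup V] [Module F V] [AddCommGroup W]
  [Module F W] [FiniteDimensional F V] [FiniteDimensional F W] {x : End F V}

theorem cyc_of_single {f : F[X]} (h : HasED x {f}) : ∃ u, Cyc x u :=
  exists_cyc_of_sim ((hasED_cyc f).sim h)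

theorem tt_two {Y : End F W} {u : W} {ν ν' : F} (h : ν ≠ ν') (h1 : Cyc Y u) (h2 : NoEig Y ν)
    (h3 : NoEig Y ν')
    (h4 : Sim ((ν • (1 : End F F)).prodMap (cyc (X - C ν')) : End F (F × _)) x) :
    TT (x.prodMap Y : End F (V × W)) := by
  have k1 : Sim (cyc (X - C ν')) (ν' • (1 : End F F)) :=
    Cyc.sim_cyc (u := 1) (fun M h _ => eq_top_iff.2 fun v _ => by simpa using M.smul_mem v h)
      (monic_X_sub_C ν') (by simp) (by simp [Algebra.algebraMap_eq_smul_one])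
  obtain ⟨w, hw⟩ := (TT.of h1 h3 (Sim.refl _)).cyc
  exact TT.of hw ((noEig_smul_one h.symm).prodMap h2)
    ((sim_assoc _ _ _).symm.trans ((((Sim.refl _).prodMap k1.symm).trans h4).prodMap (Sim.refl Y)))

variable [Fintype F]

theorem exists_diag (h4 : 4 ≤ Fintype.card F) {u : V} (hr : finrank F V = 2) (h1 : Cyc x u)
    (ux : IsUnit x) : ∃ (ν ν' : F) (x' : End F V), ν ≠ ν' ∧ ν * ν' = LinearMap.det x ^ 2 ∧
      Sim x x' ∧ Sim ((ν • (1 : End F F)).prodMap (cyc (X - C ν')) : End F (F × _)) (x * x') := by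
  obtain ⟨ν, k1, k2⟩ := exists_quad h4 0 0 (-LinearMap.det x ^ 2)
  obtain ⟨ν', hν⟩ : ∃ ν', ν * ν' = LinearMap.det x ^ 2 := ⟨_, mul_div_cancel₀ _ k1⟩
  have k3 : ν ≠ ν' := by rintro rfl; exact k2 (by linear_combination hν)
  obtain ⟨Z, m1, m2, m3⟩ := exists_TT (V := V) (μ := ν) (monic_X_sub_C ν') (by simp [hr])
    (by simpa [sub_eq_zero] using k3)
  obtain ⟨x₁, m4, m5⟩ := exists_two_TT h1 ux hr.ge m1 (by simpa [hν] using m3)
  exact ⟨ν, ν', x₁, k3, hν, m4, m2.trans m5⟩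

theorem cc_pair (h4 : 4 ≤ Fintype.card F) (hr : 3 ≤ finrank F V) : ∃ Z : End F V, TT Z ∧
    ∀ (x y : End F V) (u v : V), Cyc x u → Cyc y v → LinearMap.det x = 1 → LinearMap.det y = 1 →
      ∃ x', CJ ⊥ x x' ∧ Sim Z (y * x') := by
  obtain ⟨r, hr⟩ := Nat.exists_eq_add_of_le' hr
  obtain ⟨κ, h0, h1⟩ := exists_ne01 h4
  obtain ⟨g, l1, l2, l3, l4⟩ := exists_poly (m := 2) le_rfl (κ ^ r)⁻¹ {1} (by simp; omega) (by simp)
  have hm : ((X - C κ) ^ r * g).Monic := ((monic_X_sub_C κ).pow r).mul l1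
  have he : ((X - C κ) ^ r * g).eval 1 ≠ 0 := by simp [l4 1 (by simp), sub_eq_zero, h1.symm]
  obtain ⟨Z, k1, k2, -⟩ := exists_TT (V := V) hm (by
    rw [((monic_X_sub_C κ).pow r).natDegree_mul l1, l2, (monic_X_sub_C κ).natDegree_pow, hr]
    simp) he
  refine ⟨Z, k1, fun x y u v hx hy dx dy => ?_⟩
  obtain ⟨x', m1, m2⟩ := cc hr hx hy (isUnit_of_det (by simp [dy])) l1 l2 h0 (by simp [l3, h0]) he
    (by simp [l3, h0, dx, dy]) 1
  exact ⟨x', m1.cj, k2.symm.trans m2⟩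

theorem caseB (h4 : 4 ≤ Fintype.card F) (hr : 3 ≤ finrank F V) {u : V} (h : Cyc x u)
    (hd : LinearMap.det x = 1) : Cov x := by
  have hs := h.nonscalar (by omega)
  have ux : IsUnit x := isUnit_of_det (by simp [hd])
  obtain ⟨Z, k1, k2⟩ := cc_pair h4 hr
  obtain ⟨x', k3, k4⟩ := k2 x x u u h h hd hd
  have k5 : PW ⊥ x 2 Z := PW.simT (((PW.one _).left k3.symm).succ (CJ.refl _)) (k1.sim k4).detC
    k4.symm
  obtain ⟨y, l1, l2⟩ := exists_inv ux
  have dy : LinearMap.det y = 1 := by simpa [hd] using congrArg LinearMap.det l1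
  have k6 : ∀ g v, Cyc g v → LinearMap.det g = 1 → PW ⊥ x 3 g := fun g v g1 g2 => by
    obtain ⟨_, ⟨e, m1, m2⟩, m3⟩ := k2 y g u v (h.inv l1) g1 dy g2
    have := (k5.simT k1.detC m3).mul ((PW.one _).left (CJ.of_conj e m1 x).symm)
    rwa [← conj_eq e m2, mul_assoc, ← conj_mul, l1, conj_one', mul_one] at this
  rcases hr.eq_or_lt with h3 | h3
  · refine ⟨fun g g1 g2 => ?_, 1, by simpa using pw_one hs hd (Or.inl (h3 ▸ by decide))⟩
    rw [← h3]
    by_cases hg : ∃ a ∈ ed g, a.natDegree = 1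
    · obtain ⟨a, m1, m2⟩ := hg
      have m3 := detC_eq_top_of_irreducible m1 (irreducible_of_degree_eq_one
        ((degree_eq_iff_natDegree_eq_of_pos one_pos).2 m2))
      obtain ⟨Z₀, n1, n2⟩ := exists_inv (k5.isUnit ux)
      obtain ⟨Z', n3, e, n4⟩ := lev_TT (isUnit_of_det (by simp [g2])) g1 (k1.inv n1)
        (IsUnit.of_mul_eq_one _ n1) h
        (by simpa [g2, hd, k5.det] using congrArg LinearMap.det n1)
      obtain ⟨Z'', n5, n6⟩ := exists_inv (n3.isUnit_iff.1 (IsUnit.of_mul_eq_one _ n1))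
      obtain ⟨t, n7, n8⟩ : (LinearEquiv.det e)⁻¹ ∈ detC g := m3 ▸ trivial
      have := (k5.simT k1.detC ((sim_inv n3 n2 n5).trans (Sim.of_conj t _))).succ
        (x' := t.conj (g * Z')) ⟨e.trans t, by
          rw [LinearEquiv.det_trans]; exact mul_eq_one_iff_eq_inv.2 n8, fun v => by
          rw [LinearEquiv.trans_apply, n4, conj_app]; rfl⟩
      rwa [← conj_mul, mul_assoc, n6, mul_one, conj_eq t n7] at this
    · have m1 := finrank_eq_ed g
      have m2 := Multiset.card_nsmul_le_sum (s := (ed g).map natDegree) (a := 2) fun d hd => by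
        obtain ⟨a, ha, rfl⟩ := Multiset.mem_map.1 hd
        have := (ed_isPP g a ha).natDegree_pos
        have : a.natDegree ≠ 1 := fun h => hg ⟨a, ha, h⟩
        omega
      rw [Multiset.card_map, smul_eq_mul] at m2
      have m3 : (ed g).card ≠ 0 := fun h0 => by
        rw [Multiset.card_eq_zero.1 h0] at m1; simp at m1; omega
      obtain ⟨f, hf⟩ := Multiset.card_eq_one.1 (show (ed g).card = 1 by omega)
      obtain ⟨v, hv⟩ := cyc_of_single (hf ▸ hasED_ed g)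
      exact k6 g v hv g2
  refine ⟨fun g => Good.cover hs hd ⟨Z, k1, k5⟩ (by omega), 1, ?_⟩
  rw [one_smul]
  rcases (Nat.succ_le_of_lt h3).eq_or_lt with h3 | h3
  · exact h3 ▸ l2 ▸ (k6 y u (h.inv l1) dy).succ (CJ.refl x)
  · exact Good.central hs hd ⟨Z, k1, k5⟩ h3

theorem caseC (h4 : 4 ≤ Fintype.card F) (hr : 6 ≤ finrank F V) {s : Multiset F[X]}
    (hs : ∀ f ∈ s, f.Monic ∧ 2 ≤ f.natDegree ∧ f.coeff 0 ≠ 0) (h2 : 2 ≤ s.card) (h : HasED x s)
    (hx : ∀ c : F, x ≠ c • 1) (hd : LinearMap.det x = 1) : Cov x := by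
  have k1 : ∀ Z : End F V, TT Z → LinearMap.det Z = 1 → PW ⊥ x 3 Z := fun Z hZ dZ => by
    obtain ⟨u, hu⟩ := hZ.cyc
    obtain ⟨Y, l1, l2⟩ := three h4 hs h2 h Z.charpoly_monic Z.charpoly_natDegree
      (by rw [← det_cyc Z.charpoly_monic, hu.sim_charpoly.det_eq, dZ, hd, one_pow])
    have := l2.symm.trans hu.sim_charpoly
    exact l1.simT (this.detC_eq.trans hZ.detC) this
  obtain ⟨Z, k2, k3⟩ : ∃ Z : End F V, TT Z ∧ LinearMap.det Z = 1 := by
    obtain ⟨b, l1, l2, l3, l4⟩ := exists_poly (F := F) (m := finrank F V - 1) (by omega)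
      ((-1) ^ (finrank F V - 1)) {1} (by simp; omega) (by simp)
    obtain ⟨Z, m1, -, m2⟩ := exists_TT (V := V) l1 (by omega) (l4 1 (by simp))
    exact ⟨Z, m1, by rw [m2, l2, l3]; simp [← mul_pow]⟩
  refine ⟨fun g => Good.cover hx hd ⟨Z, k2, k1 Z k2 k3⟩ hr, 1, ?_⟩
  rw [one_smul]
  rcases hr.eq_or_lt with h3 | h3
  · obtain ⟨Z', l1, l2⟩ := exists_inv (isUnit_of_det (x := Z) (by simp [k3]))
    exact h3 ▸ l2 ▸ (k1 Z k2 k3).mul
      (k1 Z' (k2.inv l1) (by simpa [k3] using congrArg LinearMap.det l1))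
  · exact Good.central hx hd ⟨Z, k2, k1 Z k2 k3⟩ h3

theorem caseD (h4 : 4 ≤ Fintype.card F) {A : Type*} [AddCommGroup A] [Module F A]
    [FiniteDimensional F A] {y : End F W} {z : End F A} {u : W} {v : A} (h1 : finrank F W = 2)
    (h2 : finrank F A = 3) (hy : Cyc y u) (hz : Cyc z v) (uy : IsUnit y) (uz : IsUnit z)
    (h : Sim (y.prodMap z : End F (W × A)) x) (hx : ∀ c : F, x ≠ c • 1)
    (hd : LinearMap.det x = 1) : Cov x := by
  classical
  have hn : finrank F V = 5 := by rw [← h.finrank_eq, finrank_prod, h1, h2]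
  have hD : detC x = ⊤ := eq_top_iff.2 fun c _ => by
    have k1 := detC_prodMap_left y z (smul_mem_detC y c⁻¹)
    have k2 := detC_prodMap_left z y (smul_mem_detC z c)
    rw [(sim_swap z y).detC_eq] at k2
    have := mul_mem k2 k1
    rw [h.detC_eq, h1, h2] at this
    convert this using 1
    group
  obtain ⟨ν, ν', y', k1, k2, k3, k4⟩ := exists_diag h4 h1 hy uy
  have k5 : ν * ν' ≠ 0 := by simp [k2, det_ne_zero uy]
  obtain ⟨μ, l1, l2, l3⟩ := exists_three h4 0 ν ν'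
  obtain ⟨g, m1, m2, m3, m4⟩ := exists_poly (m := 2) le_rfl (LinearMap.det z ^ 2 / μ) {μ, ν, ν'}
    (Finset.card_le_three.trans_lt h4) (by simpa [l1.symm, eq_comm, not_or] using k5)
  obtain ⟨Z, n1, n2, n3⟩ := exists_TT (V := A) m1 (by omega) (m4 μ (by simp))
  obtain ⟨w, hw⟩ := n1.cyc
  have n4 : ∀ c, μ ≠ c → g.eval c ≠ 0 → NoEig Z c := fun c c1 c2 =>
    ((noEig_smul_one c1).prodMap ((noEig_cyc_iff m1.ne_zero).2 c2)).sim n2
  have n5 := tt_two k1 hw (n4 ν l2 (m4 ν (by simp))) (n4 ν' l3 (m4 ν' (by simp))) k4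
  have n6 := (((PW.one _).left (CJ.top k3).symm).succ (CJ.refl _)).prodMap
    (pw_two_TT hz uz (by omega) n1 (by rw [n3, m2, m3]; field_simp))
  obtain ⟨e, rfl⟩ := h.exists_conj
  have n7 : Good ⊥ _ 2 := ⟨_, n5.sim (Sim.of_conj e _), (n6.conj e).of_top hD⟩
  exact ⟨fun g => n7.cover hx hd (by omega), 1, by simpa using n7.central hx hd hn.ge⟩

theorem caseE (h4 : 4 ≤ Fintype.card F) {y : End F W} {u : W} (h1 : finrank F W = 2)
    (hy : Cyc y u) (uy : IsUnit y) (h : Sim (y.prodMap y : End F (W × W)) x)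
    (hx : ∀ c : F, x ≠ c • 1) (hd : LinearMap.det x = 1) : Cov x := by
  have hn : finrank F V = 4 := by rw [← h.finrank_eq, finrank_prod, h1]
  obtain ⟨e, rfl⟩ := h.exists_conj
  have key : ∀ {δ : Fˣ} {a b : End F W}, CD δ y a → CD δ⁻¹ y b →
      PW ⊥ (e.conj (y.prodMap y)) 2 (e.conj ((y * a).prodMap (y * b))) := fun h h' => by
    have := h.prod h'
    rw [mul_inv_cancel] at this
    exact (((PW.one _).left this.cj.symm).succ (CJ.refl _)).conj e
  obtain ⟨ν, ν', y', k1, k2, k3, k4⟩ := exists_diag h4 h1 hy uy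
  obtain ⟨δ, k3⟩ := exists_CD k3
  obtain ⟨y'', w, l1, l2, l3, l4⟩ := cc_two h4 h1 hy uy k2 δ⁻¹
  refine ⟨fun g => Good.cover hx hd ⟨_, (tt_two k1 l2 l3 l4 k4).sim (Sim.of_conj e _), key k3 l1⟩
    hn.ge, ?_⟩
  have m1 : y.charpoly.natDegree = 2 := y.charpoly_natDegree.trans h1
  have m2 := y.aeval_self_charpoly
  rw [aeval_two y.charpoly_monic m1] at m2
  set a : End F W := (-y.charpoly.coeff 1) • 1 - y with ha
  have m3 : y * a = y.charpoly.coeff 0 • 1 := by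
    rw [ha, mul_sub, mul_smul_comm, mul_one]
    linear_combination (norm := module) -m2
  have m4 : Cyc a u := fun M p1 p2 => hy M p1 fun v hv => by
    simpa [ha] using M.sub_mem (M.smul_mem (-y.charpoly.coeff 1) hv) (p2 v hv)
  obtain ⟨ε, m5⟩ := exists_CD (hy.sim_charpoly.symm.trans (m4.sim_cyc y.charpoly_monic
    y.charpoly_natDegree (by
      rw [aeval_two y.charpoly_monic m1, ← m3, ← smul_one_mul, ← add_mul, ← add_mul]
      simp [ha]
      abel)))
  have m6 := key m5 (by convert m5.scale ε⁻¹ using 1; rw [h1]; group)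
  refine ⟨y.charpoly.coeff 0 * y.charpoly.coeff 0, hn ▸ ?_⟩
  convert m6.mul m6 using 1
  ext v
  simp [m3, LinearEquiv.conj_apply, smul_smul, ← Prod.smul_mk]

theorem caseE' (h4 : 4 ≤ Fintype.card F) {a b : F} {f : F[X]} (hf : f.Monic) (hab : a ≠ b)
    (ha : f.eval a = 0) (hb : f.eval b ≠ 0) (h : HasED x ((X - C a) * (X - C b) ::ₘ {f}))
    (hx : ∀ c : F, x ≠ c • 1) (hd : LinearMap.det x = 1) : Cov x := by
  have h1 := (hasED_merge (isCoprime_X_sub_C_of_isUnit_sub (sub_ne_zero.2 hab).isUnit)).2 h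
  rw [Multiset.cons_swap, ← Multiset.cons_zero f, Multiset.cons_swap (X - C a), hasED_merge
    ((irreducible_X_sub_C b).coprime_iff_not_dvd.2 (mt dvd_iff_isRoot.1 hb)),
    Multiset.cons_swap] at h1
  exact caseA h4 h1 (by simp [ha, (monic_X_sub_C b).mul hf]) hx hd

theorem exists_root_mul {f : F[X]} (hf : f.Monic) (hd : f.natDegree = 2) {a : F}
    (ha : f.eval a = 0) : ∃ b, f = (X - C a) * (X - C b) := by
  obtain ⟨g, rfl⟩ := dvd_iff_isRoot.2 ha
  have hg := (monic_X_sub_C a).of_mul_monic_left hf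
  rw [(monic_X_sub_C a).natDegree_mul hg, natDegree_X_sub_C] at hd
  exact ⟨-g.coeff 0, by rw [map_neg, sub_neg_eq_add, ← hg.eq_X_add_C (by omega)]⟩

theorem cov (h4 : 4 ≤ Fintype.card F) (hr : 3 ≤ finrank F V) (hx : ∀ c : F, x ≠ c • 1)
    (hd : LinearMap.det x = 1) : Cov x := by
  obtain ⟨s, h, h1, h2⟩ := exists_dec x
  have h0 := (h.isUnit_iff fun f hf => (h1 f hf).1).1 (isUnit_of_det (by simp [hd]))
  have hn := h.finrank_eq fun f hf => (h1 f hf).1.ne_zero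
  by_cases h3 : ∃ a ∈ s, a.natDegree = 1
  · obtain ⟨a, k1, k2⟩ := h3
    obtain ⟨s, rfl⟩ := Multiset.exists_cons_of_mem k1
    obtain ⟨μ, rfl⟩ : ∃ μ, a = X - C μ :=
      ⟨-a.coeff 0, by rw [map_neg, sub_neg_eq_add, ← (h1 a k1).1.eq_X_add_C k2]⟩
    refine caseA h4 h (fun f hf => ⟨(h1 f (Multiset.mem_cons_of_mem hf)).1, ?_⟩) hx hd
    obtain ⟨t, rfl⟩ := Multiset.exists_cons_of_mem hf
    exact dvd_iff_isRoot.1 (not_not.1 (mt (irreducible_X_sub_C μ).coprime_iff_not_dvd.2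
      (h2 _ _ _ rfl)))
  have hs : ∀ f ∈ s, f.Monic ∧ 2 ≤ f.natDegree ∧ f.coeff 0 ≠ 0 := fun f hf => by
    refine ⟨(h1 f hf).1, ?_, mt X_dvd_iff.2 (h0 f hf)⟩
    have := (h1 f hf).2
    have : f.natDegree ≠ 1 := fun h => h3 ⟨f, hf, h⟩
    omega
  rcases lt_or_ge s.card 2 with h5 | h5
  · have : s.card ≠ 0 := fun h0 => by
      rw [Multiset.card_eq_zero.1 h0] at hn; simp at hn; omega
    obtain ⟨f, rfl⟩ := Multiset.card_eq_one.1 (show s.card = 1 by omega)
    obtain ⟨u, hu⟩ := cyc_of_single h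
    exact caseB h4 hr hu hd
  rcases le_or_gt 6 (finrank F V) with h6 | h6
  · exact caseC h4 h6 hs h5 h hx hd
  have m2 := Multiset.card_nsmul_le_sum (s := s.map natDegree) (a := 2) fun d hd => by
    obtain ⟨a, ha, rfl⟩ := Multiset.mem_map.1 hd
    exact (hs a ha).2.1
  rw [Multiset.card_map, smul_eq_mul] at m2
  obtain ⟨f, g, rfl⟩ := Multiset.card_eq_two.1 (show s.card = 2 by omega)
  obtain ⟨f1, f2, f3⟩ := hs f (by simp)
  obtain ⟨g1, g2, g3⟩ := hs g (by simp)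
  have h7 := h2 f g 0 rfl
  have := fd_adjoinRoot f1.ne_zero
  have := fd_adjoinRoot g1.ne_zero
  have h8 := ((hasED_cyc f).prodMap (hasED_cyc g)).sim h
  simp at hn
  rcases f2.eq_or_lt with f2 | f2 <;> rcases g2.eq_or_lt with g2 | g2
  · rcases eq_or_ne f g with rfl | hfg
    · exact caseE h4 ((finrank_adjoinRoot f).trans f2.symm) (cyc_one f) (isUnit_cyc f1 f3) h8 hx hd
    obtain ⟨a, k1, k2⟩ : ∃ a, f.eval a = 0 ∧ g.eval a = 0 := by
      by_cases hi : Irreducible f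
      · exact (hfg (eq_of_monic_of_dvd_of_natDegree_le f1 g1
          (not_not.1 (mt hi.coprime_iff_not_dvd.2 h7)) (by omega)).symm).elim
      rw [f1.irreducible_iff_roots_eq_zero_of_degree_le_three f2.le (by omega)] at hi
      obtain ⟨a, ha⟩ := Multiset.exists_mem_of_ne_zero hi
      obtain ⟨b, rfl⟩ := exists_root_mul f1 f2.symm (isRoot_of_mem_roots ha)
      by_contra hc
      push Not at hc
      exact h7 (((irreducible_X_sub_C a).coprime_iff_not_dvd.2 (mt dvd_iff_isRoot.1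
        (hc a (by simp)))).mul_left ((irreducible_X_sub_C b).coprime_iff_not_dvd.2
        (mt dvd_iff_isRoot.1 (hc b (by simp)))))
    obtain ⟨b, rfl⟩ := exists_root_mul f1 f2.symm k1
    obtain ⟨c, rfl⟩ := exists_root_mul g1 g2.symm k2
    have hbc : b ≠ c := by rintro rfl; exact hfg rfl
    rcases eq_or_ne a b with rfl | hab
    · exact caseE' h4 f1 hbc k1 (by simpa [sub_eq_zero] using hbc.symm)
        (by rwa [Multiset.pair_comm] at h) hx hd
    · exact caseE' h4 g1 hab k2 (by simp [sub_eq_zero, hab.symm, hbc]) h hx hd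
  · exact caseD h4 ((finrank_adjoinRoot f).trans f2.symm) ((finrank_adjoinRoot g).trans (by omega))
      (cyc_one f) (cyc_one g) (isUnit_cyc f1 f3) (isUnit_cyc g1 g3) h8 hx hd
  · exact caseD h4 ((finrank_adjoinRoot g).trans g2.symm) ((finrank_adjoinRoot f).trans (by omega))
      (cyc_one g) (cyc_one f) (isUnit_cyc g1 g3) (isUnit_cyc f1 f3) ((sim_swap _ _).trans h8) hx hd
  · omega

end CF.LevC
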