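/-
Covering number of `PSL(n,q)`: transfer to matrices.
-/
import Cfsg.Agent.LevC.L

set_option autoImplicit false

namespace CF.LevC

open Module CF.Cls CF.Classical Polynomial Matrix
open LinearMap (transvection)

variable {F : Type*} [Field F] {n : ℕ}

/-- the endomorphism of a matrix -/
def tl : SpecialLinearGroup (Fin n) F →* End F (Fin n → F) where
  toFun g := toLin' g.1
  map_one' := toLin'_one
  map_mul' a b := toLin'_mul a.1 b.1

theorem tl_inj : Function.Injective (tl (F := F) (n := n)) := fun _ _ h =>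
  Subtype.ext (toLin'.injective h)

theorem det_tl (g : SpecialLinearGroup (Fin n) F) : LinearMap.det (tl g) = 1 :=
  (LinearMap.det_toLin' g.1).trans g.2

theorem center_iff {g : SpecialLinearGroup (Fin n) F} :
    g ∈ Subgroup.center _ ↔ ∃ c : F, tl g = c • 1 := by
  refine ⟨fun h => ?_, fun ⟨c, h⟩ => Subgroup.mem_center_iff.2 fun a => tl_inj (by simp [h])⟩
  obtain ⟨c, -, h⟩ := Matrix.SpecialLinearGroup.mem_center_iff.1 h
  refine ⟨c, ?_⟩
  change toLin' g.1 = _
  rw [← h, scalar_apply, ← smul_one_eq_diagonal, map_smul, toLin'_one]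
  rfl

theorem exists_of_pw {x : SpecialLinearGroup (Fin n) F} {k : ℕ} {Y : End F (Fin n → F)}
    (h : PW ⊥ (tl x) k Y) : ∃ f : Fin k → SpecialLinearGroup (Fin n) F,
      tl (List.ofFn fun i => f i * x * (f i)⁻¹).prod = Y := by
  induction h with
  | zero => exact ⟨Fin.elim0, by simp⟩
  | succ h1 _ ih =>
    obtain ⟨f, rfl⟩ := ih
    obtain ⟨e, h2, h3⟩ := h1
    obtain ⟨z, hz⟩ := exists_SL_toLin' (Z := e.toLinearMap)
      (by rw [← LinearEquiv.coe_det, Subgroup.mem_bot.1 h2]; rfl)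
    refine ⟨Fin.cons z f, ?_⟩
    rw [List.ofFn_succ, List.prod_cons, map_mul]
    congr 1
    rw [Fin.cons_zero, ← ((Group.isUnit z).map tl).mul_left_inj, ← map_mul, inv_mul_cancel_right,
      map_mul, show tl z = e from hz]
    exact LinearMap.ext h3

theorem pw_of_list (x : SpecialLinearGroup (Fin n) F) (k : ℕ)
    (f : Fin k → SpecialLinearGroup (Fin n) F) :
    PW ⊤ (tl x) k (tl (List.ofFn fun i => f i * x * (f i)⁻¹).prod) := by
  induction k with
  | zero => simpa using PW.zero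
  | succ k ih =>
    rw [List.ofFn_succ, List.prod_cons, map_mul]
    refine (ih _).succ (CJ.top ⟨LinearEquiv.ofBijective (tl (f 0))
      ((End.isUnit_iff _).1 ((Group.isUnit _).map tl)), fun v => ?_⟩)
    change (tl (f 0) * tl x) v = (tl (f 0 * x * (f 0)⁻¹) * tl (f 0)) v
    simp [← map_mul]

theorem fix_of_pw {V : Type*} [AddCommGroup V] [Module F V] [FiniteDimensional F V]
    {φ : Dual F V} {v : V} {k : ℕ} {Y : End F V} (h : PW ⊤ (transvection φ v) k Y) :
    ∀ U : Submodule F V, k < finrank F U → ∃ w ∈ U, w ≠ 0 ∧ Y w = w := by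
  induction h with
  | zero =>
    intro U hU
    obtain ⟨w, hw⟩ := finrank_pos_iff_exists_ne_zero.1 hU
    exact ⟨w, w.2, by simpa using hw, rfl⟩
  | succ h1 _ ih =>
    intro U hU
    obtain ⟨e, -, he⟩ := h1
    obtain ⟨w, k1, k2, k3⟩ := ih (U ⊓ LinearMap.ker (φ ∘ₗ e.symm.toLinearMap)) (by
      by_cases h : ∃ a ∈ U, (φ ∘ₗ e.symm.toLinearMap) a ≠ 0
      · obtain ⟨a, h1, h2⟩ := h
        have := lv_finrank_inf_ker h1 h2
        omega
      · push Not at h
        rw [inf_eq_left.2 h]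
        omega)
    refine ⟨w, k1.1, k2, ?_⟩
    obtain ⟨w, rfl⟩ := e.surjective w
    have : φ w = 0 := by simpa using k1.2
    rw [End.mul_apply, k3, ← he, LinearMap.transvection.apply, this, zero_smul, add_zero]

theorem mk_prod {G H : Type*} [Group G] [Group H] (π : G →* H) (x : G) {k : ℕ} (f : Fin k → G) :
    π (List.ofFn fun i => f i * x * (f i)⁻¹).prod =
      (List.ofFn fun i => π (f i) * π x * (π (f i))⁻¹).prod := by
  rw [map_list_prod, List.map_ofFn]
  simp [Function.comp_def]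

variable [Fintype F]

theorem upper (h4 : 4 ≤ Fintype.card F) (hn : 3 ≤ n) (x : ProjectiveSpecialLinearGroup (Fin n) F)
    (hx : x ≠ 1) (g : ProjectiveSpecialLinearGroup (Fin n) F) :
    ∃ f : Fin n → ProjectiveSpecialLinearGroup (Fin n) F,
      g = (List.ofFn fun i => f i * x * (f i)⁻¹).prod := by
  obtain ⟨x, rfl⟩ := QuotientGroup.mk'_surjective _ x
  obtain ⟨g, rfl⟩ := QuotientGroup.mk'_surjective _ g
  obtain ⟨h1, c, h2⟩ := cov (x := tl x) h4 (by simpa using hn)
    (fun c hc => hx ((QuotientGroup.eq_one_iff x).2 (center_iff.2 ⟨c, hc⟩))) (det_tl x)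
  rw [finrank_fin_fun] at h1 h2
  by_cases hg : ∃ c : F, tl g = c • 1
  · obtain ⟨f, hf⟩ := exists_of_pw h2
    refine ⟨fun i => QuotientGroup.mk' _ (f i), Eq.trans ?_ (mk_prod _ x f)⟩
    exact ((QuotientGroup.eq_one_iff _).2 (center_iff.2 hg)).trans
      ((QuotientGroup.eq_one_iff _).2 (center_iff.2 ⟨c, hf⟩)).symm
  · obtain ⟨f, hf⟩ := exists_of_pw (h1 (tl g) (by simpa using hg) (det_tl g))
    exact ⟨fun i => QuotientGroup.mk' _ (f i), by rw [← tl_inj hf, mk_prod]⟩

theorem lower (hn : 3 ≤ n) : ∃ x : ProjectiveSpecialLinearGroup (Fin n) F, x ≠ 1 ∧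
    ∃ g : ProjectiveSpecialLinearGroup (Fin n) F,
      ∀ f : Fin (n - 1) → ProjectiveSpecialLinearGroup (Fin n) F,
        g ≠ (List.ofFn fun i => f i * x * (f i)⁻¹).prod := by
  classical
  obtain ⟨x, hx⟩ := exists_SL_toLin' (Z := transvection (LinearMap.proj (⟨0, by omega⟩ : Fin n))
    (Pi.single (⟨1, by omega⟩ : Fin n) (1 : F))) (by simp)
  obtain ⟨a, k1, k2, k3, k4⟩ := exists_poly (F := F) (m := n) (by omega) ((-1) ^ n)
    (Finset.univ.erase 0) (Finset.card_erase_lt_of_mem (by simp)) (by simp)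
  have := fd_adjoinRoot k1.ne_zero
  obtain ⟨g, hg⟩ := exists_SL_sim (ι := Fin n) (Z := cyc a)
    (by rw [det_cyc k1, k2, k3]; simp [← mul_pow]) (by simp [finrank_adjoinRoot, k2])
  refine ⟨QuotientGroup.mk' _ x, fun h => ?_, QuotientGroup.mk' _ g, fun f h => ?_⟩
  · obtain ⟨c, hc⟩ := center_iff.1 ((QuotientGroup.eq_one_iff x).1 h)
    have := congrFun (LinearMap.congr_fun (hx.symm.trans hc) (Pi.single ⟨0, by omega⟩ 1))
      ⟨1, by omega⟩
    simp [LinearMap.transvection.apply] at this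
  · choose f' hf using fun i => QuotientGroup.mk'_surjective _ (f i)
    simp only [← hf, ← mk_prod] at h
    obtain ⟨z, h1, h2⟩ := (QuotientGroup.mk'_eq_mk' _).1 h.symm
    obtain ⟨c, hc⟩ := center_iff.1 h1
    obtain ⟨w, -, l1, l2⟩ := fix_of_pw ((show tl x = _ from hx) ▸ pw_of_list x _ f') ⊤
      (by simp; omega)
    refine l1 (((noEig_cyc_iff (ν := c) k1.ne_zero).2 ?_).sim hg w ?_)
    · rcases eq_or_ne c 0 with rfl | h0
      · simp [← coeff_zero_eq_eval_zero, k3]
      · exact k4 c (by simp [h0])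
    · change tl g w = _
      rw [← h2, map_mul, hc]
      simp [l2]

end CF.LevC
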